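import Cfsg.Agent.Lib.H13.Extra
import Cfsg.Agent.Lib.H13.Basic

/-! Large extraspecial 2-subgroups: elementwise data, commutator calculus, the
double-centralizer exchange lemma, and the conjugation properties of `Q x`. -/

set_option autoImplicit false

namespace Cfsg.Agent.LES

open Cfsg

variable {G : Type*} [Group G]

/-- Elementwise data of an extraspecial 2-subgroup `R` with centre `{1,y}`. -/
structure ES (R : Subgroup G) (y : G) : Prop where
  mem : y ∈ R
  ne : y ≠ 1
  sq : y * y = 1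
  cy : ∀ r ∈ R, r * y = y * r
  comm : ∀ r ∈ R, ∀ s ∈ R, r * s = s * r ∨ r * s = y * (s * r)
  cen : ∀ r ∈ R, (∀ s ∈ R, r * s = s * r) → r = 1 ∨ r = y
  squ : ∀ r ∈ R, r * r = 1 ∨ r * r = y

theorem es_of [Finite G] {R : Subgroup G} {y : G} (hE : IsExtraspecial 2 R) (hy : y ∈ R) (hy1 : y ≠ 1)
    (hc : ∀ r ∈ R, r * y = y * r) : ES R y := by
  obtain ⟨w, hw1, hw2, hwc, hws, hwa, hwz⟩ := Cfsg.Agent.H13.extraspecial_two_setup hE
  have hyc : (⟨y, hy⟩ : R) ∈ Subgroup.center R := by
    rw [Subgroup.mem_center_iff]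
    intro r
    apply Subtype.ext
    exact hc r r.2
  have hyw : (⟨y, hy⟩ : R) = w := by
    rcases (hwz _).1 hyc with h | h
    · exact absurd (congrArg Subtype.val h) hy1
    · exact h
  have hwy : (w : G) = y := (congrArg Subtype.val hyw).symm
  refine ⟨hy, hy1, ?_, hc, ?_, ?_, ?_⟩
  · have := congrArg Subtype.val hw2
    simpa [pow_two, hwy] using this
  · intro r hr s hs
    rcases hwa ⟨r, hr⟩ ⟨s, hs⟩ with h | h
    · left; exact congrArg Subtype.val h
    · right
      have := congrArg Subtype.val h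
      simpa [hwy] using this
  · intro r hr h
    have : (⟨r, hr⟩ : R) ∈ Subgroup.center R := by
      rw [Subgroup.mem_center_iff]
      intro s
      apply Subtype.ext
      exact (h s s.2).symm
    rcases (hwz _).1 this with h | h
    · left; exact congrArg Subtype.val h
    · right
      have := congrArg Subtype.val h
      simpa [hwy] using this
  · intro r hr
    rcases hws ⟨r, hr⟩ with h | h
    · left
      have := congrArg Subtype.val h
      simpa [pow_two] using this
    · right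
      have := congrArg Subtype.val h
      simpa [pow_two, hwy] using this

/-- Conjugation transports the data. -/
theorem ES.conj {R R' : Subgroup G} {y : G} (E : ES R y) (g : G)
    (h : ∀ r, r ∈ R' ↔ g⁻¹ * r * g ∈ R) : ES R' (g * y * g⁻¹) := by
  have hh : ∀ r ∈ R, g * r * g⁻¹ ∈ R' := fun r hr => by
    rw [h]
    simpa [mul_assoc] using hr
  refine ⟨hh y E.mem, ?_, ?_, ?_, ?_, ?_, ?_⟩
  · intro h1
    apply E.ne
    have : y = g⁻¹ * (g * y * g⁻¹) * g := by group
    rw [this, h1]; group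
  · have : g * y * g⁻¹ * (g * y * g⁻¹) = g * (y * y) * g⁻¹ := by group
    rw [this, E.sq]; group
  · intro r hr
    have h1 := E.cy _ ((h r).1 hr)
    have h2 : g * ((g⁻¹ * r * g) * y) * g⁻¹ = g * (y * (g⁻¹ * r * g)) * g⁻¹ := by rw [h1]
    calc r * (g * y * g⁻¹) = g * ((g⁻¹ * r * g) * y) * g⁻¹ := by group
      _ = g * (y * (g⁻¹ * r * g)) * g⁻¹ := h2
      _ = _ := by group
  · intro r hr s hs
    rcases E.comm _ ((h r).1 hr) _ ((h s).1 hs) with h1 | h1
    · left
      have h2 : g * ((g⁻¹ * r * g) * (g⁻¹ * s * g)) * g⁻¹ = g * ((g⁻¹ * s * g) * (g⁻¹ * r * g)) * g⁻¹ := by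
        rw [h1]
      calc r * s = g * ((g⁻¹ * r * g) * (g⁻¹ * s * g)) * g⁻¹ := by group
        _ = g * ((g⁻¹ * s * g) * (g⁻¹ * r * g)) * g⁻¹ := h2
        _ = _ := by group
    · right
      have h2 : g * ((g⁻¹ * r * g) * (g⁻¹ * s * g)) * g⁻¹ = g * (y * ((g⁻¹ * s * g) * (g⁻¹ * r * g))) * g⁻¹ := by
        rw [h1]
      calc r * s = g * ((g⁻¹ * r * g) * (g⁻¹ * s * g)) * g⁻¹ := by group
        _ = g * (y * ((g⁻¹ * s * g) * (g⁻¹ * r * g))) * g⁻¹ := h2
        _ = _ := by group
  · intro r hr hc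
    have h1 : ∀ s ∈ R, (g⁻¹ * r * g) * s = s * (g⁻¹ * r * g) := by
      intro s hs
      have := hc _ (hh s hs)
      have h2 : g⁻¹ * (r * (g * s * g⁻¹)) * g = g⁻¹ * ((g * s * g⁻¹) * r) * g := by rw [this]
      calc (g⁻¹ * r * g) * s = g⁻¹ * (r * (g * s * g⁻¹)) * g := by group
        _ = g⁻¹ * ((g * s * g⁻¹) * r) * g := h2
        _ = _ := by group
    rcases E.cen _ ((h r).1 hr) h1 with h3 | h3
    · left
      have : r = g * (g⁻¹ * r * g) * g⁻¹ := by group
      rw [this, h3]; group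
    · right
      have : r = g * (g⁻¹ * r * g) * g⁻¹ := by group
      rw [this, h3]
  · intro r hr
    rcases E.squ _ ((h r).1 hr) with h1 | h1
    · left
      have : r * r = g * ((g⁻¹ * r * g) * (g⁻¹ * r * g)) * g⁻¹ := by group
      rw [this, h1]; group
    · right
      have : r * r = g * ((g⁻¹ * r * g) * (g⁻¹ * r * g)) * g⁻¹ := by group
      rw [this, h1]

/-- the commutator -/
def cm (u v : G) : G := u * v * u⁻¹ * v⁻¹

theorem cm_def (u v : G) : cm u v = u * v * u⁻¹ * v⁻¹ := rfl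

theorem conj_eq_cm (u v : G) : u * v * u⁻¹ = cm u v * v := by
  simp [cm]

theorem cm_eq_one_iff {u v : G} : cm u v = 1 ↔ u * v = v * u := by
  rw [cm]
  constructor
  · intro h
    have : u * v = (u * v * u⁻¹ * v⁻¹) * (v * u) := by group
    rw [this, h, one_mul]
  · intro h
    rw [h]; group

namespace ES

variable {R : Subgroup G} {y : G} (E : ES R y)
include E

theorem cm_val {r s : G} (hr : r ∈ R) (hs : s ∈ R) : cm r s = 1 ∨ cm r s = y := by
  rcases E.comm r hr s hs with h | h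
  · left; exact cm_eq_one_iff.2 h
  · right
    rw [cm, h]; group

theorem cm_central {r s t : G} (hr : r ∈ R) (hs : s ∈ R) (ht : t ∈ R) : cm r s * t = t * cm r s := by
  rcases E.cm_val hr hs with h | h
  · rw [h]; simp
  · rw [h]; exact (E.cy t ht).symm

theorem cm_mem {r s : G} (hr : r ∈ R) (hs : s ∈ R) : cm r s ∈ R := by
  rcases E.cm_val hr hs with h | h
  · rw [h]; exact R.one_mem
  · rw [h]; exact E.mem

theorem cm_sq {r s : G} (hr : r ∈ R) (hs : s ∈ R) : cm r s * cm r s = 1 := by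
  rcases E.cm_val hr hs with h | h
  · rw [h]; simp
  · rw [h]; exact E.sq

theorem cm_inv {r s : G} (hr : r ∈ R) (hs : s ∈ R) : (cm r s)⁻¹ = cm r s := by
  have := E.cm_sq hr hs
  exact inv_eq_of_mul_eq_one_left this

theorem cm_mul_left {a b s : G} (ha : a ∈ R) (hb : b ∈ R) (hs : s ∈ R) :
    cm (a * b) s = cm a s * cm b s := by
  have h1 : cm (a * b) s = a * (cm b s) * s * a⁻¹ * s⁻¹ := by
    simp only [cm]; group
  have h2 : a * cm b s = cm b s * a := (E.cm_central hb hs ha).symm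
  rw [h1, h2]
  have h3 : cm b s * a * s * a⁻¹ * s⁻¹ = cm b s * cm a s := by
    simp only [cm]; group
  rw [h3]
  exact E.cm_central hb hs (E.cm_mem ha hs)

theorem cm_symm {a b : G} (ha : a ∈ R) (hb : b ∈ R) : cm a b = cm b a := by
  have h : cm b a = (cm a b)⁻¹ := by simp only [cm]; group
  rw [h, E.cm_inv ha hb]

theorem cm_mul_right {a b s : G} (ha : a ∈ R) (hb : b ∈ R) (hs : s ∈ R) :
    cm s (a * b) = cm s a * cm s b := by
  rw [E.cm_symm hs (R.mul_mem ha hb), E.cm_mul_left ha hb hs, E.cm_symm ha hs, E.cm_symm hb hs]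

theorem cm_inv_left {a s : G} (ha : a ∈ R) (hs : s ∈ R) : cm a⁻¹ s = cm a s := by
  have h1 := E.cm_mul_left (R.inv_mem ha) ha hs
  have h2 : cm (a⁻¹ * a) s = 1 := by simp [cm]
  rw [h2] at h1
  have h3 := E.cm_sq ha hs
  have h4 : cm a⁻¹ s * (cm a s * cm a s) = cm a s := by
    rw [← mul_assoc, ← h1, one_mul]
  rwa [h3, mul_one] at h4

theorem cm_y_left {s : G} (hs : s ∈ R) : cm y s = 1 := cm_eq_one_iff.2 (E.cy s hs).symm

theorem cm_y_right {s : G} (hs : s ∈ R) : cm s y = 1 := cm_eq_one_iff.2 (E.cy s hs)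

/-- if `t ∈ R` is noncentral then `w ∈ R` exists with `[w,t] = y`. -/
theorem exists_ne {t : G} (ht : t ∈ R) (h1 : t ≠ 1) (h2 : t ≠ y) : ∃ w ∈ R, w * t ≠ t * w := by
  by_contra h
  push Not at h
  rcases E.cen t ht (fun s hs => (h s hs).symm) with h3 | h3
  · exact h1 h3
  · exact h2 h3

/-- Exchange lemma: in the symplectic space `R/⟨y⟩`, an element outside a subgroup generated by `y` and a
finite set is separated by the centralizer of that set. -/
theorem exists_comm_ne (F : Finset G) (hF : ∀ f ∈ F, f ∈ R) :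
    ∀ t ∈ R, t ∉ Subgroup.closure (insert y (F : Set G)) →
      ∃ w ∈ R, (∀ f ∈ F, w * f = f * w) ∧ w * t ≠ t * w := by
  classical
  induction F using Finset.induction_on with
  | empty =>
    intro t ht hn
    have h1 : t ≠ 1 := fun h => hn (h ▸ Subgroup.one_mem _)
    have h2 : t ≠ y := fun h => hn (h ▸ Subgroup.subset_closure (by simp))
    obtain ⟨w, hw, hne⟩ := E.exists_ne ht h1 h2
    exact ⟨w, hw, by simp, hne⟩
  | insert f F hf ih =>
    intro t ht hn
    have hFF : ∀ f ∈ F, f ∈ R := fun a ha => hF a (Finset.mem_insert_of_mem ha)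
    have hfR : f ∈ R := hF f (Finset.mem_insert_self _ _)
    have hmono : Subgroup.closure (insert y (F : Set G)) ≤
        Subgroup.closure (insert y ((insert f F : Finset G) : Set G)) := by
      apply Subgroup.closure_mono
      intro a ha
      simp only [Finset.coe_insert, Set.mem_insert_iff, Finset.mem_coe] at ha ⊢
      tauto
    have hfmem : f ∈ Subgroup.closure (insert y ((insert f F : Finset G) : Set G)) :=
      Subgroup.subset_closure (by simp)
    have ht1 : t ∉ Subgroup.closure (insert y (F : Set G)) := fun h => hn (hmono h)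
    have ht3 : f * t ∉ Subgroup.closure (insert y (F : Set G)) := by
      intro h
      apply hn
      have h2 := hmono h
      have h3 := Subgroup.mul_mem _ (Subgroup.inv_mem _ hfmem) h2
      simpa using h3
    obtain ⟨w₁, hw₁, hc₁, hn₁⟩ := ih hFF t ht ht1
    obtain ⟨w₃, hw₃, hc₃, hn₃⟩ := ih hFF (f * t) (R.mul_mem hfR ht) ht3
    have hins : ∀ w : G, (∀ a ∈ F, w * a = a * w) → w * f = f * w →
        ∀ a ∈ insert f F, w * a = a * w := by
      intro w h1 h2 a ha
      rcases Finset.mem_insert.1 ha with rfl | ha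
      · exact h2
      · exact h1 a ha
    by_cases h1f : w₁ * f = f * w₁
    · exact ⟨w₁, hw₁, hins _ hc₁ h1f, hn₁⟩
    have hn₁' : cm w₁ t = y := by
      rcases E.cm_val hw₁ ht with h | h
      · exact absurd (cm_eq_one_iff.1 h) hn₁
      · exact h
    have hf₁' : cm w₁ f = y := by
      rcases E.cm_val hw₁ hfR with h | h
      · exact absurd (cm_eq_one_iff.1 h) h1f
      · exact h
    by_cases h3f : w₃ * f = f * w₃
    · refine ⟨w₃, hw₃, hins _ hc₃ h3f, ?_⟩
      intro h
      apply hn₃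
      rw [← cm_eq_one_iff, E.cm_mul_right hfR ht hw₃, cm_eq_one_iff.2 h3f, cm_eq_one_iff.2 h, one_mul]
    have hf₃' : cm w₃ f = y := by
      rcases E.cm_val hw₃ hfR with h | h
      · exact absurd (cm_eq_one_iff.1 h) h3f
      · exact h
    have ht₃' : cm w₃ t = 1 := by
      rcases E.cm_val hw₃ ht with h | h
      · exact h
      · exfalso
        apply hn₃
        rw [← cm_eq_one_iff, E.cm_mul_right hfR ht hw₃, hf₃', h, E.sq]
    refine ⟨w₁ * w₃, R.mul_mem hw₁ hw₃, hins _ ?_ ?_, ?_⟩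
    · intro a ha
      rw [mul_assoc, hc₃ a ha, ← mul_assoc, hc₁ a ha, mul_assoc]
    · rw [← cm_eq_one_iff, E.cm_mul_left hw₁ hw₃ hfR, hf₁', hf₃', E.sq]
    · intro h
      have h2 := cm_eq_one_iff.2 h
      rw [E.cm_mul_left hw₁ hw₃ ht, hn₁', ht₃', mul_one] at h2
      exact E.ne h2

/-- Double centralizer: a subgroup `S` of `R` containing `y`; any `t ∈ R \ S` is separated by an element of `R`
centralizing `S`. -/
theorem exists_centralizing [Finite G] {S : Subgroup G} (hS : S ≤ R) (hy : y ∈ S) {t : G} (ht : t ∈ R) (hn : t ∉ S) :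
    ∃ w ∈ R, (∀ s ∈ S, w * s = s * w) ∧ w * t ≠ t * w := by
  classical
  have hfin : (S : Set G).Finite := Set.toFinite _
  have hcl : Subgroup.closure (insert y ((hfin.toFinset : Finset G) : Set G)) ≤ S := by
    rw [Subgroup.closure_le]
    intro a ha
    simp only [Set.Finite.coe_toFinset, Set.mem_insert_iff] at ha
    rcases ha with rfl | ha
    · exact hy
    · exact ha
  obtain ⟨w, hw, hc, hne⟩ := E.exists_comm_ne hfin.toFinset
    (fun f hf => hS (by simpa using hf)) t ht (fun h => hn (hcl h))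
  exact ⟨w, hw, fun s hs => hc s (by simpa using hs), hne⟩

end ES

/-- The setting of a large extraspecial subgroup, elementwise. -/
structure Setup (Q : G → Subgroup G) (z : G) : Prop where
  conjQ : ∀ g x r, r ∈ Q x → g * r * g⁻¹ ∈ Q (g * x * g⁻¹)
  normQ : ∀ x g r, g * x = x * g → r ∈ Q x → g * r * g⁻¹ ∈ Q x
  commQ : ∀ x r, r ∈ Q x → r * x = x * r
  es : ∀ y, (∃ g, g * z * g⁻¹ = y) → ES (Q y) y
  cent : ∀ y, (∃ g, g * z * g⁻¹ = y) → ∀ r, (∀ s ∈ Q y, r * s = s * r) → r ∈ Q y

theorem setup_of [Finite G] (Q : G → Subgroup G)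
    (hQ : ∀ x : G, Q x = (Cfsg.pCore 2 ↥(Subgroup.centralizer ({x} : Set G))).map (Subgroup.centralizer ({x} : Set G)).subtype)
    (z : G) (hz : orderOf z = 2) (hE : Cfsg.IsExtraspecial 2 ↥(Q z))
    (hC : Subgroup.centralizer ((Q z : Subgroup G) : Set G) ≤ Q z) : Setup Q z := by
  haveI : Fact (Nat.Prime 2) := ⟨Nat.prime_two⟩
  have hQ' : ∀ x : G, Q x = Cfsg.pCoreOf 2 (Subgroup.centralizer ({x} : Set G)) := hQ
  have hle : ∀ x, Q x ≤ Subgroup.centralizer ({x} : Set G) := fun x => by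
    rw [hQ']; exact Cfsg.Agent.H13.pCoreOf_le _
  have hnorm : ∀ x, Subgroup.centralizer ({x} : Set G) ≤ Subgroup.normalizer (Q x : Set G) := fun x => by
    rw [hQ']; exact Cfsg.Agent.H13.pCoreOf_normalized _
  have hp : ∀ x, IsPGroup 2 (Q x) := fun x => by
    rw [hQ']; exact Cfsg.Agent.H13.isPGroup_pCoreOf _
  have hmemC : ∀ x g : G, g ∈ Subgroup.centralizer ({x} : Set G) ↔ g * x = x * g := fun x g => by
    rw [Subgroup.mem_centralizer_singleton_iff]
  have hconjC : ∀ g x : G, (Subgroup.centralizer ({x} : Set G)).map (MulAut.conj g).toMonoidHom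
      = Subgroup.centralizer ({g * x * g⁻¹} : Set G) := by
    intro g x
    ext a
    rw [Cfsg.Agent.H13.mem_map_conj, hmemC, hmemC]
    constructor
    · intro h
      have h2 : g * (g⁻¹ * a * g * x) * g⁻¹ = g * (x * (g⁻¹ * a * g)) * g⁻¹ := by rw [h]
      calc a * (g * x * g⁻¹) = g * (g⁻¹ * a * g * x) * g⁻¹ := by group
        _ = g * (x * (g⁻¹ * a * g)) * g⁻¹ := h2
        _ = _ := by group
    · intro h
      have h2 : g⁻¹ * (a * (g * x * g⁻¹)) * g = g⁻¹ * ((g * x * g⁻¹) * a) * g := by rw [h]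
      calc g⁻¹ * a * g * x = g⁻¹ * (a * (g * x * g⁻¹)) * g := by group
        _ = g⁻¹ * ((g * x * g⁻¹) * a) * g := h2
        _ = _ := by group
  have hmapQ : ∀ g x, (Q x).map (MulAut.conj g).toMonoidHom ≤ Q (g * x * g⁻¹) := by
    intro g x
    rw [hQ' (g * x * g⁻¹)]
    apply Cfsg.Agent.H13.le_pCoreOf
    · rw [← hconjC]
      exact Cfsg.Agent.H13.map_conj_le_map_conj (hle x)
    · exact Cfsg.Agent.H13.isPGroup_map_conj (hp x)
    · rw [← hconjC, ← Cfsg.Agent.H13.map_conj_normalizer]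
      exact Cfsg.Agent.H13.map_conj_le_map_conj (hnorm x)
  have conjQ : ∀ g x r, r ∈ Q x → g * r * g⁻¹ ∈ Q (g * x * g⁻¹) := fun g x r hr =>
    hmapQ g x (Cfsg.Agent.H13.conj_mem_map_conj hr)
  have hmemQ : ∀ g x r, r ∈ Q (g * x * g⁻¹) ↔ g⁻¹ * r * g ∈ Q x := by
    intro g x r
    constructor
    · intro h
      have := conjQ g⁻¹ _ _ h
      have e : g⁻¹ * (g * x * g⁻¹) * g⁻¹⁻¹ = x := by group
      rw [e] at this
      simpa using this
    · intro h
      have := conjQ g _ _ h
      have e : g * (g⁻¹ * r * g) * g⁻¹ = r := by group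
      rwa [e] at this
  have hcomm : ∀ x r, r ∈ Q x → r * x = x * r := fun x r hr => (hmemC x r).1 (hle x hr)
  have hz2 : z * z = 1 := by
    have := pow_orderOf_eq_one z
    rw [hz, pow_two] at this
    exact this
  have hz1 : z ≠ 1 := by
    rintro rfl
    simp at hz
  have hzmem : z ∈ Q z := by
    apply hC
    rw [Subgroup.mem_centralizer_iff]
    intro r hr
    exact hcomm z r hr
  have ES0 : ES (Q z) z := es_of hE hzmem hz1 (hcomm z)
  refine ⟨conjQ, ?_, hcomm, ?_, ?_⟩
  · intro x g r hg hr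
    have := hnorm x ((hmemC x g).2 hg)
    rw [Subgroup.mem_normalizer_iff] at this
    exact (this r).1 hr
  · rintro y ⟨g, rfl⟩
    exact ES0.conj g (hmemQ g z)
  · rintro y ⟨g, rfl⟩ r hr
    rw [hmemQ]
    apply hC
    rw [Subgroup.mem_centralizer_iff]
    intro s hs
    have := hr (g * s * g⁻¹) (conjQ g z s hs)
    have h2 : g⁻¹ * (r * (g * s * g⁻¹)) * g = g⁻¹ * ((g * s * g⁻¹) * r) * g := by rw [this]
    calc s * (g⁻¹ * r * g) = g⁻¹ * ((g * s * g⁻¹) * r) * g := by group
      _ = g⁻¹ * (r * (g * s * g⁻¹)) * g := h2.symm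
      _ = _ := by group

end Cfsg.Agent.LES
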