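import Cfsg.Agent.Lib.H27.LargeES

/-! Symmetry of orthogonality of singular involutions. -/

set_option autoImplicit false

namespace Cfsg.Agent.LES

open Cfsg

variable {G : Type*} [Group G]

section Local

variable {P R : Subgroup G} {x z : G}

/-- elements of `R` centralizing `C_R(x)` are in `⟨x,z⟩`. -/
theorem dc_two (ER : ES R z) (hxR : x ∈ R) (hxz : x ≠ z) (hx1 : x ≠ 1) (hxx : x * x = 1) {d : G} (hd : d ∈ R)
    (hc : ∀ a ∈ R, a * x = x * a → a * d = d * a) : d = 1 ∨ d = z ∨ d = x ∨ d = x * z := by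
  obtain ⟨w₀, hw₀, hne⟩ := ER.exists_ne hxR hx1 hxz
  have hw : cm w₀ x = z := by
    rcases ER.cm_val hw₀ hxR with h | h
    · exact absurd (cm_eq_one_iff.1 h) hne
    · exact h
  have hdec : ∀ a ∈ R, a * x = x * a ∨ (a * w₀) * x = x * (a * w₀) := by
    intro a ha
    rcases ER.cm_val ha hxR with h | h
    · left; exact cm_eq_one_iff.1 h
    · right
      rw [← cm_eq_one_iff, ER.cm_mul_left ha hw₀ hxR, h, hw, ER.sq]
  by_cases hdw : w₀ * d = d * w₀
  · have : ∀ s ∈ R, d * s = s * d := by
      intro s hs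
      rcases hdec s hs with h | h
      · exact (hc s hs h).symm
      · have h1 := hc _ (R.mul_mem hs hw₀) h
        rw [← cm_eq_one_iff, ER.cm_symm hd hs]
        have h2 := cm_eq_one_iff.2 h1
        rw [ER.cm_mul_left hs hw₀ hd, cm_eq_one_iff.2 hdw, mul_one] at h2
        exact h2
    rcases ER.cen d hd this with h | h
    · exact Or.inl h
    · exact Or.inr (Or.inl h)
  · have hdw' : cm w₀ d = z := by
      rcases ER.cm_val hw₀ hd with h | h
      · exact absurd (cm_eq_one_iff.1 h) hdw
      · exact h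
    have : ∀ s ∈ R, (d * x) * s = s * (d * x) := by
      intro s hs
      rcases hdec s hs with h | h
      · have h3 := hc s hs h
        rw [← cm_eq_one_iff, ER.cm_mul_left hd hxR hs, ER.cm_symm hd hs, ER.cm_symm hxR hs,
          cm_eq_one_iff.2 h3, cm_eq_one_iff.2 h, one_mul]
      · have h1 := hc _ (R.mul_mem hs hw₀) h
        have h2 := cm_eq_one_iff.2 h1
        rw [ER.cm_mul_left hs hw₀ hd, hdw'] at h2
        have h3 : cm s d = z := by
          have : cm s d * z * z = z := by rw [h2, one_mul]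
          rwa [mul_assoc, ER.sq, mul_one] at this
        have h4 := cm_eq_one_iff.2 h
        rw [ER.cm_mul_left hs hw₀ hxR, hw] at h4
        have h5 : cm s x = z := by
          have : cm s x * z * z = z := by rw [h4, one_mul]
          rwa [mul_assoc, ER.sq, mul_one] at this
        rw [← cm_eq_one_iff, ER.cm_mul_left hd hxR hs, ER.cm_symm hd hs, ER.cm_symm hxR hs, h3, h5, ER.sq]
    rcases ER.cen _ (R.mul_mem hd hxR) this with h | h
    · right; right; left
      have : d * x * x = x := by rw [h, one_mul]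
      rwa [mul_assoc, hxx, mul_one] at this
    · right; right; right
      have : d * x * x = z * x := by rw [h]
      rw [mul_assoc, hxx, mul_one] at this
      rw [this]
      exact ER.cy x hxR |>.symm

/-- the elementwise commutator with `z` -/
def cc (z y : G) : G := y⁻¹ * (z * y * z)

/-- If `A = C_R(x)` is abelian then `R` is small. -/
theorem card_le_of_abelian [Finite G] (ER : ES R z) (hxR : x ∈ R) (hxz : x ≠ z) (hx1 : x ≠ 1) (hxx : x * x = 1)
    (hab : ∀ a ∈ R, a * x = x * a → ∀ a' ∈ R, a' * x = x * a' → a * a' = a' * a) :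
    Nat.card R ≤ 8 := by
  classical
  obtain ⟨w₀, hw₀, hne⟩ := ER.exists_ne hxR hx1 hxz
  have hw : cm w₀ x = z := by
    rcases ER.cm_val hw₀ hxR with h | h
    · exact absurd (cm_eq_one_iff.1 h) hne
    · exact h
  have hdec : ∀ a ∈ R, a * x = x * a ∨ (a * w₀) * x = x * (a * w₀) := by
    intro a ha
    rcases ER.cm_val ha hxR with h | h
    · left; exact cm_eq_one_iff.1 h
    · right
      rw [← cm_eq_one_iff, ER.cm_mul_left ha hw₀ hxR, h, hw, ER.sq]
  have hA : ∀ a ∈ R, a * x = x * a → a = 1 ∨ a = z ∨ a = x ∨ a = z * x := by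
    intro a ha hax
    by_cases h1 : a = 1
    · exact Or.inl h1
    by_cases h2 : a = z
    · exact Or.inr (Or.inl h2)
    right; right
    obtain ⟨r, hr, hne⟩ := ER.exists_ne ha h1 h2
    have har : cm a r = z := by
      rcases ER.cm_val ha hr with h | h
      · exact absurd (cm_eq_one_iff.1 h) hne.symm
      · exact h
    have hrA : r * w₀ * x = x * (r * w₀) := by
      rcases hdec r hr with h | h
      · exact absurd (hab a ha hax r hr h) hne.symm
      · exact h
    have h3 := cm_eq_one_iff.2 (hab a ha hax _ (R.mul_mem hr hw₀) hrA)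
    rw [ER.cm_mul_right hr hw₀ ha, har] at h3
    have h4 : cm a w₀ = z := by
      have : z * (z * cm a w₀) = z * 1 := by rw [h3]
      rwa [← mul_assoc, ER.sq, one_mul, mul_one] at this
    have hcen : ∀ s ∈ R, (a * x) * s = s * (a * x) := by
      intro s hs
      rcases hdec s hs with h | h
      · rw [mul_assoc, ← h, ← mul_assoc, hab a ha hax s hs h, mul_assoc]
      · have h5 := cm_eq_one_iff.2 (hab a ha hax _ (R.mul_mem hs hw₀) h)
        rw [ER.cm_mul_right hs hw₀ ha, h4] at h5
        have h6 : cm a s = z := by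
          have : cm a s * z * z = z := by rw [h5, one_mul]
          rwa [mul_assoc, ER.sq, mul_one] at this
        have h7 := cm_eq_one_iff.2 h
        rw [ER.cm_mul_left hs hw₀ hxR, hw] at h7
        have h8 : cm s x = z := by
          have : cm s x * z * z = z := by rw [h7, one_mul]
          rwa [mul_assoc, ER.sq, mul_one] at this
        rw [← cm_eq_one_iff, ER.cm_mul_left ha hxR hs, h6, ER.cm_symm hxR hs, h8, ER.sq]
    rcases ER.cen _ (R.mul_mem ha hxR) hcen with h | h
    · left
      have : a * x * x = x := by rw [h, one_mul]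
      rwa [mul_assoc, hxx, mul_one] at this
    · right
      have : a * x * x = z * x := by rw [h]
      rwa [mul_assoc, hxx, mul_one] at this
  let S : Finset G := {1, z, x, z * x}
  have hS : S.card ≤ 4 := Finset.card_le_four
  have hsub : (R : Set G) ⊆ ((S ∪ S.image (· * w₀⁻¹) : Finset G) : Set G) := by
    intro r hr
    have hr' : r ∈ R := hr
    simp only [Finset.coe_union, Set.mem_union, Finset.mem_coe, Finset.coe_image, Set.mem_image]
    rcases hdec r hr' with h | h
    · left
      rcases hA r hr' h with h | h | h | h <;> simp [S, h]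
    · right
      refine ⟨r * w₀, ?_, by simp⟩
      have := hA _ (R.mul_mem hr' hw₀) h
      simp only [S, Finset.mem_insert, Finset.mem_singleton]
      exact this
  have h1 : Nat.card R = (R : Set G).ncard := (Nat.card_coe_set_eq _)
  rw [h1]
  have h2 := Set.ncard_le_ncard hsub (Finset.finite_toSet _)
  rw [Set.ncard_coe_finset] at h2
  have h3 := Finset.card_union_le S (S.image (· * w₀⁻¹))
  have h4 : (S.image (· * w₀⁻¹)).card ≤ S.card := Finset.card_image_le
  omega

theorem key [Finite G] (EP : ES P x) (ER : ES R z) (hxR : x ∈ R) (hxz : x ≠ z) (hzP : z ∉ P)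
    (hzn : ∀ u ∈ P, z * u * z ∈ P)
    (hAP : ∀ a ∈ R, a * x = x * a → ∀ u ∈ P, a * u * a⁻¹ ∈ P)
    (hBR : ∀ b ∈ P, b * z = z * b → ∀ r ∈ R, b * r * b⁻¹ ∈ R)
    (hcent : ∀ r, (∀ s ∈ P, r * s = s * r) → r ∈ P)
    (hstar : ∀ y ∈ P, z * y * z ≠ y * x)
    (hcard : Nat.card P = Nat.card R) : False := by
  classical
  have hzz : z * z = 1 := ER.sq
  have hzz' : ∀ u : G, z * (z * u) = u := fun u => by rw [← mul_assoc, hzz, one_mul]
  have hxx : x * x = 1 := EP.sq
  have hxP : x ∈ P := EP.mem
  have hx1 : x ≠ 1 := EP.ne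
  have hcxz : x * z = z * x := ER.cy x hxR
  have hccP : ∀ y ∈ P, cc z y ∈ P := fun y hy => P.mul_mem (P.inv_mem hy) (hzn y hy)
  have hzeq : ∀ y, z * y * z = y * cc z y := fun y => by simp [cc]
  -- intersection
  have hinter : ∀ d ∈ P, d ∈ R → d = 1 ∨ d = x := by
    intro d hdP hdR
    have hc : ∀ a ∈ R, a * x = x * a → a * d = d * a := by
      intro a ha hax
      rcases ER.cm_val ha hdR with h | h
      · exact cm_eq_one_iff.1 h
      · exfalso
        apply hzP
        rw [← h, cm]
        exact P.mul_mem (hAP a ha hax d hdP) (P.inv_mem hdP)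
    rcases dc_two ER hxR hxz hx1 hxx hdR hc with h | h | h | h
    · exact Or.inl h
    · exact absurd (h ▸ hdP) hzP
    · exact Or.inr h
    · exfalso
      apply hzP
      have : z = x⁻¹ * d := by rw [h]; simp
      rw [this]
      exact P.mul_mem (P.inv_mem hxP) hdP
  -- A, B commute modulo x
  have hAB : ∀ a ∈ R, a * x = x * a → ∀ b ∈ P, b * z = z * b → cm a b = 1 ∨ cm a b = x := by
    intro a ha hax b hb hbz
    apply hinter
    · rw [cm]; exact P.mul_mem (hAP a ha hax b hb) (P.inv_mem hb)
    · have : cm a b = a * (b * a⁻¹ * b⁻¹) := by simp only [cm]; group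
      rw [this]
      exact R.mul_mem ha (hBR b hb hbz _ (R.inv_mem ha))
  -- step 1
  have hc1 : ∀ y ∈ P, z * cc z y * z = cc z y ∧ cc z y * cc z y = 1 := by
    intro y hy
    have hcP := hccP y hy
    have hc : cc z y * (z * cc z y * z) = 1 := by
      simp only [cc, mul_assoc, hzz', hzz, mul_one, mul_inv_cancel_left, inv_mul_cancel_left, mul_inv_cancel, inv_mul_cancel]
    rcases EP.squ _ hcP with h | h
    · refine ⟨?_, h⟩
      exact mul_left_cancel (hc.trans h.symm)
    · exfalso
      apply hstar _ hcP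
      apply mul_left_cancel (a := cc z y)
      rw [hc, ← mul_assoc, h, hxx]
  -- the fixed points commute
  have hz_cm : ∀ r ∈ P, ∀ v ∈ P, cm (z * r * z) (z * v * z) = cm r v := by
    intro r hr v hv
    have h1 : cm (z * r * z) (z * v * z) = z * cm r v * z := by
      have hzi : z⁻¹ = z := inv_eq_of_mul_eq_one_left hzz
      simp only [cm, mul_inv_rev, hzi, mul_assoc, hzz', hzz, mul_one]
    rw [h1]
    rcases EP.cm_val hr hv with h | h
    · rw [h, mul_one, hzz]
    · rw [h, ← hcxz, mul_assoc, hzz, mul_one]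
  have hId : ∀ r ∈ P, ∀ v ∈ P, cm r (cc z v) * cm (cc z r) v * cm (cc z r) (cc z v) = 1 := by
    intro r hr v hv
    have h1 := hz_cm r hr v hv
    have hcr := hccP r hr
    have hcv := hccP v hv
    rw [hzeq r, hzeq v, EP.cm_mul_left hr hcr (P.mul_mem hv hcv), EP.cm_mul_right hv hcv hr,
      EP.cm_mul_right hv hcv hcr] at h1
    have h3 : cm r v * (cm r (cc z v) * (cm (cc z r) v * cm (cc z r) (cc z v))) = cm r v * 1 := by
      rw [mul_one]
      calc _ = cm r v * cm r (cc z v) * (cm (cc z r) v * cm (cc z r) (cc z v)) := by group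
        _ = _ := h1
    have h4 := mul_left_cancel h3
    rw [mul_assoc]
    exact h4
  have hcc_comm : ∀ u ∈ P, ∀ v ∈ P, cm (cc z u) (cc z v) = 1 := by
    intro u hu v hv
    have hcu := hccP u hu
    have h1 := hId _ hcu v hv
    have hcc1 : cc z (cc z u) = 1 := by
      have := (hc1 u hu).1
      rw [cc, this]
      simp
    rw [hcc1] at h1
    have h2 : cm (1 : G) v = 1 := by simp [cm]
    have h3 : cm (1 : G) (cc z v) = 1 := by simp [cm]
    rw [h2, h3] at h1
    simpa using h1
  have hId' : ∀ r ∈ P, ∀ v ∈ P, cm r (cc z v) * cm (cc z r) v = 1 := by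
    intro r hr v hv
    have h1 := hId r hr v hv
    have hcr := hccP r hr
    by_cases hh : cm (cc z r) (cc z v) = 1
    · rwa [hh, mul_one] at h1
    · -- use the commuting of the `cc` via `hc1`
      exfalso
      apply hh
      exact hcc_comm r hr v hv
  -- step 3
  have hstep3 : ∀ y ∈ P, ∀ y' ∈ P, ∀ a ∈ R, a * x = x * a → cm (y⁻¹ * (a * y * a⁻¹)) (cc z y') = 1 := by
    intro y hy y' hy' a ha hax
    have hc := hccP y' hy'
    have hcz : cc z y' * z = z * cc z y' := by
      have := (hc1 y' hy').1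
      calc cc z y' * z = (z * cc z y' * z) * z := by rw [this]
        _ = _ := by rw [mul_assoc, hzz, mul_one]
    have hax' : a⁻¹ * x = x * a⁻¹ := by
      calc a⁻¹ * x = a⁻¹ * (x * a) * a⁻¹ := by group
        _ = a⁻¹ * (a * x) * a⁻¹ := by rw [hax]
        _ = _ := by group
    have haP := hAP a ha hax y hy
    have hc' : a⁻¹ * cc z y' * a ∈ P := by
      have := hAP a⁻¹ (R.inv_mem ha) hax' _ hc
      simpa using this
    have e1 : cm (a * y * a⁻¹) (cc z y') = a * cm y (a⁻¹ * cc z y' * a) * a⁻¹ := by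
      simp only [cm]; group
    have e2 : a * cm y (a⁻¹ * cc z y' * a) * a⁻¹ = cm y (a⁻¹ * cc z y' * a) := by
      rcases EP.cm_val hy hc' with h | h
      · rw [h]; simp
      · rw [h, hax]; simp
    have e3 : cm y (a⁻¹ * cc z y' * a) = cm y (cc z y') := by
      have h0 := hAB a⁻¹ (R.inv_mem ha) hax' _ hc hcz
      have e4 : a⁻¹ * cc z y' * a = cm a⁻¹ (cc z y') * cc z y' := by
        have := conj_eq_cm a⁻¹ (cc z y')
        simpa using this
      rw [e4]
      rcases h0 with h | h
      · rw [h, one_mul]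
      · rw [h, EP.cm_mul_right hxP hc hy, EP.cm_y_right hy, one_mul]
    rw [EP.cm_mul_left (P.inv_mem hy) haP hc, EP.cm_inv_left hy hc, e1, e2, e3]
    exact EP.cm_sq hy hc
  -- step 4
  have hstep4 : ∀ r ∈ P, (∀ y' ∈ P, cm r (cc z y') = 1) → cc z r = 1 := by
    intro r hr h
    have hcr := hccP r hr
    have hcen : ∀ s ∈ P, cc z r * s = s * cc z r := by
      intro s hs
      have := hId' r hr s hs
      rw [h s hs, one_mul] at this
      exact cm_eq_one_iff.1 this
    rcases EP.cen _ hcr hcen with h1 | h1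
    · exact h1
    · exfalso
      apply hstar r hr
      rw [hzeq, h1]
  -- step 5
  have hstep5 : ∀ y ∈ P, ∀ a ∈ R, a * x = x * a →
      (y⁻¹ * (a * y * a⁻¹)) * z = z * (y⁻¹ * (a * y * a⁻¹)) := by
    intro y hy a ha hax
    have hr : y⁻¹ * (a * y * a⁻¹) ∈ P := P.mul_mem (P.inv_mem hy) (hAP a ha hax y hy)
    have := hstep4 _ hr (fun y' hy' => hstep3 y hy y' hy' a ha hax)
    rw [cc] at this
    have h2 : z * (y⁻¹ * (a * y * a⁻¹)) * z = y⁻¹ * (a * y * a⁻¹) := by
      exact (inv_mul_eq_one.1 this).symm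
    calc _ = (z * (y⁻¹ * (a * y * a⁻¹)) * z) * z := by rw [h2]
      _ = _ := by rw [mul_assoc, hzz, mul_one]
  have hinvA : ∀ a, a * x = x * a → a⁻¹ * x = x * a⁻¹ := by
    intro a hax
    calc a⁻¹ * x = a⁻¹ * (x * a) * a⁻¹ := by group
      _ = a⁻¹ * (a * x) * a⁻¹ := by rw [hax]
      _ = _ := by group
  have hfinal : (∀ u ∈ P, z * u * z = u) → False := by
    intro h
    apply hzP
    apply hcent
    intro s hs
    have := h s hs
    calc z * s = (z * s * z) * z := by rw [mul_assoc, mul_assoc, hzz, mul_one]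
      _ = _ := by rw [this]
  by_cases hab : ∀ a ∈ R, a * x = x * a → ∀ a' ∈ R, a' * x = x * a' → a * a' = a' * a
  · -- small case
    have hc8 : Nat.card P ≤ 8 := by
      rw [hcard]
      exact card_le_of_abelian ER hxR hxz hx1 hxx hab
    apply hfinal
    intro y hy
    by_contra hne
    have hc1' : cc z y ≠ 1 := by
      intro h
      apply hne
      rw [hzeq, h, mul_one]
    have hcx : cc z y ≠ x := by
      intro h
      apply hstar y hy
      rw [hzeq, h]
    obtain ⟨h2, h3⟩ := hc1 y hy
    have hcP := hccP y hy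
    have hy1 : y ≠ 1 := by
      rintro rfl
      apply hc1'
      simp [cc, hzz]
    have hyx : y ≠ x := by
      rintro rfl
      apply hc1'
      simp only [cc]
      rw [← hcxz, mul_assoc, hzz]
      simp
    -- commute
    have hcy : cc z y * y = y * cc z y := by
      have e : (y * cc z y) * (y * cc z y) = y * y := by
        rw [← hzeq]
        have : z * y * z * (z * y * z) = z * (y * y) * z := by
          simp only [mul_assoc, hzz']
        rw [this]
        rcases EP.squ y hy with h | h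
        · rw [h]; simpa using hzz
        · rw [h, ← hcxz, mul_assoc, hzz, mul_one]
      have e2 : cc z y * (y * cc z y) = y := by
        apply mul_left_cancel (a := y)
        rw [← e]; group
      calc cc z y * y = cc z y * (y * cc z y) * cc z y := by
            rw [mul_assoc, mul_assoc, h3, mul_one]
        _ = _ := by rw [e2]
    have hyxc : ∀ t, t = y ∨ t = x * y → cc z t = cc z y := by
      rintro t (rfl | rfl)
      · rfl
      · simp only [cc]
        have : z * (x * y) * z = x * (z * y * z) := by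
          rw [← mul_assoc z x y, ← hcxz]; group
        rw [this]; group
    have hcc1 : cc z (cc z y) = 1 := by
      rw [cc, h2]; simp
    have hcne1 : cc z y ≠ y := by
      intro h
      apply hc1'
      have h5 := hcc1
      rw [h] at h5
      exact h5
    have hcne2 : cc z y ≠ x * y := by
      intro h
      apply hc1'
      have h5 := hcc1
      rw [h, hyxc (x * y) (Or.inr rfl)] at h5
      exact h5
    -- the centralizer of y in P is small
    let L : Subgroup G := P ⊓ Subgroup.centralizer ({y} : Set G)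
    have hmem : ∀ t, t ∈ L ↔ t ∈ P ∧ t * y = y * t := by
      intro t
      simp [L, Subgroup.mem_inf, Subgroup.mem_centralizer_singleton_iff]
    obtain ⟨s, hs, hsne⟩ := EP.exists_ne hy hy1 hyx
    have hLP : L ≤ P := inf_le_left
    have hind : (L.subgroupOf P).index ≠ 1 := by
      intro h
      rw [Subgroup.index_eq_one] at h
      have : (⟨s, hs⟩ : P) ∈ L.subgroupOf P := by rw [h]; trivial
      rw [Subgroup.mem_subgroupOf] at this
      exact hsne ((hmem s).1 this).2
    have hcardL : Nat.card L * 2 ≤ 8 := by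
      have h1 := Subgroup.card_mul_index (L.subgroupOf P)
      have h2 : Nat.card (L.subgroupOf P) = Nat.card L := by
        apply Nat.card_congr
        exact (Subgroup.subgroupOfEquivOfLe hLP).toEquiv
      rw [h2] at h1
      have h3 : (L.subgroupOf P).index ≠ 0 := Subgroup.index_ne_zero_of_finite
      have h4 : 2 ≤ (L.subgroupOf P).index := by omega
      calc Nat.card L * 2 ≤ Nat.card L * (L.subgroupOf P).index := Nat.mul_le_mul_left _ h4
        _ = Nat.card P := h1
        _ ≤ 8 := hc8
    let F : Finset G := {1, x, y, x * y, cc z y}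
    have hFc : F.card = 5 := by
      have a1 : (1 : G) ≠ x := hx1.symm
      have a2 : (1 : G) ≠ y := hy1.symm
      have a3 : (1 : G) ≠ x * y := by
        intro h
        apply hyx
        have : x * (x * y) = x * 1 := by rw [← h]
        rwa [← mul_assoc, hxx, one_mul, mul_one] at this
      have a4 : (1 : G) ≠ cc z y := hc1'.symm
      have a5 : x ≠ y := hyx.symm
      have a6 : x ≠ x * y := by
        intro h
        apply hy1
        have : x * y = x * 1 := by rw [← h, mul_one]
        exact mul_left_cancel this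
      have a7 : x ≠ cc z y := hcx.symm
      have a8 : y ≠ x * y := by
        intro h
        apply hx1
        have : 1 * y = x * y := by rw [one_mul]; exact h
        exact (mul_right_cancel this).symm
      have a9 : y ≠ cc z y := hcne1.symm
      have a10 : x * y ≠ cc z y := hcne2.symm
      simp [F, Finset.card_insert_of_notMem, a1, a2, a3, a4, a5, a6, a7, a8, a9, a10]
    have hFL : (F : Set G) ⊆ L := by
      intro t ht
      rw [SetLike.mem_coe, hmem]
      simp only [F, Finset.coe_insert, Finset.coe_singleton, Set.mem_insert_iff, Set.mem_singleton_iff] at ht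
      rcases ht with rfl | rfl | rfl | rfl | rfl
      · exact ⟨P.one_mem, by simp⟩
      · exact ⟨hxP, EP.cy y hy |>.symm⟩
      · exact ⟨hy, rfl⟩
      · refine ⟨P.mul_mem hxP hy, ?_⟩
        rw [mul_assoc, ← mul_assoc y x y, EP.cy y hy, mul_assoc]
      · exact ⟨hcP, hcy⟩
    have h1 : Nat.card L = (L : Set G).ncard := (Nat.card_coe_set_eq _)
    have h2 := Set.ncard_le_ncard hFL (Set.toFinite _)
    rw [Set.ncard_coe_finset, hFc, ← h1] at h2
    omega
  · -- main case
    push Not at hab
    obtain ⟨a, ha, hax, a', ha', hax', hne⟩ := hab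
    have hz' : a * a' = z * (a' * a) := by
      rcases ER.comm a ha a' ha' with h | h
      · exact absurd h hne
      · exact h
    apply hfinal
    intro u hu
    let e : G := a' * a
    have heR : e ∈ R := R.mul_mem ha' ha
    have hex : e * x = x * e := by
      simp only [e]
      rw [mul_assoc, hax, ← mul_assoc, hax', mul_assoc]
    obtain ⟨y, hy, huy⟩ : ∃ y ∈ P, u = e * y * e⁻¹ := by
      refine ⟨e⁻¹ * u * e, ?_, by group⟩
      have := hAP e⁻¹ (R.inv_mem heR) (hinvA e hex) u hu
      simpa using this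
    let r₁ := y⁻¹ * (a * y * a⁻¹)
    let r₂ := y⁻¹ * (a' * y * a'⁻¹)
    have hr₁ : r₁ ∈ P := P.mul_mem (P.inv_mem hy) (hAP a ha hax y hy)
    have hr₂ : r₂ ∈ P := P.mul_mem (P.inv_mem hy) (hAP a' ha' hax' y hy)
    have hr₁z : r₁ * z = z * r₁ := hstep5 y hy a ha hax
    have hr₂z : r₂ * z = z * r₂ := hstep5 y hy a' ha' hax'
    have e1 : a * y * a⁻¹ = y * r₁ := by simp [r₁]
    have e2 : a' * y * a'⁻¹ = y * r₂ := by simp [r₂]
    have e3 : z * u * z = (a * a') * y * (a * a')⁻¹ := by
      rw [huy, hz']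
      have hzi : z⁻¹ = z := inv_eq_of_mul_eq_one_left hzz
      simp only [e, mul_inv_rev, hzi, mul_assoc]
    have e4 : (a * a') * y * (a * a')⁻¹ = (y * r₁) * (a * r₂ * a⁻¹) := by
      rw [← e1]
      have : r₂ = y⁻¹ * (a' * y * a'⁻¹) := rfl
      rw [this]; group
    have e5 : u = (y * r₂) * (a' * r₁ * a'⁻¹) := by
      rw [huy, ← e2]
      have : r₁ = y⁻¹ * (a * y * a⁻¹) := rfl
      rw [this]; simp only [e]; group
    have hδ : ∀ δ : G, (δ = 1 ∨ δ = x) → ∀ t ∈ P, δ * t = t * δ := by
      rintro δ (rfl | rfl) t ht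
      · simp
      · exact (EP.cy t ht).symm
    have hv₁ := hAB a' ha' hax' r₁ hr₁ hr₁z
    have hv₂ := hAB a ha hax r₂ hr₂ hr₂z
    have hv₃ := EP.cm_val hr₁ hr₂
    have c1 : (y * r₂) * (a' * r₁ * a'⁻¹) = y * r₂ * r₁ * cm a' r₁ := by
      rw [conj_eq_cm, hδ _ hv₁ r₁ hr₁]; group
    have c2 : (y * r₁) * (a * r₂ * a⁻¹) = y * r₂ * r₁ * cm r₁ r₂ * cm a r₂ := by
      rw [conj_eq_cm, hδ _ hv₂ r₂ hr₂]
      have e6 : r₁ * r₂ = cm r₁ r₂ * (r₂ * r₁) := by simp [cm]
      have e7 : cm r₁ r₂ * (r₂ * r₁) = r₂ * r₁ * cm r₁ r₂ :=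
        hδ _ hv₃ _ (P.mul_mem hr₂ hr₁)
      calc y * r₁ * (r₂ * cm a r₂) = y * (r₁ * r₂) * cm a r₂ := by group
        _ = y * (r₂ * r₁ * cm r₁ r₂) * cm a r₂ := by rw [e6, e7]
        _ = _ := by group
    have hT : ∀ t δ₁ δ₂ δ₃ : G, (δ₁ = 1 ∨ δ₁ = x) → (δ₂ = 1 ∨ δ₂ = x) → (δ₃ = 1 ∨ δ₃ = x) →
        t * δ₃ * δ₂ = t * δ₁ ∨ t * δ₃ * δ₂ = t * δ₁ * x := by
      rintro t δ₁ δ₂ δ₃ (rfl | rfl) (rfl | rfl) (rfl | rfl) <;>
        simp [mul_assoc, hxx]
    have hres : z * u * z = u ∨ z * u * z = u * x := by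
      rw [e3, e4, c2]
      nth_rw 1 2 [e5]
      rw [c1]
      exact hT _ _ _ _ hv₁ hv₂ hv₃
    rcases hres with h | h
    · exact h
    · exact absurd h (hstar u hu)

end Local

/-- Orthogonality of singular involutions is symmetric. -/
theorem orth_symm [Finite G] {Q : G → Subgroup G} {z : G} (S : Setup Q z) (g : G) (hx : g * z * g⁻¹ ∈ Q z) :
    z ∈ Q (g * z * g⁻¹) := by
  obtain ⟨x, hxdef⟩ : ∃ x, x = g * z * g⁻¹ := ⟨_, rfl⟩
  rw [← hxdef] at hx ⊢
  have ER : ES (Q z) z := S.es z ⟨1, by simp⟩
  have EP : ES (Q x) x := S.es x ⟨g, hxdef.symm⟩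
  by_cases hxz : x = z
  · rw [hxz]; exact ER.mem
  by_contra hzP
  have hzz : z * z = 1 := ER.sq
  have hzi : z⁻¹ = z := inv_eq_of_mul_eq_one_left hzz
  have hzx : z * x = x * z := (ER.cy x hx).symm
  by_cases hstar : ∃ y ∈ Q x, z * y * z = y * x
  · -- the four-group carries an `S₃`
    obtain ⟨y₀, hy₀, h0⟩ := hstar
    obtain ⟨w₀, hw₀, hne⟩ := ER.exists_ne hx EP.ne hxz
    have hw : cm w₀ x = z := by
      rcases ER.cm_val hw₀ hx with h | h
      · exact absurd (cm_eq_one_iff.1 h) hne
      · exact h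
    have hy₀x : y₀ * x = x * y₀ := EP.cy y₀ hy₀
    have h1 : y₀⁻¹ * z * y₀ = x * z := by
      have : z * y₀ = y₀ * x * z := by
        rw [← h0, mul_assoc, hzz, mul_one]
      rw [mul_assoc, this]; group
    have hw1 : w₀ * x * w₀⁻¹ = z * x := by
      rw [conj_eq_cm, hw]
    have hw2 : w₀ * z * w₀⁻¹ = z := by
      rw [ER.cy w₀ hw₀]; group
    let h : G := w₀ * y₀⁻¹
    have hhz : h * z * h⁻¹ = x := by
      have e : h * z * h⁻¹ = w₀ * (y₀⁻¹ * z * y₀) * w₀⁻¹ := by simp only [h]; group
      rw [e, h1]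
      have e2 : w₀ * (x * z) * w₀⁻¹ = (w₀ * x * w₀⁻¹) * (w₀ * z * w₀⁻¹) := by group
      rw [e2, hw1, hw2, hzx, mul_assoc, hzz, mul_one]
    have hhx : h * x * h⁻¹ = z * x := by
      have e : h * x * h⁻¹ = w₀ * (y₀⁻¹ * x * y₀) * w₀⁻¹ := by simp only [h]; group
      have e2 : y₀⁻¹ * x * y₀ = x := by
        rw [mul_assoc, ← hy₀x]; group
      rw [e, e2, hw1]
    have h2 := S.conjQ h z x hx
    rw [hhz, hhx] at h2
    apply hzP
    have : z = (z * x) * x⁻¹ := by group
    rw [this]
    exact (Q x).mul_mem h2 ((Q x).inv_mem EP.mem)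
  · push Not at hstar
    have hP : Q x = (Q z).map (MulAut.conj g).toMonoidHom := by
      ext a
      rw [Cfsg.Agent.H13.mem_map_conj]
      constructor
      · intro h
        rw [hxdef] at h
        have := S.conjQ g⁻¹ _ _ h
        have e : g⁻¹ * (g * z * g⁻¹) * g⁻¹⁻¹ = z := by group
        rw [e] at this
        simpa using this
      · intro h
        have := S.conjQ g _ _ h
        have e : g * (g⁻¹ * a * g) * g⁻¹ = a := by group
        rw [e, ← hxdef] at this
        exact this
    refine key EP ER hx hxz hzP ?_ ?_ ?_ (S.cent x ⟨g, hxdef.symm⟩) hstar ?_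
    · intro u hu
      have := S.normQ x z u hzx hu
      rwa [hzi] at this
    · intro a _ hax u hu
      exact S.normQ x a u hax hu
    · intro b _ hbz r hr
      exact S.normQ z b r hbz hr
    · rw [hP]
      exact Cfsg.Agent.H13.card_map_conj g (Q z)

end Cfsg.Agent.LES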