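import Cfsg.Agent.Lib.H27.LargeES2

/-! Singular subgroups in the large extraspecial setting. -/

set_option autoImplicit false

namespace Cfsg.Agent.LES

open Cfsg

variable {G : Type*} [Group G]

/-- the facts about a singular subgroup -/
structure Sing (Q : G → Subgroup G) (z : G) (U : Subgroup G) : Prop where
  sq : ∀ u ∈ U, u * u = 1
  conj : ∀ u ∈ U, u ≠ 1 → ∃ g : G, g * z * g⁻¹ = u
  orth : ∀ u ∈ U, ∀ v ∈ U, u ≠ 1 → v ≠ 1 → v ∈ Q u

namespace Sing

variable {Q : G → Subgroup G} {z : G} {U : Subgroup G} (H : Sing Q z U) (S : Setup Q z)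
include H

theorem comm {a b : G} (ha : a ∈ U) (hb : b ∈ U) : a * b = b * a := by
  have h1 := H.sq _ (U.mul_mem ha hb)
  have h2 := H.sq a ha
  have h3 := H.sq b hb
  have h4 : a * b * (a * b) = 1 := h1
  calc a * b = a * b * (a * b) * (b * a) := by
        have : a * b * (a * b) * (b * a) = a * b * a * (b * b) * a := by group
        rw [this, h3, mul_one, mul_assoc (a * b), h2, mul_one]
    _ = b * a := by rw [h4, one_mul]

theorem le_Q {u : G} (hu : u ∈ U) (hu1 : u ≠ 1) : U ≤ Q u := by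
  intro v hv
  by_cases hv1 : v = 1
  · rw [hv1]; exact (Q u).one_mem
  · exact H.orth u hu v hv hu1 hv1

include S

theorem es {u : G} (hu : u ∈ U) (hu1 : u ≠ 1) : ES (Q u) u := S.es u (H.conj u hu hu1)

/-- `Q u` normalizes `U`. -/
theorem conj_mem {u g v : G} (hu : u ∈ U) (hu1 : u ≠ 1) (hg : g ∈ Q u) (hv : v ∈ U) : g * v * g⁻¹ ∈ U := by
  have E := H.es S hu hu1
  rw [conj_eq_cm]
  refine U.mul_mem ?_ hv
  rcases E.cm_val hg (H.le_Q hu hu1 hv) with h | h
  · rw [h]; exact U.one_mem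
  · rw [h]; exact hu

theorem exists_sep {u x : G} (hu : u ∈ U) (hu1 : u ≠ 1) (hx : x ∈ Q u) (hn : x ∉ U) [Finite G] :
    ∃ w ∈ Q u, (∀ s ∈ U, w * s = s * w) ∧ w * x = x * u * w := by
  have E := H.es S hu hu1
  obtain ⟨w, hw, hc, hne⟩ := E.exists_centralizing (H.le_Q hu hu1) hu hx hn
  refine ⟨w, hw, hc, ?_⟩
  have h1 : cm w x = u := by
    rcases E.cm_val hw hx with h | h
    · exact absurd (cm_eq_one_iff.1 h) hne
    · exact h
  have h2 : w * x * w⁻¹ = u * x := by rw [conj_eq_cm, h1]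
  have h3 : u * x = x * u := (E.cy x hx).symm
  calc w * x = (w * x * w⁻¹) * w := by group
    _ = _ := by rw [h2, h3]

/-- joint membership passes to products -/
theorem mem_Q_mul {t₁ t₂ y : G} (h₁ : t₁ ∈ U) (h₂ : t₂ ∈ U) (h₁1 : t₁ ≠ 1) (h₂1 : t₂ ≠ 1) (hne : t₁ ≠ t₂)
    (hy₁ : y ∈ Q t₁) (hy₂ : y ∈ Q t₂) : y ∈ Q (t₁ * t₂) := by
  have E := H.es S h₁ h₁1
  have ht₂ : t₂ ∈ Q t₁ := H.orth t₁ h₁ t₂ h₂ h₁1 h₂1
  obtain ⟨w, hw, hw2⟩ := E.exists_ne ht₂ h₂1 hne.symm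
  have hcm : cm w t₂ = t₁ := by
    rcases E.cm_val hw ht₂ with h | h
    · exact absurd (cm_eq_one_iff.1 h) hw2
    · exact h
  have hprod : t₁ * t₂ ≠ 1 := by
    intro h
    apply hne
    have h3 := H.sq t₁ h₁
    have : t₁ * (t₁ * t₂) = t₁ * 1 := by rw [h]
    rw [← mul_assoc, h3, one_mul, mul_one] at this
    exact this.symm
  have h3 := S.conjQ w t₂ y hy₂
  rw [conj_eq_cm w t₂, hcm, conj_eq_cm] at h3
  have h4 : t₁ ∈ Q (t₁ * t₂) := H.orth _ (U.mul_mem h₁ h₂) _ h₁ hprod h₁1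
  rcases E.cm_val hw hy₁ with h | h
  · rwa [h, one_mul] at h3
  · rw [h] at h3
    have : y = t₁⁻¹ * (t₁ * y) := by group
    rw [this]
    exact (Q _).mul_mem ((Q _).inv_mem h4) h3

omit S in
theorem mem_iInf_iff {QU : Subgroup G} (hQU : QU = ⨅ u ∈ ((U : Set G) \ {1}), Q u) {y : G} :
    y ∈ QU ↔ ∀ u ∈ U, u ≠ 1 → y ∈ Q u := by
  rw [hQU]
  simp only [Subgroup.mem_iInf, Set.mem_diff, SetLike.mem_coe, Set.mem_singleton_iff, and_imp]

/-- `QU` from generators. -/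
theorem joint_core {QU : Subgroup G} (hQU : QU = ⨅ u ∈ ((U : Set G) \ {1}), Q u)
    {T : Set G} (hT : Subgroup.closure T = U) (hT1 : (1 : G) ∉ T) : QU = ⨅ t ∈ T, Q t := by
  apply le_antisymm
  · rw [le_iInf₂_iff]
    intro t ht y hy
    have htU : t ∈ U := hT ▸ Subgroup.subset_closure ht
    have ht1 : t ≠ 1 := fun h => hT1 (h ▸ ht)
    exact (H.mem_iInf_iff hQU).1 hy t htU ht1
  · intro y hy
    rw [H.mem_iInf_iff hQU]
    simp only [Subgroup.mem_iInf] at hy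
    have key : ∀ u ∈ Subgroup.closure T, u ∈ U ∧ (u = 1 ∨ y ∈ Q u) := by
      intro u hu
      induction hu using Subgroup.closure_induction with
      | mem t ht => exact ⟨hT ▸ Subgroup.subset_closure ht, Or.inr (hy t ht)⟩
      | one => exact ⟨U.one_mem, Or.inl rfl⟩
      | mul a b _ _ ha hb =>
        refine ⟨U.mul_mem ha.1 hb.1, ?_⟩
        rcases ha.2 with ha1 | ha2
        · rw [ha1, one_mul]; exact hb.2
        rcases hb.2 with hb1 | hb2
        · rw [hb1, mul_one]; exact ha.2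
        by_cases ha1 : a = 1
        · rw [ha1, one_mul]; exact hb.2
        by_cases hb1 : b = 1
        · rw [hb1, mul_one]; exact ha.2
        by_cases hab : a = b
        · left; rw [hab]; exact H.sq b hb.1
        · exact Or.inr (H.mem_Q_mul S ha.1 hb.1 ha1 hb1 hab ha2 hb2)
      | inv a _ ha =>
        have : a⁻¹ = a := inv_eq_of_mul_eq_one_left (H.sq a ha.1)
        rw [this]; exact ha
    intro u hu hu1
    rcases key u (hT ▸ hu) with ⟨_, h | h⟩
    · exact absurd h hu1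
    · exact h

/-- every element of `LU` normalizes `U` (pointwise statement). -/
theorem le_normalizer {LU : Subgroup G} (hLU : LU = ⨆ u ∈ ((U : Set G) \ {1}), Q u) :
    LU ≤ Subgroup.normalizer (U : Set G) := by
  rw [hLU]
  apply iSup₂_le
  rintro u ⟨hu, hu1⟩ g hg
  have hu1' : u ≠ 1 := hu1
  rw [Subgroup.mem_normalizer_iff]
  intro v
  constructor
  · intro hv
    exact H.conj_mem S hu hu1' hg hv
  · intro hv
    have := H.conj_mem S hu hu1' ((Q u).inv_mem hg) hv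
    have e : g⁻¹ * (g * v * g⁻¹) * g⁻¹⁻¹ = v := by group
    rwa [e] at this

omit S in
theorem Q_le_L {LU : Subgroup G} (hLU : LU = ⨆ u ∈ ((U : Set G) \ {1}), Q u) {u : G} (hu : u ∈ U) (hu1 : u ≠ 1) :
    Q u ≤ LU := by
  rw [hLU]
  exact le_iSup₂_of_le u ⟨hu, hu1⟩ le_rfl

/-- `LU` acts trivially on `QU/U`. -/
theorem comm_mem {QU LU : Subgroup G} (hQU : QU = ⨅ u ∈ ((U : Set G) \ {1}), Q u)
    (hLU : LU = ⨆ u ∈ ((U : Set G) \ {1}), Q u) {x : G} (hx : x ∈ QU) :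
    ∀ g ∈ LU, g * x * g⁻¹ * x⁻¹ ∈ U := by
  have hN := H.le_normalizer S hLU
  let K : Subgroup G :=
    { carrier := {g | g ∈ Subgroup.normalizer (U : Set G) ∧ g * x * g⁻¹ * x⁻¹ ∈ U}
      mul_mem' := by
        rintro a b ⟨ha, ha2⟩ ⟨hb, hb2⟩
        refine ⟨Subgroup.mul_mem _ ha hb, ?_⟩
        have e : a * b * x * (a * b)⁻¹ * x⁻¹ = a * (b * x * b⁻¹ * x⁻¹) * a⁻¹ * (a * x * a⁻¹ * x⁻¹) := by group
        rw [e]
        exact U.mul_mem ((Subgroup.mem_normalizer_iff.1 ha _).1 hb2) ha2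
      one_mem' := by
        refine ⟨Subgroup.one_mem _, ?_⟩
        simp
      inv_mem' := by
        rintro a ⟨ha, ha2⟩
        refine ⟨Subgroup.inv_mem _ ha, ?_⟩
        have e : a⁻¹ * x * a⁻¹⁻¹ * x⁻¹ = a⁻¹ * (a * x * a⁻¹ * x⁻¹)⁻¹ * a⁻¹⁻¹ := by group
        rw [e]
        exact (Subgroup.mem_normalizer_iff.1 (Subgroup.inv_mem _ ha) _).1 (U.inv_mem ha2) }
  have hK : LU ≤ K := by
    conv_lhs => rw [hLU]
    apply iSup₂_le
    rintro u ⟨hu, hu1⟩ g hg
    have hu1' : u ≠ 1 := hu1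
    refine ⟨hN (H.Q_le_L hLU hu hu1' hg), ?_⟩
    have E := H.es S hu hu1'
    have hxu : x ∈ Q u := (H.mem_iInf_iff hQU).1 hx u hu hu1'
    change cm g x ∈ U
    rcases E.cm_val hg hxu with h | h
    · rw [h]; exact U.one_mem
    · rw [h]; exact hu
  intro g hg
  exact (hK hg).2

/-- transitivity on cosets -/
theorem coset_trans [Finite G] {QU LU : Subgroup G} (hQU : QU = ⨅ u ∈ ((U : Set G) \ {1}), Q u)
    (hLU : LU = ⨆ u ∈ ((U : Set G) \ {1}), Q u) {x : G} (hx : x ∈ QU) (hn : x ∉ U) {u : G} (hu : u ∈ U) :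
    ∃ g ∈ LU ⊓ Subgroup.centralizer (U : Set G), g * x * g⁻¹ = x * u := by
  by_cases hu1 : u = 1
  · exact ⟨1, Subgroup.one_mem _, by simp [hu1]⟩
  obtain ⟨w, hw, hc, he⟩ := H.exists_sep S hu hu1 ((H.mem_iInf_iff hQU).1 hx u hu hu1) hn
  refine ⟨w, ⟨H.Q_le_L hLU hu hu1 hw, ?_⟩, ?_⟩
  · show w ∈ Subgroup.centralizer (U : Set G)
    rw [Subgroup.mem_centralizer_iff]
    intro s hs
    exact (hc s hs).symm
  · rw [he]; group

/-- The pointwise fixed subgroup. -/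
def fixSub (φ : U ≃* U) (g : G) (hc : ∀ {a b : G}, a ∈ U → b ∈ U → a * b = b * a) : Subgroup G where
  carrier := {s | ∃ hs : s ∈ U, g * s * g⁻¹ = ((φ ⟨s, hs⟩ : U) : G)}
  mul_mem' := by
    rintro a b ⟨ha, ha2⟩ ⟨hb, hb2⟩
    refine ⟨U.mul_mem ha hb, ?_⟩
    have : (⟨a * b, U.mul_mem ha hb⟩ : U) = ⟨a, ha⟩ * ⟨b, hb⟩ := rfl
    rw [this, map_mul, Subgroup.coe_mul, ← ha2, ← hb2]
    group
  one_mem' := by
    refine ⟨U.one_mem, ?_⟩
    have : (⟨1, U.one_mem⟩ : U) = 1 := rfl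
    rw [this, map_one]
    simp
  inv_mem' := by
    rintro a ⟨ha, ha2⟩
    refine ⟨U.inv_mem ha, ?_⟩
    have : (⟨a⁻¹, U.inv_mem ha⟩ : U) = (⟨a, ha⟩ : U)⁻¹ := rfl
    rw [this, map_inv, Subgroup.coe_inv, ← ha2]
    group

/-- every automorphism of `U` is induced from `LU`. -/
theorem induced [Finite G] {LU : Subgroup G} (hLU : LU = ⨆ u ∈ ((U : Set G) \ {1}), Q u) (φ : U ≃* U) :
    ∃ g ∈ LU, ∀ u : U, g * (u : G) * g⁻¹ = ((φ u : U) : G) := by
  classical
  have hcomm : ∀ {a b : G}, a ∈ U → b ∈ U → a * b = b * a := fun ha hb => H.comm ha hb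
  have hN := H.le_normalizer S hLU
  obtain ⟨⟨g₀, hg₀⟩, hmax⟩ := Finite.exists_max
    (fun g : LU => ((fixSub φ (g : G) hcomm : Subgroup G) : Set G).ncard)
  refine ⟨g₀, hg₀, ?_⟩
  by_contra hcon
  push Not at hcon
  obtain ⟨⟨v, hv⟩, hvne⟩ := hcon
  obtain ⟨F, hFdef⟩ : ∃ F, F = fixSub φ g₀ hcomm := ⟨_, rfl⟩
  have hFU : F ≤ U := by
    rw [hFdef]
    rintro s ⟨hs, _⟩
    exact hs
  have hvF : v ∉ F := by
    rw [hFdef]
    rintro ⟨_, h⟩
    exact hvne h
  have hmemF : ∀ s (hs : s ∈ U), g₀ * s * g₀⁻¹ = ((φ ⟨s, hs⟩ : U) : G) → s ∈ F := by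
    intro s hs h
    rw [hFdef]
    exact ⟨hs, h⟩
  have hFeq : ∀ s (hF : s ∈ F), g₀ * s * g₀⁻¹ = ((φ ⟨s, hFU hF⟩ : U) : G) := by
    intro s hF
    have hF' := hF
    rw [hFdef] at hF'
    obtain ⟨_, h⟩ := hF'
    exact h
  -- the target
  obtain ⟨w, hwdef⟩ : ∃ w, w = g₀⁻¹ * ((φ ⟨v, hv⟩ : U) : G) * g₀ := ⟨_, rfl⟩
  have hwU : w ∈ U := by
    have := (Subgroup.mem_normalizer_iff.1 (hN (LU.inv_mem hg₀)) _).1 (φ ⟨v, hv⟩).2
    rw [hwdef]
    simpa using this
  have hgw : g₀ * w * g₀⁻¹ = ((φ ⟨v, hv⟩ : U) : G) := by rw [hwdef]; group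
  have hvw : v ≠ w := by
    intro h
    apply hvF
    apply hmemF v hv
    have : g₀ * v * g₀⁻¹ = g₀ * w * g₀⁻¹ := by rw [h]
    rw [this]
    exact hgw
  have hwF : w ∉ F := by
    intro h
    apply hvw
    have h1 := hFeq w h
    rw [hgw] at h1
    have h2 : (⟨v, hv⟩ : U) = ⟨w, hFU h⟩ := φ.injective (Subtype.ext h1)
    exact congrArg Subtype.val h2
  have hvv := H.sq v hv
  obtain ⟨u₀, hu₀⟩ : ∃ u₀, u₀ = v * w := ⟨_, rfl⟩
  have hu₀U : u₀ ∈ U := hu₀ ▸ U.mul_mem hv hwU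
  have hu₀1 : u₀ ≠ 1 := by
    intro h
    apply hvw
    rw [hu₀] at h
    have : v * (v * w) = v * 1 := by rw [h]
    rwa [← mul_assoc, hvv, one_mul, mul_one, eq_comm] at this
  -- the enlarged subgroup
  let F' : Subgroup G :=
    { carrier := {s | s ∈ F ∨ s * u₀ ∈ F}
      mul_mem' := by
        have huu := H.sq u₀ hu₀U
        have hSU : ∀ s, s * u₀ ∈ F → s ∈ U := by
          intro s hs
          have : s = s * u₀ * u₀⁻¹ := by group
          rw [this]
          exact U.mul_mem (hFU hs) (U.inv_mem hu₀U)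
        rintro a b (ha | ha) (hb | hb)
        · exact Or.inl (F.mul_mem ha hb)
        · right
          rw [mul_assoc]
          exact F.mul_mem ha hb
        · right
          have : a * b * u₀ = a * u₀ * b := by
            rw [mul_assoc, hcomm (hFU hb) hu₀U, mul_assoc]
          rw [this]
          exact F.mul_mem ha hb
        · left
          have : a * b = (a * u₀) * (b * u₀) := by
            have h1 : (a * u₀) * (b * u₀) = a * (u₀ * b) * u₀ := by group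
            rw [h1, hcomm hu₀U (hSU b hb), mul_assoc, mul_assoc, huu, mul_one]
          rw [this]
          exact F.mul_mem ha hb
      one_mem' := Or.inl F.one_mem
      inv_mem' := by
        have huu := H.sq u₀ hu₀U
        have hSU : ∀ s, s * u₀ ∈ F → s ∈ U := by
          intro s hs
          have : s = s * u₀ * u₀⁻¹ := by group
          rw [this]
          exact U.mul_mem (hFU hs) (U.inv_mem hu₀U)
        rintro a (ha | ha)
        · exact Or.inl (F.inv_mem ha)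
        · right
          have ha' := hSU a ha
          have h1 : a⁻¹ = a := inv_eq_of_mul_eq_one_left (H.sq a ha')
          rw [h1]
          exact ha }
  have hF'U : F' ≤ U := by
    rintro s (hs | hs)
    · exact hFU hs
    · have : s = s * u₀ * u₀⁻¹ := by group
      rw [this]
      exact U.mul_mem (hFU hs) (U.inv_mem hu₀U)
  have hvF' : v ∉ F' := by
    rintro (h | h)
    · exact hvF h
    · apply hwF
      have : v * u₀ = w := by
        rw [hu₀, ← mul_assoc, hvv, one_mul]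
      rwa [this] at h
  have hu₀F' : u₀ ∈ F' := by
    right
    rw [H.sq u₀ hu₀U]
    exact F.one_mem
  have E := H.es S hu₀U hu₀1
  obtain ⟨τ, hτ, hτc, hτne⟩ := E.exists_centralizing (hF'U.trans (H.le_Q hu₀U hu₀1)) hu₀F'
    (H.le_Q hu₀U hu₀1 hv) hvF'
  have hτv : τ * v * τ⁻¹ = w := by
    have h1 : cm τ v = u₀ := by
      rcases E.cm_val hτ (H.le_Q hu₀U hu₀1 hv) with h | h
      · exact absurd (cm_eq_one_iff.1 h) hτne
      · exact h
    rw [conj_eq_cm, h1, hu₀, hcomm hv hwU, mul_assoc, hvv, mul_one]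
  have hτL : τ ∈ LU := H.Q_le_L hLU hu₀U hu₀1 hτ
  -- strictly larger
  have hlt : (F : Set G) ⊂ ((fixSub φ (g₀ * τ) hcomm : Subgroup G) : Set G) := by
    constructor
    · intro s hs
      have hsF : s ∈ F := hs
      refine ⟨hFU hsF, ?_⟩
      have h1 := hτc s (Or.inl hsF)
      rw [← hFeq s hsF]
      have h2 : τ * s * τ⁻¹ = s := by rw [h1]; group
      calc g₀ * τ * s * (g₀ * τ)⁻¹ = g₀ * (τ * s * τ⁻¹) * g₀⁻¹ := by group
        _ = _ := by rw [h2]
    · intro hsub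
      apply hvF
      exact hsub (show v ∈ ((fixSub φ (g₀ * τ) hcomm : Subgroup G) : Set G) from by
        refine ⟨hv, ?_⟩
        rw [← hgw, ← hτv]
        group)
  have h1 := Set.ncard_lt_ncard hlt (Set.toFinite _)
  have h2 := hmax ⟨g₀ * τ, LU.mul_mem hg₀ hτL⟩
  rw [hFdef] at h1
  simp only at h2
  omega

end Sing

end Cfsg.Agent.LES
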