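import Mathlib

/-!
# Sylow 2-subgroups of `O⁺(2m,2)` pairwise intersect

Abstract quadratic spaces over `ZMod 2`, isometries as permutations of the space.
-/

set_option autoImplicit false

namespace Cfsg.Agent.H27.OP

section Abstract

variable {V : Type*} [AddCommGroup V] [Module (ZMod 2) V]

theorem two (x : V) : x + x = 0 := by
  have h : ((2 : ZMod 2)) • x = 0 := by
    have h2 : (2 : ZMod 2) = 0 := by decide
    rw [h2, zero_smul]
  rwa [two_smul] at h

theorem zmod2_cases (c : ZMod 2) : c = 0 ∨ c = 1 := by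
  revert c
  decide

/-- The polar form. -/
def B (Q : V → ZMod 2) (x y : V) : ZMod 2 := Q (x + y) + Q x + Q y

structure IsForm (Q : V → ZMod 2) : Prop where
  zero : Q 0 = 0
  add : ∀ x y z, B Q (x + y) z = B Q x z + B Q y z

variable {Q : V → ZMod 2}

theorem B_comm (x y : V) : B Q x y = B Q y x := by
  unfold B
  rw [add_comm x y]
  ring

theorem B_self (hQ : IsForm Q) (x : V) : B Q x x = 0 := by
  unfold B
  rw [two x, hQ.zero]
  have : ∀ a : ZMod 2, 0 + a + a = 0 := by decide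
  exact this _

theorem B_add_right (hQ : IsForm Q) (x y z : V) : B Q x (y + z) = B Q x y + B Q x z := by
  rw [B_comm, hQ.add, B_comm y, B_comm z]

theorem Q_add (x y : V) : Q (x + y) = Q x + Q y + B Q x y := by
  unfold B
  have : ∀ a b c : ZMod 2, a = b + c + (a + b + c) := by decide
  exact this _ _ _

theorem B_smul_left (hQ : IsForm Q) (c : ZMod 2) (x y : V) : B Q (c • x) y = c * B Q x y := by
  rcases zmod2_cases c with rfl | rfl
  · simp only [zero_smul, zero_mul]
    unfold B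
    rw [zero_add, hQ.zero]
    have : ∀ a : ZMod 2, a + 0 + a = 0 := by decide
    exact this _
  · simp

theorem B_smul_right (hQ : IsForm Q) (c : ZMod 2) (x y : V) : B Q x (c • y) = c * B Q x y := by
  rw [B_comm, B_smul_left hQ, B_comm]

theorem Q_smul (hQ : IsForm Q) (c : ZMod 2) (x : V) : Q (c • x) = c * Q x := by
  rcases zmod2_cases c with rfl | rfl
  · simp [hQ.zero]
  · simp

/-- The Siegel map. -/
def rhoF (Q : V → ZMod 2) (v w x : V) : V :=
  x + (B Q x w + Q w * B Q x v) • v + (B Q x v) • w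

theorem rhoF_B (hQ : IsForm Q) {v w : V} (hvw : B Q v w = 0) (x y : V) :
    B Q (rhoF Q v w x) y = B Q x y + (B Q x w + Q w * B Q x v) * B Q v y + B Q x v * B Q w y := by
  unfold rhoF
  rw [hQ.add, hQ.add, B_smul_left hQ, B_smul_left hQ]

theorem rhoF_invol (hQ : IsForm Q) {v w : V} (hvw : B Q v w = 0) : Function.Involutive (rhoF Q v w) := by
  intro x
  have h1 : B Q (rhoF Q v w x) w = B Q x w := by
    rw [rhoF_B hQ hvw, hvw, B_self hQ]
    simp
  have h2 : B Q (rhoF Q v w x) v = B Q x v := by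
    rw [rhoF_B hQ hvw, B_self hQ, B_comm w v, hvw]
    simp
  have h3 : rhoF Q v w (rhoF Q v w x) = rhoF Q v w x + (B Q (rhoF Q v w x) w + Q w * B Q (rhoF Q v w x) v) • v
      + (B Q (rhoF Q v w x) v) • w := rfl
  rw [h3, h1, h2]
  unfold rhoF
  linear_combination (norm := module) (B Q x w + Q w * B Q x v) • two v + (B Q x v) • two w

theorem rhoF_add (hQ : IsForm Q) (v w x y : V) :
    rhoF Q v w (x + y) = rhoF Q v w x + rhoF Q v w y := by
  unfold rhoF
  rw [hQ.add, hQ.add]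
  module

theorem rhoF_Q (hQ : IsForm Q) {v w : V} (hv : Q v = 0) (hvw : B Q v w = 0) (x : V) :
    Q (rhoF Q v w x) = Q x := by
  unfold rhoF
  rw [Q_add (Q := Q), Q_add (Q := Q) x, Q_smul hQ, Q_smul hQ, hv, hQ.add, B_smul_right hQ, B_smul_right hQ,
    B_smul_right hQ, B_smul_left hQ, hvw]
  generalize Q x = a
  generalize B Q x w = b
  generalize B Q x v = c
  generalize Q w = d
  revert a b c d
  decide

/-- The reflection. -/
def tF (Q : V → ZMod 2) (a x : V) : V := x + B Q x a • a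

theorem tF_B (hQ : IsForm Q) (a x : V) : B Q (tF Q a x) a = B Q x a := by
  unfold tF
  rw [hQ.add, B_smul_left hQ, B_self hQ]
  simp

theorem tF_invol (hQ : IsForm Q) (a : V) : Function.Involutive (tF Q a) := by
  intro x
  have h3 : tF Q a (tF Q a x) = tF Q a x + B Q (tF Q a x) a • a := rfl
  rw [h3, tF_B hQ]
  unfold tF
  linear_combination (norm := module) (B Q x a) • two a

theorem tF_add (hQ : IsForm Q) (a x y : V) : tF Q a (x + y) = tF Q a x + tF Q a y := by
  unfold tF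
  rw [hQ.add]
  module

theorem tF_Q (hQ : IsForm Q) {a : V} (ha : Q a = 1) (x : V) : Q (tF Q a x) = Q x := by
  unfold tF
  rw [Q_add (Q := Q), Q_smul hQ, ha, B_smul_right hQ]
  generalize Q x = p
  generalize B Q x a = c
  revert p c
  decide

end Abstract

section Groups

variable {V : Type*} [AddCommGroup V] [Module (ZMod 2) V] {Q : V → ZMod 2}

/-- Isometries preserving `W` and fixing `R` pointwise. -/
def L (Q : V → ZMod 2) (W : AddSubgroup V) (R : Set V) : Subgroup (Equiv.Perm V) where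
  carrier := {g | (∀ x y, g (x + y) = g x + g y) ∧ (∀ x, Q (g x) = Q x) ∧
    (∀ x, g x ∈ W ↔ x ∈ W) ∧ ∀ r ∈ R, g r = r}
  mul_mem' := by
    rintro a b ⟨a1, a2, a3, a4⟩ ⟨b1, b2, b3, b4⟩
    refine ⟨fun x y => ?_, fun x => ?_, fun x => ?_, fun r hr => ?_⟩
    · simp only [Equiv.Perm.mul_apply, b1, a1]
    · simp only [Equiv.Perm.mul_apply, a2, b2]
    · simp only [Equiv.Perm.mul_apply, a3, b3]
    · simp only [Equiv.Perm.mul_apply, b4 r hr, a4 r hr]
  one_mem' := by
    exact ⟨fun x y => rfl, fun x => rfl, fun x => Iff.rfl, fun r _ => rfl⟩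
  inv_mem' := by
    rintro a ⟨a1, a2, a3, a4⟩
    refine ⟨fun x y => ?_, fun x => ?_, fun x => ?_, fun r hr => ?_⟩
    · apply a.injective
      rw [a1]
      simp
    · have := a2 (a⁻¹ x)
      simp at this
      exact this.symm
    · have := a3 (a⁻¹ x)
      simp at this
      exact this.symm
    · apply a.injective
      simp [a4 r hr]

variable {W : AddSubgroup V} {R : Set V}

theorem mem_L {g : Equiv.Perm V} : g ∈ L Q W R ↔ (∀ x y, g (x + y) = g x + g y) ∧ (∀ x, Q (g x) = Q x) ∧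
    (∀ x, g x ∈ W ↔ x ∈ W) ∧ ∀ r ∈ R, g r = r := Iff.rfl

theorem L_add {g : Equiv.Perm V} (hg : g ∈ L Q W R) (x y : V) : g (x + y) = g x + g y := (mem_L.1 hg).1 x y

theorem L_Q {g : Equiv.Perm V} (hg : g ∈ L Q W R) (x : V) : Q (g x) = Q x := (mem_L.1 hg).2.1 x

theorem L_W {g : Equiv.Perm V} (hg : g ∈ L Q W R) (x : V) : g x ∈ W ↔ x ∈ W := (mem_L.1 hg).2.2.1 x

theorem L_R {g : Equiv.Perm V} (hg : g ∈ L Q W R) {r : V} (hr : r ∈ R) : g r = r := (mem_L.1 hg).2.2.2 r hr

theorem L_B {g : Equiv.Perm V} (hg : g ∈ L Q W R) (x y : V) : B Q (g x) (g y) = B Q x y := by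
  unfold B
  rw [← L_add hg, L_Q hg, L_Q hg, L_Q hg]

theorem L_smul {g : Equiv.Perm V} (hg : g ∈ L Q W R) (c : ZMod 2) (x : V) : g (c • x) = c • g x := by
  rcases zmod2_cases c with rfl | rfl
  · have h := L_add hg 0 0
    rw [add_zero] at h
    have h2 : g 0 = 0 := by
      have h3 : g 0 + 0 = g 0 + g 0 := by rw [add_zero]; exact h
      exact (add_left_cancel h3).symm
    simp [h2]
  · simp

/-- Maximal 2-subgroups of `K`. -/
def MaxP (K H : Subgroup (Equiv.Perm V)) : Prop :=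
  H ≤ K ∧ IsPGroup 2 H ∧ ∀ T : Subgroup (Equiv.Perm V), IsPGroup 2 T → H ≤ T → T ≤ K → T ≤ H

theorem MaxP.absorb {K H N : Subgroup (Equiv.Perm V)} (hH : MaxP K H) (hNK : N ≤ K) (hN : IsPGroup 2 N)
    (hn : H ≤ Subgroup.normalizer N) : N ≤ H :=
  le_trans le_sup_right (hH.2.2 (H ⊔ N) (IsPGroup.to_sup_of_normal_right' hH.2.1 hN hn) le_sup_left
    (sup_le hH.1 hNK))

/-- The Siegel group of a vector. -/
def E (Q : V → ZMod 2) (W : AddSubgroup V) (R : Set V) (v : V) : Subgroup (Equiv.Perm V) where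
  carrier := {g | g ∈ L Q W R ∧ g v = v ∧ ∀ x, B Q x v = 0 → g x = x ∨ g x = x + v}
  mul_mem' := by
    rintro a b ⟨a1, a2, a3⟩ ⟨b1, b2, b3⟩
    refine ⟨mul_mem a1 b1, ?_, fun x hx => ?_⟩
    · simp [Equiv.Perm.mul_apply, b2, a2]
    · rw [Equiv.Perm.mul_apply]
      rcases b3 x hx with h | h
      · rw [h]
        exact a3 x hx
      · rw [h, L_add a1, a2]
        rcases a3 x hx with h2 | h2
        · right
          rw [h2]
        · left
          rw [h2]
          linear_combination (norm := module) two v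
  one_mem' := by
    refine ⟨one_mem _, rfl, fun x _ => Or.inl rfl⟩
  inv_mem' := by
    rintro a ⟨a1, a2, a3⟩
    refine ⟨inv_mem a1, ?_, fun x hx => ?_⟩
    · rw [Equiv.Perm.inv_eq_iff_eq]
      exact a2.symm
    · rcases a3 x hx with h | h
      · left
        rw [Equiv.Perm.inv_eq_iff_eq]
        exact h.symm
      · right
        rw [Equiv.Perm.inv_eq_iff_eq, L_add a1, a2, h]
        linear_combination (norm := module) -(two v)

theorem mem_E {g : Equiv.Perm V} {v : V} :
    g ∈ E Q W R v ↔ g ∈ L Q W R ∧ g v = v ∧ ∀ x, B Q x v = 0 → g x = x ∨ g x = x + v := Iff.rfl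

theorem add_self_z2 (a : ZMod 2) : a + a = 0 := by
  revert a
  decide

theorem E_pow4 (hQ : IsForm Q) {g : Equiv.Perm V} {v : V} (hg : g ∈ E Q W R v) : g ^ 4 = 1 := by
  obtain ⟨hL, hv, hx⟩ := mem_E.1 hg
  have hadd := L_add hL
  have s : ∀ x, g (g x) = x ∨ g (g x) = x + v := by
    intro x
    have hy : B Q (g x + x) v = 0 := by
      rw [hQ.add]
      have h1 : B Q (g x) v = B Q x v := by
        have h2 := L_B hL x v
        rwa [hv] at h2
      rw [h1, add_self_z2]
    rcases hx _ hy with h | h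
    · left
      rw [hadd, add_comm (g x) x] at h
      exact add_right_cancel h
    · right
      rw [hadd] at h
      have h3 : g (g x) + g x = (x + v) + g x := by
        rw [h]
        abel
      exact add_right_cancel h3
  ext x
  have h4 : (g ^ 4) x = g (g (g (g x))) := rfl
  rw [h4]
  show _ = x
  rcases s x with h | h
  · rw [h]
    exact h
  · rw [h, hadd, hadd, hv, hv, h]
    linear_combination (norm := module) two v

theorem E_pgroup (hQ : IsForm Q) (v : V) : IsPGroup 2 (E Q W R v) := by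
  intro g
  refine ⟨2, Subtype.ext ?_⟩
  exact E_pow4 hQ g.2

theorem E_conj (hQ : IsForm Q) {h n : Equiv.Perm V} {v : V} (hL : h ∈ L Q W R) (hv : h v = v)
    (hn : n ∈ E Q W R v) : h * n * h⁻¹ ∈ E Q W R v := by
  obtain ⟨n1, n2, n3⟩ := mem_E.1 hn
  have hvi : h⁻¹ v = v := by
    rw [Equiv.Perm.inv_eq_iff_eq]
    exact hv.symm
  refine mem_E.2 ⟨mul_mem (mul_mem hL n1) (inv_mem hL), ?_, fun x hx => ?_⟩
  · simp [Equiv.Perm.mul_apply, hvi, n2, hv]
  · have h1 : B Q (h⁻¹ x) v = 0 := by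
      have h2 := L_B (inv_mem hL) x v
      rw [hvi] at h2
      rw [h2, hx]
    simp only [Equiv.Perm.mul_apply]
    rcases n3 _ h1 with h3 | h3
    · left
      rw [h3]
      simp
    · right
      rw [h3, L_add hL, hv]
      simp

theorem le_normalizer_E (hQ : IsForm Q) {H : Subgroup (Equiv.Perm V)} {v : V} (hHL : H ≤ L Q W R)
    (hv : ∀ h ∈ H, h v = v) : H ≤ Subgroup.normalizer (E Q W R v) := by
  intro h hh
  rw [Subgroup.mem_normalizer_iff]
  intro n
  refine ⟨fun hn => E_conj hQ (hHL hh) (hv h hh) hn, fun hn => ?_⟩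
  have h1 := E_conj hQ (hHL (inv_mem hh)) (hv _ (inv_mem hh)) hn
  simpa [mul_assoc] using h1

theorem smul_memW (c : ZMod 2) {v : V} (hv : v ∈ W) : c • v ∈ W := by
  rcases zmod2_cases c with rfl | rfl
  · simp
  · simpa using hv

/-- Siegel map as a permutation. -/
noncomputable def rhoP (hQ : IsForm Q) {v w : V} (hvw : B Q v w = 0) : Equiv.Perm V :=
  (rhoF_invol hQ hvw).toPerm

theorem rhoP_apply (hQ : IsForm Q) {v w : V} (hvw : B Q v w = 0) (x : V) :
    rhoP hQ hvw x = x + (B Q x w + Q w * B Q x v) • v + (B Q x v) • w := rfl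

theorem rhoP_mem (hQ : IsForm Q) (hWR : ∀ w ∈ W, ∀ r ∈ R, B Q w r = 0) {v w : V} (hv : v ∈ W) (hw : w ∈ W)
    (hQv : Q v = 0) (hvw : B Q v w = 0) : rhoP hQ hvw ∈ E Q W R v := by
  refine mem_E.2 ⟨mem_L.2 ⟨fun x y => rhoF_add hQ v w x y, fun x => rhoF_Q hQ hQv hvw x, fun x => ?_, fun r hr => ?_⟩,
    ?_, fun x hx => ?_⟩
  · rw [rhoP_apply]
    have h1 : (B Q x w + Q w * B Q x v) • v + (B Q x v) • w ∈ W :=
      add_mem (smul_memW _ hv) (smul_memW _ hw)
    rw [add_assoc]
    exact AddSubgroup.add_mem_cancel_right W h1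
  · rw [rhoP_apply]
    have h1 : B Q r w = 0 := by
      rw [B_comm]
      exact hWR w hw r hr
    have h2 : B Q r v = 0 := by
      rw [B_comm]
      exact hWR v hv r hr
    rw [h1, h2]
    simp
  · rw [rhoP_apply, hvw, B_self hQ]
    simp
  · rw [rhoP_apply, hx]
    rcases zmod2_cases (B Q x w) with h | h
    · left
      rw [h]
      simp
    · right
      rw [h]
      simp

/-- Reflection as a permutation. -/
noncomputable def tP (hQ : IsForm Q) (a : V) : Equiv.Perm V :=
  (tF_invol hQ a).toPerm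

theorem tP_apply (hQ : IsForm Q) (a x : V) : tP hQ a x = x + B Q x a • a := rfl

theorem tP_mem (hQ : IsForm Q) (hWR : ∀ w ∈ W, ∀ r ∈ R, B Q w r = 0) {a : V} (ha : a ∈ W) (hQa : Q a = 1) :
    tP hQ a ∈ L Q W R := by
  refine mem_L.2 ⟨fun x y => tF_add hQ a x y, fun x => tF_Q hQ hQa x, fun x => ?_, fun r hr => ?_⟩
  · rw [tP_apply]
    exact AddSubgroup.add_mem_cancel_right W (smul_memW _ ha)
  · rw [tP_apply]
    have h1 : B Q r a = 0 := by
      rw [B_comm]
      exact hWR a ha r hr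
    rw [h1]
    simp

theorem tP_sq (hQ : IsForm Q) (a : V) : tP hQ a ^ 2 = 1 := by
  ext x
  exact tF_invol hQ a x

theorem tP_commute (hQ : IsForm Q) {a : V} {g : Equiv.Perm V} (hg : g ∈ L Q W R) (hga : g a = a) :
    Commute g (tP hQ a) := by
  ext x
  show g (tP hQ a x) = tP hQ a (g x)
  rw [tP_apply, tP_apply, L_add hg, L_smul hg, hga]
  have h1 := L_B hg x a
  rw [hga] at h1
  rw [h1]

/-- Compatibility of `W` and `R`. -/
structure Compat (Q : V → ZMod 2) (W : AddSubgroup V) (R : Set V) : Prop where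
  perp : ∀ w ∈ W, ∀ r ∈ R, B Q w r = 0
  nd : ∀ w ∈ W, w ≠ 0 → ∃ u ∈ W, B Q w u = 1

/-- Singular vector count. -/
noncomputable def Zc (Q : V → ZMod 2) (W : AddSubgroup V) : ℕ := Nat.card {y : W // Q y = 0}

/-- The numerical type of `W`. -/
def Cls (Q : V → ZMod 2) (W : AddSubgroup V) (k : ℕ) : Prop :=
  Nat.card W = 4 ^ k ∧ 2 * Zc Q W = 4 ^ k + 2 ^ k

theorem card_split [Finite V] (W : AddSubgroup V) :
    Nat.card W = Zc Q W + Nat.card {y : W // Q y = 1} := by
  have h := Nat.card_congr (Equiv.sigmaFiberEquiv (fun y : W => Q y))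
  rw [← h, Nat.card_sigma]
  exact Fin.sum_univ_two (fun c : Fin 2 => Nat.card {y : W // Q y = (c : ZMod 2)})

/-- The perp of a vector. -/
def perpS (hQ : IsForm Q) (u : V) : AddSubgroup V where
  carrier := {x | B Q x u = 0}
  add_mem' := by
    intro a b ha hb
    show B Q (a + b) u = 0
    rw [hQ.add, show B Q a u = 0 from ha, show B Q b u = 0 from hb, add_zero]
  zero_mem' := by
    show B Q 0 u = 0
    have h := B_smul_left hQ 0 (0 : V) u
    simpa using h
  neg_mem' := by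
    intro a ha
    have h : -a = a := neg_eq_of_add_eq_zero_right (two a)
    rw [h]
    exact ha

theorem mem_perpS (hQ : IsForm Q) {u x : V} : x ∈ perpS hQ u ↔ B Q x u = 0 := Iff.rfl

/-- The orthogonal complement of a hyperbolic pair in `W`. -/
def W1 (hQ : IsForm Q) (W : AddSubgroup V) (v v' : V) : AddSubgroup V := W ⊓ perpS hQ v ⊓ perpS hQ v'

theorem mem_W1 (hQ : IsForm Q) {v v' x : V} : x ∈ W1 hQ W v v' ↔ x ∈ W ∧ B Q x v = 0 ∧ B Q x v' = 0 := by
  simp only [W1, AddSubgroup.mem_inf, mem_perpS, and_assoc]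

theorem decomp_mem (hQ : IsForm Q) {v v' x : V} (h0 : B Q v v = 0) (h0' : B Q v' v' = 0) (h1 : B Q v v' = 1)
    (hv : v ∈ W) (hv' : v' ∈ W) (hx : x ∈ W) :
    x + (B Q x v') • v + (B Q x v) • v' ∈ W1 hQ W v v' := by
  rw [mem_W1]
  refine ⟨add_mem (add_mem hx (smul_memW _ hv)) (smul_memW _ hv'), ?_, ?_⟩
  · rw [hQ.add, hQ.add, B_smul_left hQ, B_smul_left hQ, h0, B_comm v' v, h1]
    simp only [mul_zero, mul_one, add_zero, add_self_z2]
  · rw [hQ.add, hQ.add, B_smul_left hQ, B_smul_left hQ, h0', h1]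
    simp only [mul_zero, mul_one, add_zero, add_self_z2]

theorem Q_decomp (hQ : IsForm Q) {v v' y : V} (h0 : Q v = 0) (h0' : Q v' = 0) (h1 : B Q v v' = 1)
    (hy : B Q y v = 0) (hy' : B Q y v' = 0) (a b : ZMod 2) :
    Q (y + a • v + b • v') = Q y + a * b := by
  rw [Q_add (Q := Q), Q_add (Q := Q) y, Q_smul hQ, Q_smul hQ, hQ.add, B_smul_right hQ, B_smul_right hQ,
    B_smul_right hQ, B_smul_left hQ, hy, hy', h0, h0', h1]
  generalize Q y = p
  revert p a b
  decide

/-- The decomposition of `W`. -/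
noncomputable def decompEquiv (hQ : IsForm Q) {v v' : V} (h0 : B Q v v = 0) (h0' : B Q v' v' = 0) (h1 : B Q v v' = 1)
    (hv : v ∈ W) (hv' : v' ∈ W) : W ≃ (ZMod 2 × ZMod 2) × W1 hQ W v v' where
  toFun x := ((B Q x.1 v', B Q x.1 v), ⟨x.1 + (B Q x.1 v') • v + (B Q x.1 v) • v', decomp_mem hQ h0 h0' h1 hv hv' x.2⟩)
  invFun p := ⟨p.2.1 + p.1.1 • v + p.1.2 • v',
    add_mem (add_mem ((mem_W1 hQ).1 p.2.2).1 (smul_memW _ hv)) (smul_memW _ hv')⟩
  left_inv := by
    rintro ⟨x, hx⟩
    apply Subtype.ext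
    show x + (B Q x v') • v + (B Q x v) • v' + (B Q x v') • v + (B Q x v) • v' = x
    linear_combination (norm := module) (B Q x v') • two v + (B Q x v) • two v'
  right_inv := by
    rintro ⟨⟨a, b⟩, ⟨y, hy⟩⟩
    obtain ⟨hyW, hy1, hy2⟩ := (mem_W1 hQ).1 hy
    have e1 : B Q (y + a • v + b • v') v' = a := by
      rw [hQ.add, hQ.add, B_smul_left hQ, B_smul_left hQ, h0', h1, hy2]
      simp
    have e2 : B Q (y + a • v + b • v') v = b := by
      rw [hQ.add, hQ.add, B_smul_left hQ, B_smul_left hQ, h0, B_comm v' v, h1, hy1]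
      simp
    apply Prod.ext
    · apply Prod.ext
      · exact e1
      · exact e2
    · apply Subtype.ext
      show y + a • v + b • v' + (B Q (y + a • v + b • v') v') • v + (B Q (y + a • v + b • v') v) • v' = y
      rw [e1, e2]
      linear_combination (norm := module) a • two v + b • two v'

theorem decompEquiv_symm_Q (hQ : IsForm Q) {v v' : V} (h00 : Q v = 0) (h00' : Q v' = 0)
    (h0 : B Q v v = 0) (h0' : B Q v' v' = 0) (h1 : B Q v v' = 1)
    (hv : v ∈ W) (hv' : v' ∈ W) (p : (ZMod 2 × ZMod 2) × W1 hQ W v v') :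
    Q ((decompEquiv hQ h0 h0' h1 hv hv').symm p : W) = Q p.2.1 + p.1.1 * p.1.2 := by
  obtain ⟨hyW, hy1, hy2⟩ := (mem_W1 hQ).1 p.2.2
  exact Q_decomp hQ h00 h00' h1 hy1 hy2 _ _

theorem count_rec [Finite V] (hQ : IsForm Q) {v v' : V} (h00 : Q v = 0) (h00' : Q v' = 0) (h1 : B Q v v' = 1)
    (hv : v ∈ W) (hv' : v' ∈ W) :
    Nat.card W = 4 * Nat.card (W1 hQ W v v') ∧
      Zc Q W = 2 * Zc Q (W1 hQ W v v') + Nat.card (W1 hQ W v v') := by
  have h0 := B_self hQ v
  have h0' := B_self hQ v'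
  set e := decompEquiv hQ h0 h0' h1 hv hv' with he
  refine ⟨?_, ?_⟩
  · rw [Nat.card_congr e, Nat.card_prod, Nat.card_prod]
    simp [Nat.card_zmod]
  · have e1 : {y : W // Q y = 0} ≃ {q : (ZMod 2 × ZMod 2) × W1 hQ W v v' // Q q.2.1 = q.1.1 * q.1.2} := by
      refine Equiv.subtypeEquiv e.symm.symm ?_ |>.trans (Equiv.refl _)
      intro y
      have h2 := decompEquiv_symm_Q hQ h00 h00' h0 h0' h1 hv hv' (e y)
      rw [Equiv.symm_apply_apply] at h2
      simp only [Equiv.symm_symm]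
      rw [h2]
      generalize Q (e y).2.1 = p
      generalize (e y).1.1 * (e y).1.2 = r
      revert p r
      decide
    have e2 := Equiv.subtypeProdEquivSigmaSubtype (fun (p : ZMod 2 × ZMod 2) (y : W1 hQ W v v') => Q y.1 = p.1 * p.2)
    have h3 : Zc Q W = Nat.card (Σ p : ZMod 2 × ZMod 2, {y : W1 hQ W v v' // Q y.1 = p.1 * p.2}) := by
      unfold Zc
      rw [Nat.card_congr e1]
      exact Nat.card_congr e2
    rw [h3, Nat.card_sigma, Fintype.sum_prod_type]
    have hsum : ∀ f : ZMod 2 → ℕ, ∑ c, f c = f 0 + f 1 := fun f => Fin.sum_univ_two f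
    rw [hsum]
    simp only [hsum]
    have h4 := card_split (Q := Q) (W1 hQ W v v')
    simp only [zero_mul, mul_zero, mul_one]
    unfold Zc at h4 ⊢
    omega

theorem Cls_down [Finite V] (hQ : IsForm Q) {v v' : V} (h00 : Q v = 0) (h00' : Q v' = 0) (h1 : B Q v v' = 1)
    (hv : v ∈ W) (hv' : v' ∈ W) {k : ℕ} (h : Cls Q W (k + 1)) : Cls Q (W1 hQ W v v') k := by
  obtain ⟨h2, h3⟩ := count_rec hQ h00 h00' h1 hv hv'
  obtain ⟨h4, h5⟩ := h
  rw [pow_succ] at h4 h5
  rw [pow_succ] at h5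
  refine ⟨by omega, by omega⟩

theorem Cls_up [Finite V] (hQ : IsForm Q) {v v' : V} (h00 : Q v = 0) (h00' : Q v' = 0) (h1 : B Q v v' = 1)
    (hv : v ∈ W) (hv' : v' ∈ W) {k : ℕ} (h : Cls Q (W1 hQ W v v') k) : Cls Q W (k + 1) := by
  obtain ⟨h2, h3⟩ := count_rec hQ h00 h00' h1 hv hv'
  obtain ⟨h4, h5⟩ := h
  refine ⟨?_, ?_⟩
  · rw [pow_succ]
    omega
  · rw [pow_succ, pow_succ]
    omega

theorem L_zero {g : Equiv.Perm V} (hg : g ∈ L Q W R) : g 0 = 0 := by
  have h := L_smul hg 0 (0 : V)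
  simpa using h

theorem exists_fixed [Finite V] (hQ : IsForm Q) {H : Subgroup (Equiv.Perm V)} (hHL : H ≤ L Q W R)
    (hH : IsPGroup 2 H) (heven : 2 ∣ Zc Q W) : ∃ v ∈ W, v ≠ 0 ∧ Q v = 0 ∧ ∀ h ∈ H, h v = v := by
  classical
  letI : MulAction H {y : W // Q y = 0} :=
    { smul := fun h x => ⟨⟨h.1 x.1.1, (L_W (hHL h.2) _).2 x.1.2⟩, (L_Q (hHL h.2) _).trans x.2⟩
      one_smul := fun x => Subtype.ext (Subtype.ext rfl)
      mul_smul := fun a b x => Subtype.ext (Subtype.ext rfl) }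
  let a : {y : W // Q y = 0} := ⟨⟨0, zero_mem W⟩, hQ.zero⟩
  have ha : a ∈ MulAction.fixedPoints H {y : W // Q y = 0} :=
    fun h => Subtype.ext (Subtype.ext (L_zero (hHL h.2)))
  obtain ⟨b, hb, hne⟩ := hH.exists_fixed_point_of_prime_dvd_card_of_fixed_point {y : W // Q y = 0} heven ha
  refine ⟨b.1.1, b.1.2, ?_, b.2, fun h hh => ?_⟩
  · intro h0
    apply hne
    apply Subtype.ext
    apply Subtype.ext
    exact h0.symm
  · have h1 := hb ⟨h, hh⟩
    exact congrArg (fun z : {y : W // Q y = 0} => z.1.1) h1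

theorem base [Finite V] (hQ : IsForm Q) (hC : Compat Q W R) (hcls : Cls Q W 1)
    {H H' : Subgroup (Equiv.Perm V)} (hH : MaxP (L Q W R) H) (hH' : MaxP (L Q W R) H') : H ⊓ H' ≠ ⊥ := by
  obtain ⟨h4, h6⟩ := hcls
  have hsplit := card_split (Q := Q) W
  have hN : Nat.card {y : W // Q y = 1} = 1 := by
    norm_num at h4 h6
    omega
  obtain ⟨hss, ⟨⟨⟨a, haW⟩, hQa⟩⟩⟩ := Nat.card_eq_one_iff_unique.1 hN
  have hQa' : Q a = 1 := hQa
  have hfix : ∀ g ∈ L Q W R, g a = a := by
    intro g hg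
    have h1 : (⟨⟨g a, (L_W hg a).2 haW⟩, (L_Q hg a).trans hQa'⟩ : {y : W // Q y = 1}) = ⟨⟨a, haW⟩, hQa'⟩ :=
      Subsingleton.elim _ _
    exact congrArg (fun z : {y : W // Q y = 1} => z.1.1) h1
  have ha0 : a ≠ 0 := by
    rintro rfl
    rw [hQ.zero] at hQa'
    exact absurd hQa' (by decide)
  have ht := tP_mem hQ hC.perp haW hQa'
  have hcomm : ∀ g ∈ L Q W R, Commute g (tP hQ a) := fun g hg => tP_commute hQ hg (hfix g hg)
  have key : ∀ {H : Subgroup (Equiv.Perm V)}, MaxP (L Q W R) H → tP hQ a ∈ H := by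
    intro H hH
    have hle : Subgroup.zpowers (tP hQ a) ≤ L Q W R := by
      rw [Subgroup.zpowers_le]
      exact ht
    have hP : IsPGroup 2 (Subgroup.zpowers (tP hQ a)) := by
      rintro ⟨x, hx⟩
      obtain ⟨n, rfl⟩ := Subgroup.mem_zpowers_iff.1 hx
      refine ⟨1, Subtype.ext ?_⟩
      show ((tP hQ a) ^ n) ^ (2 ^ 1) = 1
      rw [pow_one, ← zpow_natCast, ← zpow_mul, mul_comm, zpow_mul, zpow_natCast, tP_sq, one_zpow]
    have hn : H ≤ Subgroup.normalizer (Subgroup.zpowers (tP hQ a)) := by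
      intro h hh
      have hc : ∀ n ∈ Subgroup.zpowers (tP hQ a), h * n * h⁻¹ = n := by
        intro n hn
        obtain ⟨k, rfl⟩ := Subgroup.mem_zpowers_iff.1 hn
        have h5 : Commute h ((tP hQ a) ^ k) := (hcomm h (hH.1 hh)).zpow_right k
        rw [h5.eq]
        simp
      rw [Subgroup.mem_normalizer_iff]
      intro n
      refine ⟨fun hn => by rw [hc n hn]; exact hn, fun hn => ?_⟩
      have h6 := hc _ hn
      have h7 : h * n * h⁻¹ = n := by
        have h8 : h * (h * n * h⁻¹) * h⁻¹ = h * n * h⁻¹ := h6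
        have h9 : h * n * h⁻¹ = n := by
          have h10 : h⁻¹ * (h * (h * n * h⁻¹) * h⁻¹) * h = h⁻¹ * (h * n * h⁻¹) * h := by rw [h8]
          simpa [mul_assoc] using h10
        exact h9
      rwa [h7] at hn
    exact hH.absorb hle hP hn (Subgroup.mem_zpowers _)
  intro hbot
  have h1 : tP hQ a ∈ H ⊓ H' := ⟨key hH, key hH'⟩
  rw [hbot, Subgroup.mem_bot] at h1
  obtain ⟨u, huW, hu⟩ := hC.nd a haW ha0
  have h2 : tP hQ a u = u := by
    rw [h1]
    rfl
  rw [tP_apply, B_comm, hu, one_smul] at h2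
  exact ha0 (add_left_cancel (h2.trans (add_zero u).symm))

theorem mem_L_union {v v' : V} {g : Equiv.Perm V} :
    g ∈ L Q W (R ∪ {v, v'}) ↔ g ∈ L Q W R ∧ g v = v ∧ g v' = v' := by
  constructor
  · intro hg
    refine ⟨mem_L.2 ⟨L_add hg, L_Q hg, L_W hg, fun r hr => L_R hg (Or.inl hr)⟩, L_R hg (Or.inr (Or.inl rfl)),
      L_R hg (Or.inr (Or.inr rfl))⟩
  · rintro ⟨hg, h1, h2⟩
    refine mem_L.2 ⟨L_add hg, L_Q hg, L_W hg, ?_⟩
    rintro r (hr | rfl | rfl)
    · exact L_R hg hr
    · exact h1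
    · exact h2

theorem step_maxP [Finite V] (hQ : IsForm Q) (hC : Compat Q W R) {H : Subgroup (Equiv.Perm V)}
    (hH : MaxP (L Q W R) H) {v v' : V} (hv : v ∈ W) (hv' : v' ∈ W) (h0 : Q v = 0) (h0' : Q v' = 0)
    (h1 : B Q v v' = 1) (hfix : ∀ h ∈ H, h v = v) :
    MaxP (L Q W (R ∪ {v, v'})) (H ⊓ L Q W (R ∪ {v, v'})) := by
  have hsub : L Q W (R ∪ {v, v'}) ≤ L Q W R := fun g hg => (mem_L_union.1 hg).1
  have hEL : E Q W R v ≤ L Q W R := fun g hg => (mem_E.1 hg).1
  refine ⟨inf_le_right, hH.2.1.to_le inf_le_left, fun T hT hHT hTK => ?_⟩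
  have hEH : E Q W R v ≤ H := hH.absorb hEL (E_pgroup hQ v) (le_normalizer_E hQ hH.1 hfix)
  have hTn : T ≤ Subgroup.normalizer (E Q W R v) :=
    le_normalizer_E hQ (hTK.trans hsub) (fun t ht => (mem_L_union.1 (hTK ht)).2.1)
  have hP : IsPGroup 2 (T ⊔ E Q W R v : Subgroup (Equiv.Perm V)) :=
    IsPGroup.to_sup_of_normal_right' hT (E_pgroup hQ v) hTn
  have hHle : H ≤ T ⊔ E Q W R v := by
    intro h hh
    have hhL := hH.1 hh
    set u := h v' with hu
    have huW : u ∈ W := (L_W hhL _).2 hv'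
    have hQu : Q u = 0 := (L_Q hhL _).trans h0'
    have hvu : B Q v u = 1 := by
      have h2 := L_B hhL v v'
      rw [hfix h hh] at h2
      rw [hu, h2, h1]
    have hB : B Q v (u + v') = 0 := by
      rw [B_add_right hQ, hvu, h1]
      decide
    have he := rhoP_mem hQ hC.perp hv (add_mem huW hv') h0 hB
    have hev' : rhoP hQ hB v' = u := by
      rw [rhoP_apply]
      have h3 : Q (u + v') = B Q u v' := by
        rw [Q_add (Q := Q), hQu, h0']
        simp
      have h4 : B Q v' (u + v') = B Q u v' := by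
        rw [B_add_right hQ, B_self hQ, B_comm v' u]
        simp
      have h5 : B Q v' v = 1 := by rw [B_comm, h1]
      rw [h3, h4, h5, mul_one, add_self_z2, zero_smul, one_smul, add_zero]
      linear_combination (norm := module) two v'
    obtain ⟨e1, e2, e3⟩ := mem_E.1 he
    have hk : (rhoP hQ hB)⁻¹ * h ∈ L Q W (R ∪ {v, v'}) := by
      refine mem_L_union.2 ⟨mul_mem (inv_mem e1) hhL, ?_, ?_⟩
      · rw [Equiv.Perm.mul_apply, hfix h hh, Equiv.Perm.inv_eq_iff_eq]
        exact e2.symm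
      · rw [Equiv.Perm.mul_apply, ← hu, Equiv.Perm.inv_eq_iff_eq]
        exact hev'.symm
    have hkH : (rhoP hQ hB)⁻¹ * h ∈ H := mul_mem (inv_mem (hEH he)) hh
    have hkT : (rhoP hQ hB)⁻¹ * h ∈ T := hHT ⟨hkH, hk⟩
    have h6 : h = rhoP hQ hB * ((rhoP hQ hB)⁻¹ * h) := by group
    rw [h6]
    exact mul_mem (Subgroup.mem_sup_right he) (Subgroup.mem_sup_left hkT)
  have hmax := hH.2.2 (T ⊔ E Q W R v) hP hHle (sup_le (hTK.trans hsub) hEL)
  exact le_inf (le_sup_left.trans hmax) hTK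

theorem L_W1_eq (hQ : IsForm Q) {v v' : V} (h1 : B Q v v' = 1) (hv : v ∈ W) (hv' : v' ∈ W) :
    L Q (W1 hQ W v v') (R ∪ {v, v'}) = L Q W (R ∪ {v, v'}) := by
  have h0 := B_self hQ v
  have h0' := B_self hQ v'
  ext g
  constructor
  · intro hg
    have gv : g v = v := L_R hg (Or.inr (Or.inl rfl))
    have gv' : g v' = v' := L_R hg (Or.inr (Or.inr rfl))
    have hsm : ∀ (a b : ZMod 2) (y : V), g (y + a • v + b • v') = g y + a • v + b • v' := by
      intro a b y
      rw [L_add hg, L_add hg, L_smul hg, L_smul hg, gv, gv']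
    have hdec : ∀ x : V, x = (x + (B Q x v') • v + (B Q x v) • v') + (B Q x v') • v + (B Q x v) • v' := by
      intro x
      linear_combination (norm := module) - (B Q x v') • two v - (B Q x v) • two v'
    refine mem_L.2 ⟨L_add hg, L_Q hg, fun x => ?_, fun r hr => L_R hg hr⟩
    constructor
    · intro hx
      have h2 := decomp_mem hQ h0 h0' h1 hv hv' hx
      set y := g x + (B Q (g x) v') • v + (B Q (g x) v) • v' with hy
      have h3 : g (g⁻¹ y) = y := by simp
      have h4 : g⁻¹ y ∈ W1 hQ W v v' := (L_W hg _).1 (by rw [h3]; exact h2)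
      have h5 : g (g⁻¹ y + (B Q (g x) v') • v + (B Q (g x) v) • v') = g x := by
        rw [hsm, h3, hy]
        exact (hdec (g x)).symm
      rw [← g.injective h5]
      exact add_mem (add_mem ((mem_W1 hQ).1 h4).1 (smul_memW _ hv)) (smul_memW _ hv')
    · intro hx
      have h2 := decomp_mem hQ h0 h0' h1 hv hv' hx
      have h3 : g x = g (x + (B Q x v') • v + (B Q x v) • v') + (B Q x v') • v + (B Q x v) • v' := by
        rw [← hsm, ← hdec]
      rw [h3]
      exact add_mem (add_mem ((mem_W1 hQ).1 ((L_W hg _).2 h2)).1 (smul_memW _ hv)) (smul_memW _ hv')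
  · intro hg
    have gv : g v = v := L_R hg (Or.inr (Or.inl rfl))
    have gv' : g v' = v' := L_R hg (Or.inr (Or.inr rfl))
    refine mem_L.2 ⟨L_add hg, L_Q hg, fun x => ?_, fun r hr => L_R hg hr⟩
    rw [mem_W1, mem_W1, L_W hg]
    have h2 := L_B hg x v
    have h3 := L_B hg x v'
    rw [gv] at h2
    rw [gv'] at h3
    rw [h2, h3]

theorem compat_W1 (hQ : IsForm Q) (hC : Compat Q W R) {v v' : V} (h1 : B Q v v' = 1) (hv : v ∈ W) (hv' : v' ∈ W) :
    Compat Q (W1 hQ W v v') (R ∪ {v, v'}) := by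
  have h0 := B_self hQ v
  have h0' := B_self hQ v'
  refine ⟨?_, ?_⟩
  · rintro w hw r (hr | rfl | rfl)
    · exact hC.perp w ((mem_W1 hQ).1 hw).1 r hr
    · exact ((mem_W1 hQ).1 hw).2.1
    · exact ((mem_W1 hQ).1 hw).2.2
  · intro w hw hw0
    obtain ⟨hwW, hw1, hw2⟩ := (mem_W1 hQ).1 hw
    obtain ⟨u, huW, hu⟩ := hC.nd w hwW hw0
    refine ⟨_, decomp_mem hQ h0 h0' h1 hv hv' huW, ?_⟩
    rw [B_add_right hQ, B_add_right hQ, B_smul_right hQ, B_smul_right hQ, hw1, hw2, hu]
    simp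

theorem main_rec [Finite V] (hQ : IsForm Q) : ∀ (k : ℕ) (W : AddSubgroup V) (R : Set V), Compat Q W R → Cls Q W (k + 1) →
    ∀ H H' : Subgroup (Equiv.Perm V), MaxP (L Q W R) H → MaxP (L Q W R) H' → H ⊓ H' ≠ ⊥ := by
  intro k
  induction k with
  | zero =>
    intro W R hC hcls H H' hH hH'
    exact base hQ hC hcls hH hH'
  | succ k ih =>
    intro W R hC hcls H H' hH hH'
    have heven : 2 ∣ Zc Q W := by
      have h := hcls.2
      rw [pow_succ, pow_succ, pow_succ 2, pow_succ 2] at h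
      omega
    obtain ⟨v, hv, hv0, hQv, hfix⟩ := exists_fixed hQ hH.1 hH.2.1 heven
    obtain ⟨v', hv', hv0', hQv', hfix'⟩ := exists_fixed hQ hH'.1 hH'.2.1 heven
    have hEL : ∀ z, E Q W R z ≤ L Q W R := fun z g hg => (mem_E.1 hg).1
    have hEH : E Q W R v ≤ H := hH.absorb (hEL v) (E_pgroup hQ v) (le_normalizer_E hQ hH.1 hfix)
    have hEH' : E Q W R v' ≤ H' := hH'.absorb (hEL v') (E_pgroup hQ v') (le_normalizer_E hQ hH'.1 hfix')
    intro hbot
    have hcontra : ∀ g : Equiv.Perm V, g ∈ H → g ∈ H' → g = 1 := by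
      intro g h1 h2
      have h3 : g ∈ H ⊓ H' := ⟨h1, h2⟩
      rwa [hbot, Subgroup.mem_bot] at h3
    by_cases hvv : v = v'
    · subst hvv
      obtain ⟨u, huW, hu⟩ := hC.nd v hv hv0
      set u' := u + (Q u) • v with hu'
      have hu'W : u' ∈ W := add_mem huW (smul_memW _ hv)
      have hQu' : Q u' = 0 := by
        rw [hu', Q_add (Q := Q), Q_smul hQ, hQv, B_smul_right hQ, B_comm u v, hu]
        generalize Q u = p
        revert p
        decide
      have hvu' : B Q v u' = 1 := by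
        rw [hu', B_add_right hQ, B_smul_right hQ, B_self hQ, hu]
        simp
      have hcls1 := Cls_down hQ hQv hQu' hvu' hv hu'W hcls
      have hcard : 1 < Nat.card (W1 hQ W v u') := by
        rw [hcls1.1]
        exact Nat.one_lt_pow (by omega) (by omega)
      rw [Finite.one_lt_card_iff_nontrivial] at hcard
      obtain ⟨⟨y, hy⟩, hy0⟩ := exists_ne (0 : W1 hQ W v u')
      have hy0' : y ≠ 0 := fun h => hy0 (Subtype.ext h)
      obtain ⟨hyW, hy1, hy2⟩ := (mem_W1 hQ).1 hy
      have hvy : B Q v y = 0 := by rw [B_comm]; exact hy1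
      have hr := rhoP_mem hQ hC.perp hv hyW hQv hvy
      have h1 := hcontra _ (hEH hr) (hEH' hr)
      have h2 : rhoP hQ hvy u' = u' := by rw [h1]; rfl
      rw [rhoP_apply, B_comm u' y, hy2, B_comm u' v, hvu', mul_one, zero_add, one_smul, add_assoc] at h2
      have h3 : (Q y) • v + y = 0 := add_left_cancel (h2.trans (add_zero u').symm)
      rcases zmod2_cases (Q y) with h4 | h4
      · rw [h4, zero_smul, zero_add] at h3
        exact hy0' h3
      · rw [h4, one_smul] at h3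
        have h5 : y = v := by
          have h6 : v + y + v = v := by rw [h3, zero_add]
          have h7 : v + y + v = y := by linear_combination (norm := module) two v
          exact h7.symm.trans h6
        rw [h5, hvu'] at hy2
        exact absurd hy2 (by decide)
    · by_cases hB : B Q v v' = 0
      · have hr := rhoP_mem hQ hC.perp hv hv' hQv hB
        have hB' : B Q v' v = 0 := by rw [B_comm]; exact hB
        have hr' := rhoP_mem hQ hC.perp hv' hv hQv' hB'
        have heq : rhoP hQ hB = rhoP hQ hB' := by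
          ext x
          rw [rhoP_apply, rhoP_apply, hQv, hQv']
          simp only [zero_mul, add_zero]
          abel
        have h1 := hcontra (rhoP hQ hB) (hEH hr) (by rw [heq]; exact hEH' hr')
        obtain ⟨x, hxW, hx⟩ := hC.nd v hv hv0
        have h2 : rhoP hQ hB x = x := by rw [h1]; rfl
        rw [rhoP_apply, hQv', zero_mul, add_zero, B_comm x v, hx, one_smul, add_assoc] at h2
        have h3 := add_left_cancel (h2.trans (add_zero x).symm)
        rcases zmod2_cases (B Q x v') with h4 | h4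
        · rw [h4, zero_smul, zero_add] at h3
          exact hv0' h3
        · rw [h4, one_smul] at h3
          apply hvv
          have h6 : v + v' + v' = v' := by rw [h3, zero_add]
          have h7 : v + v' + v' = v := by linear_combination (norm := module) two v'
          exact h7.symm.trans h6
      · have h1 : B Q v v' = 1 := (zmod2_cases _).resolve_left hB
        have h1' : B Q v' v = 1 := by rw [B_comm]; exact h1
        have hm := step_maxP hQ hC hH hv hv' hQv hQv' h1 hfix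
        have hm' := step_maxP hQ hC hH' hv' hv hQv' hQv h1' hfix'
        have hsw : R ∪ {v', v} = R ∪ {v, v'} := by
          rw [Set.pair_comm]
        rw [hsw] at hm'
        have hcls1 := Cls_down hQ hQv hQv' h1 hv hv' hcls
        have hc1 := compat_W1 hQ hC h1 hv hv'
        have heq := L_W1_eq (R := R) hQ h1 hv hv'
        rw [← heq] at hm hm'
        have hfin := ih _ _ hc1 hcls1 _ _ hm hm'
        apply hfin
        rw [eq_bot_iff]
        rintro g ⟨⟨h5, -⟩, ⟨h6, -⟩⟩
        exact hcontra g h5 h6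

end Groups

end Cfsg.Agent.H27.OP
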