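import Mathlib
import Cfsg.Prelude.Def_Classical
import Cfsg.Agent.Lib.H27.OP

set_option autoImplicit false

open scoped Matrix Pointwise

namespace Cfsg.Agent.H27.OP

variable {F : Type*} [Field F] [Fintype F] {m : ℕ}

/-- The space. -/
abbrev VV (m : ℕ) (F : Type*) : Type _ := Fin m ⊕ Fin m → F

theorem two_F (hF : Fintype.card F = 2) : (2 : F) = 0 := by
  have e := ZMod.ringEquivOfPrime F Nat.prime_two hF
  have h : (2 : ZMod 2) = 0 := by decide
  calc (2 : F) = e 2 := (map_ofNat e 2).symm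
    _ = e 0 := by rw [h]
    _ = 0 := map_zero e

theorem F_cases (hF : Fintype.card F = 2) (c : F) : c = 0 ∨ c = 1 := by
  have e := ZMod.ringEquivOfPrime F Nat.prime_two hF
  have h1 : c = e (e.symm c) := (e.apply_symm_apply c).symm
  rcases zmod2_cases (e.symm c) with h | h
  · left
    rw [h1, h, map_zero]
  · right
    rw [h1, h, map_one]

/-- The polar form of the standard form. -/
def polar (m : ℕ) (F : Type*) [Field F] (x y : VV m F) : F :=
  ∑ i : Fin m, (x (.inl i) * y (.inr i) + y (.inl i) * x (.inr i))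

theorem polar_eq (hF : Fintype.card F = 2) (x y : VV m F) :
    Cfsg.quadFormPlus m F (x + y) + Cfsg.quadFormPlus m F x + Cfsg.quadFormPlus m F y = polar m F x y := by
  unfold Cfsg.quadFormPlus polar
  rw [← Finset.sum_add_distrib, ← Finset.sum_add_distrib]
  refine Finset.sum_congr rfl fun i _ => ?_
  simp only [Pi.add_apply]
  linear_combination (x (.inl i) * x (.inr i) + y (.inl i) * y (.inr i)) * two_F hF

/-- The ring isomorphism. -/
noncomputable def eF (hF : Fintype.card F = 2) : ZMod 2 ≃+* F := ZMod.ringEquivOfPrime F Nat.prime_two hF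

/-- The form with values in `ZMod 2`. -/
noncomputable def QQ (hF : Fintype.card F = 2) (x : VV m F) : ZMod 2 := (eF hF).symm (Cfsg.quadFormPlus m F x)

theorem B_QQ (hF : Fintype.card F = 2) (x y : VV m F) : B (QQ hF) x y = (eF hF).symm (polar m F x y) := by
  unfold B QQ
  rw [← polar_eq hF, map_add, map_add]

theorem isForm_QQ (hF : Fintype.card F = 2) : IsForm (QQ hF (m := m)) := by
  refine ⟨?_, fun x y z => ?_⟩
  · unfold QQ Cfsg.quadFormPlus
    simp
  · rw [B_QQ, B_QQ, B_QQ, ← map_add]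
    congr 1
    unfold polar
    rw [← Finset.sum_add_distrib]
    refine Finset.sum_congr rfl fun i _ => ?_
    simp only [Pi.add_apply]
    ring

theorem polar_single_inl (x : VV m F) (j : Fin m) : polar m F x (Pi.single (.inl j) 1) = x (.inr j) := by
  unfold polar
  rw [Finset.sum_eq_single j]
  · simp
  · intro b _ hb
    simp [Pi.single_apply, hb]
  · simp

theorem polar_single_inr (x : VV m F) (j : Fin m) : polar m F x (Pi.single (.inr j) 1) = x (.inl j) := by
  unfold polar
  rw [Finset.sum_eq_single j]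
  · simp
  · intro b _ hb
    simp [Pi.single_apply, hb]
  · simp

theorem symm_eq_zero (hF : Fintype.card F = 2) (c : F) : (eF hF).symm c = 0 ↔ c = 0 := by
  simp

theorem nd_QQ (hF : Fintype.card F = 2) (x : VV m F) (hx : x ≠ 0) : ∃ y, B (QQ hF) x y = 1 := by
  have : ∃ i, x i ≠ 0 := by
    by_contra h
    push Not at h
    exact hx (funext h)
  obtain ⟨i, hi⟩ := this
  have hi1 : x i = 1 := (F_cases hF _).resolve_left hi
  rcases i with j | j
  · refine ⟨Pi.single (.inr j) 1, ?_⟩
    rw [B_QQ, polar_single_inr, hi1, map_one]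
  · refine ⟨Pi.single (.inl j) 1, ?_⟩
    rw [B_QQ, polar_single_inl, hi1, map_one]

/-- Vectors supported on the first `j` hyperbolic planes. -/
def WW (m : ℕ) (F : Type*) [Field F] (j : ℕ) : AddSubgroup (VV m F) where
  carrier := {x | ∀ i : Fin m, j ≤ i.val → x (.inl i) = 0 ∧ x (.inr i) = 0}
  add_mem' := by
    intro a b ha hb i hi
    simp [(ha i hi).1, (ha i hi).2, (hb i hi).1, (hb i hi).2]
  zero_mem' := by
    intro i _
    simp
  neg_mem' := by
    intro a ha i hi
    simp [(ha i hi).1, (ha i hi).2]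

theorem mem_WW {j : ℕ} {x : VV m F} : x ∈ WW m F j ↔ ∀ i : Fin m, j ≤ i.val → x (.inl i) = 0 ∧ x (.inr i) = 0 := Iff.rfl

/-- Scalar action through the field isomorphism. -/
@[reducible] noncomputable def modZ (hF : Fintype.card F = 2) : Module (ZMod 2) (VV m F) :=
  Module.compHom _ (eF hF).toRingHom

theorem cls_WW (hF : Fintype.card F = 2) (j : ℕ) (hj : j ≤ m) : Cls (QQ hF (m := m)) (WW m F j) j := by
  letI := modZ (m := m) hF
  haveI : Finite (VV m F) := Finite.of_fintype _
  have hQ := isForm_QQ (m := m) hF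
  induction j with
  | zero =>
    have hsub : Subsingleton (WW m F 0) := by
      refine ⟨fun a b => Subtype.ext (funext ?_)⟩
      rintro (i | i)
      · rw [(a.2 i (Nat.zero_le _)).1, (b.2 i (Nat.zero_le _)).1]
      · rw [(a.2 i (Nat.zero_le _)).2, (b.2 i (Nat.zero_le _)).2]
    have h1 : Nat.card (WW m F 0) = 1 := by
      rw [Nat.card_eq_one_iff_unique]
      exact ⟨hsub, ⟨0⟩⟩
    have h2 : Zc (QQ hF (m := m)) (WW m F 0) = 1 := by
      unfold Zc
      rw [Nat.card_eq_one_iff_unique]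
      refine ⟨⟨fun a b => Subtype.ext (Subsingleton.elim _ _)⟩, ⟨⟨0, hQ.zero⟩⟩⟩
    refine ⟨by simpa using h1, ?_⟩
    rw [h2]
    norm_num
  | succ j ih =>
    have hj' : j < m := hj
    have ih' := ih (by omega)
    let jj : Fin m := ⟨j, hj'⟩
    set v : VV m F := Pi.single (.inl jj) 1 with hv
    set v' : VV m F := Pi.single (.inr jj) 1 with hv'
    have hvW : v ∈ WW m F (j + 1) := by
      intro i hi
      have hne : i ≠ jj := by
        intro h
        rw [h] at hi
        simp [jj] at hi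
      simp [hv, Pi.single_apply, hne]
    have hvW' : v' ∈ WW m F (j + 1) := by
      intro i hi
      have hne : i ≠ jj := by
        intro h
        rw [h] at hi
        simp [jj] at hi
      simp [hv', Pi.single_apply, hne]
    have hB : B (QQ hF) v v' = 1 := by
      rw [B_QQ, hv', polar_single_inr, hv]
      simp
    have h0 : QQ hF v = 0 := by
      unfold QQ Cfsg.quadFormPlus
      simp [hv, Pi.single_apply]
    have h0' : QQ hF v' = 0 := by
      unfold QQ Cfsg.quadFormPlus
      simp [hv', Pi.single_apply]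
    have heq : W1 hQ (WW m F (j + 1)) v v' = WW m F j := by
      ext x
      rw [mem_W1, mem_WW, mem_WW, B_QQ, B_QQ, hv, hv', polar_single_inl, polar_single_inr, symm_eq_zero, symm_eq_zero]
      constructor
      · rintro ⟨h1, h2, h3⟩ i hi
        by_cases h : j + 1 ≤ i.val
        · exact h1 i h
        · have : i = jj := Fin.ext (by simp [jj]; omega)
          rw [this]
          exact ⟨h3, h2⟩
      · intro h
        exact ⟨fun i hi => h i (by omega), (h jj (by simp [jj])).2, (h jj (by simp [jj])).1⟩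
    apply Cls_up hQ h0 h0' hB hvW hvW'
    rw [heq]
    exact ih'

/-- The permutation of the space induced by an invertible matrix. -/
def toP (g : Matrix.GeneralLinearGroup (Fin m ⊕ Fin m) F) : Equiv.Perm (VV m F) where
  toFun x := (g : Matrix (Fin m ⊕ Fin m) (Fin m ⊕ Fin m) F) *ᵥ x
  invFun x := ((g⁻¹ : Matrix.GeneralLinearGroup (Fin m ⊕ Fin m) F) : Matrix (Fin m ⊕ Fin m) (Fin m ⊕ Fin m) F) *ᵥ x
  left_inv x := by
    simp [Matrix.mulVec_mulVec]
  right_inv x := by
    simp [Matrix.mulVec_mulVec]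

theorem toP_apply (g : Matrix.GeneralLinearGroup (Fin m ⊕ Fin m) F) (x : VV m F) :
    toP g x = (g : Matrix (Fin m ⊕ Fin m) (Fin m ⊕ Fin m) F) *ᵥ x := rfl

/-- The homomorphism to permutations. -/
def phiP : Matrix.GeneralLinearGroup (Fin m ⊕ Fin m) F →* Equiv.Perm (VV m F) :=
  MonoidHom.mk' toP (fun a b => Equiv.ext fun x => by
    simp [toP_apply, Matrix.mulVec_mulVec])

theorem phiP_apply (g : Matrix.GeneralLinearGroup (Fin m ⊕ Fin m) F) (x : VV m F) :
    phiP g x = (g : Matrix (Fin m ⊕ Fin m) (Fin m ⊕ Fin m) F) *ᵥ x := rfl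

theorem phiP_inj : Function.Injective (phiP (m := m) (F := F)) := by
  intro a b hab
  apply Units.ext
  rw [Matrix.ext_iff_mulVec]
  intro v
  have h := congrArg (fun σ : Equiv.Perm (VV m F) => σ v) hab
  exact h

/-- The isometry group inside the permutations. -/
abbrev GG (m : ℕ) (F : Type*) [Field F] : Subgroup (Matrix.GeneralLinearGroup (Fin m ⊕ Fin m) F) :=
  Cfsg.isometryGroup F (Cfsg.quadFormPlus m F)

theorem mem_GG {g : Matrix.GeneralLinearGroup (Fin m ⊕ Fin m) F} :
    g ∈ GG m F ↔ ∀ u : VV m F, Cfsg.quadFormPlus m F ((g : Matrix (Fin m ⊕ Fin m) (Fin m ⊕ Fin m) F) *ᵥ u) = Cfsg.quadFormPlus m F u := by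
  constructor
  · intro h u
    exact h u u
  · intro h u v
    exact h u

theorem phiP_mem (hF : Fintype.card F = 2) {g : Matrix.GeneralLinearGroup (Fin m ⊕ Fin m) F} (hg : g ∈ GG m F) :
    phiP g ∈ L (QQ hF (m := m)) ⊤ ∅ := by
  letI := modZ (m := m) hF
  refine mem_L.2 ⟨fun x y => ?_, fun x => ?_, fun x => ?_, fun r hr => ?_⟩
  · simp [phiP_apply, Matrix.mulVec_add]
  · unfold QQ
    rw [phiP_apply, mem_GG.1 hg]
  · simp
  · exact absurd hr (Set.notMem_empty r)

theorem exists_phiP (hF : Fintype.card F = 2) {σ : Equiv.Perm (VV m F)} (hσ : σ ∈ L (QQ hF (m := m)) ⊤ ∅) :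
    ∃ g ∈ GG m F, phiP g = σ := by
  letI := modZ (m := m) hF
  have hadd := L_add hσ
  have hadd' := L_add (inv_mem hσ)
  have hsm : ∀ (τ : Equiv.Perm (VV m F)), (∀ x y, τ (x + y) = τ x + τ y) → ∀ (c : F) (x : VV m F), τ (c • x) = c • τ x := by
    intro τ hτ c x
    rcases F_cases hF c with rfl | rfl
    · have h := hτ 0 0
      rw [add_zero] at h
      have h2 : τ 0 = 0 := by
        have h3 : τ 0 + 0 = τ 0 + τ 0 := by rw [add_zero]; exact h
        exact (add_left_cancel h3).symm
      simp [h2]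
    · simp
  let f : VV m F →ₗ[F] VV m F := { toFun := σ, map_add' := hadd, map_smul' := fun c x => hsm σ hadd c x }
  let f' : VV m F →ₗ[F] VV m F := { toFun := (σ⁻¹ : Equiv.Perm (VV m F)), map_add' := hadd', map_smul' := fun c x => hsm σ⁻¹ hadd' c x }
  have h1 : f.comp f' = LinearMap.id := by
    ext x : 1
    apply LinearMap.ext
    intro y
    show σ (σ⁻¹ _) = _
    simp
  have h2 : f'.comp f = LinearMap.id := by
    ext x : 1
    apply LinearMap.ext
    intro y
    show σ⁻¹ (σ _) = _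
    simp
  let g : Matrix.GeneralLinearGroup (Fin m ⊕ Fin m) F :=
    { val := LinearMap.toMatrix' f
      inv := LinearMap.toMatrix' f'
      val_inv := by rw [← LinearMap.toMatrix'_comp, h1, LinearMap.toMatrix'_id]
      inv_val := by rw [← LinearMap.toMatrix'_comp, h2, LinearMap.toMatrix'_id] }
  have hgv : ∀ x, (g : Matrix (Fin m ⊕ Fin m) (Fin m ⊕ Fin m) F) *ᵥ x = σ x := by
    intro x
    show LinearMap.toMatrix' f *ᵥ x = σ x
    rw [LinearMap.toMatrix'_mulVec]
    rfl
  refine ⟨g, mem_GG.2 fun u => ?_, Equiv.ext fun x => hgv x⟩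
  rw [hgv]
  have h3 := L_Q hσ u
  unfold QQ at h3
  exact (eF hF).symm.injective h3

theorem main_plus (hF : Fintype.card F = 2) (hm : 1 ≤ m) (H : Sylow 2 (GG m F)) (x : GG m F) :
    (H : Subgroup (GG m F)) ⊓ MulAut.conj x • (H : Subgroup (GG m F)) ≠ ⊥ := by
  letI := modZ (m := m) hF
  haveI : Finite (VV m F) := Finite.of_fintype _
  have hQ := isForm_QQ (m := m) hF
  -- the homomorphism from the isometry group
  let ψ : GG m F →* Equiv.Perm (VV m F) := (phiP (m := m) (F := F)).comp (GG m F).subtype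
  have hψinj : Function.Injective ψ := phiP_inj.comp Subtype.val_injective
  have hmax : ∀ S : Sylow 2 (GG m F), MaxP (L (QQ hF (m := m)) ⊤ ∅) ((S : Subgroup (GG m F)).map ψ) := by
    intro S
    refine ⟨?_, S.isPGroup'.map ψ, fun T hT hST hTL => ?_⟩
    · rintro _ ⟨a, -, rfl⟩
      exact phiP_mem hF a.2
    · have hc : IsPGroup 2 (T.comap ψ) := hT.comap_of_injective ψ hψinj
      have hle : (S : Subgroup (GG m F)) ≤ T.comap ψ := fun a ha => hST ⟨a, ha, rfl⟩
      have hmaxS := S.is_maximal' hc hle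
      intro t ht
      obtain ⟨g, hg, hgt⟩ := exists_phiP hF (hTL ht)
      have h1 : (⟨g, hg⟩ : GG m F) ∈ T.comap ψ := by
        show ψ ⟨g, hg⟩ ∈ T
        show phiP g ∈ T
        rw [hgt]
        exact ht
      rw [hmaxS] at h1
      exact ⟨⟨g, hg⟩, h1, hgt⟩
  obtain ⟨k, rfl⟩ : ∃ k, m = k + 1 := ⟨m - 1, by omega⟩
  have hcls : Cls (QQ hF (m := k + 1)) ⊤ (k + 1) := by
    have h1 := cls_WW (m := k + 1) hF (k + 1) le_rfl
    have h2 : WW (k + 1) F (k + 1) = ⊤ := by
      rw [eq_top_iff]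
      intro y _ i hi
      have := i.2
      omega
    rwa [h2] at h1
  have hC : Compat (QQ hF (m := k + 1)) ⊤ ∅ := by
    refine ⟨fun w _ r hr => absurd hr (Set.notMem_empty r), fun w _ hw => ?_⟩
    obtain ⟨y, hy⟩ := nd_QQ hF w hw
    exact ⟨y, AddSubgroup.mem_top y, hy⟩
  have hfin := main_rec hQ k ⊤ ∅ hC hcls _ _ (hmax H) (hmax (x • H))
  intro hbot
  apply hfin
  rw [eq_bot_iff]
  rintro g ⟨⟨a, ha, rfl⟩, ⟨b, hb, hab⟩⟩
  have h2 : b = a := hψinj hab
  subst h2
  have h3 : b ∈ (H : Subgroup (GG (k + 1) F)) ⊓ MulAut.conj x • (H : Subgroup (GG (k + 1) F)) := ⟨ha, hb⟩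
  rw [hbot, Subgroup.mem_bot] at h3
  rw [h3, map_one]
  exact one_mem _

end Cfsg.Agent.H27.OP
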