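import Mathlib

set_option autoImplicit false

namespace Cfsg.Agent.H27.Singer

variable {F K : Type*} [Field F] [Field K] [Algebra F K]

/-- multiplications as units of `End` -/
abbrev Lu (F K : Type*) [Field F] [Field K] [Algebra F K] : Kˣ →* (Module.End F K)ˣ :=
  Units.map ((Algebra.lmul F K : K →ₐ[F] Module.End F K) : K →* Module.End F K)

theorem Lu_apply (u : Kˣ) (y : K) : ((Lu F K u : (Module.End F K)ˣ) : Module.End F K) y = u * y := rfl

theorem Lu_injective : Function.Injective (Lu F K) := by
  intro u v h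
  apply Units.ext
  have := congrArg (fun T : (Module.End F K)ˣ => (T : Module.End F K) 1) h
  simpa [Lu_apply] using this

theorem mem_range_iff (h : (Module.End F K)ˣ) :
    h ∈ (Lu F K).range ↔ ∃ u : Kˣ, ∀ y, (h : Module.End F K) y = u * y := by
  constructor
  · rintro ⟨u, rfl⟩
    exact ⟨u, fun y => rfl⟩
  · rintro ⟨u, hu⟩
    refine ⟨u, Units.ext (LinearMap.ext fun y => ?_)⟩
    rw [Lu_apply, hu]

theorem u_uinv (g : (Module.End F K)ˣ) (y : K) :
    (g : Module.End F K) (((g⁻¹ : (Module.End F K)ˣ) : Module.End F K) y) = y := by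
  have : ((g : Module.End F K) * ((g⁻¹ : (Module.End F K)ˣ) : Module.End F K)) y = (1 : Module.End F K) y := by
    rw [Units.mul_inv]
  exact this

theorem uinv_u (g : (Module.End F K)ˣ) (y : K) :
    ((g⁻¹ : (Module.End F K)ˣ) : Module.End F K) ((g : Module.End F K) y) = y := by
  have : (((g⁻¹ : (Module.End F K)ˣ) : Module.End F K) * (g : Module.End F K)) y = (1 : Module.End F K) y := by
    rw [Units.inv_mul]
  exact this

theorem u_inj (g : (Module.End F K)ˣ) {a b : K}
    (h : (g : Module.End F K) a = (g : Module.End F K) b) : a = b := by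
  have := congrArg ((g⁻¹ : (Module.End F K)ˣ) : Module.End F K) h
  simpa [uinv_u] using this

/-- a field automorphism as a unit of `End` -/
def sigU (σ : K ≃ₐ[F] K) : (Module.End F K)ˣ where
  val := σ.toLinearMap
  inv := σ.symm.toLinearMap
  val_inv := by ext x; simp
  inv_val := by ext x; simp

theorem sigU_apply (σ : K ≃ₐ[F] K) (x : K) : ((sigU σ : (Module.End F K)ˣ) : Module.End F K) x = σ x := rfl

/-- semilinear maps -/
def mkU (c : Kˣ) (σ : K ≃ₐ[F] K) : (Module.End F K)ˣ := Lu F K c * sigU σ

theorem mkU_apply (c : Kˣ) (σ : K ≃ₐ[F] K) (x : K) :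
    ((mkU c σ : (Module.End F K)ˣ) : Module.End F K) x = c * σ x := rfl

theorem mkU_mem_normalizer (c : Kˣ) (σ : K ≃ₐ[F] K) :
    mkU c σ ∈ Subgroup.normalizer (((Lu F K).range : Subgroup (Module.End F K)ˣ) : Set (Module.End F K)ˣ) := by
  rw [Subgroup.mem_normalizer_iff]
  intro h
  set g := mkU c σ with hg
  have hgx : ∀ x, (g : Module.End F K) x = c * σ x := fun x => rfl
  have hmul : ∀ y, (((g * h * g⁻¹ : (Module.End F K)ˣ)) : Module.End F K) ((g : Module.End F K) y)
      = (g : Module.End F K) ((h : Module.End F K) y) := by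
    intro y
    simp [Units.val_mul, uinv_u]
  constructor
  · intro hh
    obtain ⟨u, hu⟩ := (mem_range_iff h).mp hh
    refine (mem_range_iff _).mpr ⟨Units.map (σ : K →* K) u, fun y => ?_⟩
    have h1 := hmul (((g⁻¹ : (Module.End F K)ˣ) : Module.End F K) y)
    rw [u_uinv, hu, hgx] at h1
    rw [h1, map_mul]
    have h2 := u_uinv g y
    rw [hgx] at h2
    simp only [Units.coe_map, MonoidHom.coe_coe]
    calc (c : K) * (σ u * σ (((g⁻¹ : (Module.End F K)ˣ) : Module.End F K) y))
        = σ u * ((c : K) * σ (((g⁻¹ : (Module.End F K)ˣ) : Module.End F K) y)) := by ring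
      _ = σ u * y := by rw [h2]
  · intro hh
    obtain ⟨v, hv⟩ := (mem_range_iff _).mp hh
    refine (mem_range_iff _).mpr ⟨Units.map (σ.symm : K →* K) v, fun y => ?_⟩
    apply u_inj g
    rw [← hmul, hv, hgx, hgx]
    simp only [Units.coe_map, MonoidHom.coe_coe, map_mul, AlgEquiv.apply_symm_apply]
    ring

variable [Finite K]

theorem exists_mkU_of_mem_normalizer (g : (Module.End F K)ˣ)
    (hg : g ∈ Subgroup.normalizer (((Lu F K).range : Subgroup (Module.End F K)ˣ) : Set (Module.End F K)ˣ)) :
    ∃ (c : Kˣ) (σ : K ≃ₐ[F] K), g = mkU c σ := by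
  rw [Subgroup.mem_normalizer_iff] at hg
  let gi := ((g⁻¹ : (Module.End F K)ˣ) : Module.End F K)
  let gg := ((g : (Module.End F K)ˣ) : Module.End F K)
  let τ : K → K := fun x => gg (x * gi 1)
  have hmain : ∀ x y, gg (x * gi y) = τ x * y := by
    intro x y
    by_cases hx : x = 0
    · simp [hx, τ]
    · have hu := (hg (Lu F K (Units.mk0 x hx))).mp (mem_range_iff _ |>.mpr ⟨Units.mk0 x hx, fun _ => rfl⟩)
      obtain ⟨u, hu⟩ := (mem_range_iff _).mp hu
      have h1 : ∀ z, gg (x * gi z) = u * z := by
        intro z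
        have := hu z
        simpa [Units.val_mul, Lu_apply] using this
      have h2 := h1 1
      rw [mul_one] at h2
      rw [h1 y]
      change (u : K) * y = gg (x * gi 1) * y
      rw [h2]
  have hgi : ∀ x, gi (gg x) = x := uinv_u g
  have hgg : ∀ x, gg (gi x) = x := u_uinv g
  have τ_mul : ∀ x y, τ (x * y) = τ x * τ y := by
    intro x y
    have h1 := hmain x (τ y)
    have h2 : gi (τ y) = y * gi 1 := hgi _
    rw [h2] at h1
    rw [← h1, ← mul_assoc]
  have τ_add : ∀ x y, τ (x + y) = τ x + τ y := by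
    intro x y
    simp only [τ, add_mul, map_add]
  have τ_one : τ 1 = 1 := by
    simp only [τ, one_mul, hgg]
  have τ_alg : ∀ a : F, τ (algebraMap F K a) = algebraMap F K a := by
    intro a
    simp only [τ]
    rw [← Algebra.smul_def, map_smul, hgg, Algebra.smul_def, mul_one]
  let τhom : K →ₐ[F] K :=
    { toFun := τ
      map_one' := τ_one
      map_mul' := τ_mul
      map_zero' := by simp [τ]
      map_add' := τ_add
      commutes' := τ_alg }
  have hbij : Function.Bijective τhom :=
    Finite.injective_iff_bijective.mp τhom.toRingHom.injective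
  let σ : K ≃ₐ[F] K := AlgEquiv.ofBijective τhom hbij
  have hσ : ∀ x, σ x = τ x := fun x => rfl
  have hc1 : gg 1 ≠ 0 := by
    intro h0
    have := hgi 1
    rw [h0, map_zero] at this
    exact zero_ne_one this
  refine ⟨Units.mk0 (gg 1) hc1, σ, Units.ext (LinearMap.ext fun x => ?_)⟩
  rw [mkU_apply, hσ]
  change gg x = gg 1 * τ x
  have := hmain x (gg 1)
  rw [hgi, mul_one] at this
  rw [this, mul_comm]

theorem mkU_injective : Function.Injective (fun p : Kˣ × (K ≃ₐ[F] K) => mkU p.1 p.2) := by
  rintro ⟨c, σ⟩ ⟨d, τ⟩ h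
  simp only at h
  have h1 : ∀ x, (c : K) * σ x = d * τ x := fun x =>
    congrArg (fun T : (Module.End F K)ˣ => (T : Module.End F K) x) h
  have hcd : c = d := by
    apply Units.ext
    have := h1 1
    simpa using this
  subst hcd
  refine Prod.ext rfl (AlgEquiv.ext fun x => ?_)
  exact mul_left_cancel₀ c.ne_zero (h1 x)

theorem card_normalizer [Fintype K] :
    Nat.card (Subgroup.normalizer (((Lu F K).range : Subgroup (Module.End F K)ˣ) : Set (Module.End F K)ˣ))
      = Module.finrank F K * (Fintype.card K - 1) := by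
  classical
  let φ : Kˣ × (K ≃ₐ[F] K) → Subgroup.normalizer
      (((Lu F K).range : Subgroup (Module.End F K)ˣ) : Set (Module.End F K)ˣ) :=
    fun p => ⟨mkU p.1 p.2, mkU_mem_normalizer p.1 p.2⟩
  have hbij : Function.Bijective φ := by
    constructor
    · intro p q h
      exact mkU_injective (congrArg Subtype.val h)
    · rintro ⟨g, hg⟩
      obtain ⟨c, σ, rfl⟩ := exists_mkU_of_mem_normalizer g hg
      exact ⟨(c, σ), rfl⟩
  rw [← Nat.card_congr (Equiv.ofBijective φ hbij), Nat.card_prod, IsGalois.card_aut_eq_finrank,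
    Nat.card_eq_fintype_card, Fintype.card_units, mul_comm]


/-- the intermediate field of `x` whose multiplication is conjugate into the multiplications -/
def subF (g : (Module.End F K)ˣ) : IntermediateField F K where
  carrier := {x | ∃ z : K, ∀ y, x * (g : Module.End F K) y = (g : Module.End F K) (z * y)}
  mul_mem' := by
    rintro a b ⟨z, hz⟩ ⟨w, hw⟩
    refine ⟨z * w, fun y => ?_⟩
    rw [mul_assoc, hw, hz, mul_assoc]
  add_mem' := by
    rintro a b ⟨z, hz⟩ ⟨w, hw⟩
    refine ⟨z + w, fun y => ?_⟩
    rw [add_mul, hz, hw, add_mul, map_add]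
  algebraMap_mem' := by
    intro a
    refine ⟨algebraMap F K a, fun y => ?_⟩
    rw [← Algebra.smul_def, ← Algebra.smul_def, map_smul]
  inv_mem' := by
    rintro a ⟨z, hz⟩
    by_cases ha : a = 0
    · exact ⟨0, fun y => by simp [ha]⟩
    have hz0 : z ≠ 0 := by
      rintro rfl
      have := hz (((g⁻¹ : (Module.End F K)ˣ) : Module.End F K) 1)
      rw [u_uinv, mul_one, zero_mul, map_zero] at this
      exact ha this
    refine ⟨z⁻¹, fun y => ?_⟩
    have h1 := hz (z⁻¹ * y)
    rw [mul_inv_cancel_left₀ hz0] at h1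
    rw [← h1, inv_mul_cancel_left₀ ha]

theorem singer_inter [Fintype F] [Fintype K] (g : (Module.End F K)ˣ)
    (hg : ((Lu F K).range).map (MulAut.conj g).toMonoidHom ≠ (Lu F K).range) :
    ∃ r : ℕ, 1 ≤ r ∧ r ∣ Module.finrank F K ∧ r < Module.finrank F K ∧
      Nat.card ↥(((Lu F K).range).map (MulAut.conj g).toMonoidHom ⊓ (Lu F K).range)
        ∣ Fintype.card F ^ r - 1 := by
  classical
  have : Finite (Module.End F K) :=
    Finite.of_injective (fun T : Module.End F K => (T : K → K)) DFunLike.coe_injective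
  set M := (Lu F K).range with hM
  set M' := M.map (MulAut.conj g).toMonoidHom with hM'
  let Aset : Set K := {x | ∃ u : Kˣ, (u : K) = x ∧ Lu F K u ∈ M'}
  let E : IntermediateField F K := IntermediateField.adjoin F Aset
  have hsub : E ≤ subF g := by
    apply IntermediateField.adjoin_le_iff.mpr
    rintro x ⟨u, rfl, hu⟩
    obtain ⟨m, ⟨w, rfl⟩, hm⟩ := hu
    refine ⟨(w : K), fun y => ?_⟩
    have h1 : (((MulAut.conj g).toMonoidHom (Lu F K w) : (Module.End F K)ˣ) : Module.End F K)
        ((g : Module.End F K) y) = (g : Module.End F K) ((w : K) * y) := by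
      simp [MulAut.conj_apply, Units.val_mul, uinv_u, Lu_apply]
    rw [hm] at h1
    exact h1
  have hfin : Module.finrank F E * Module.finrank E K = Module.finrank F K :=
    Module.finrank_mul_finrank F E K
  have hpos : 0 < Module.finrank F K := Module.finrank_pos
  have hr1 : 1 ≤ Module.finrank F E := Module.finrank_pos
  have hdvd : Module.finrank F E ∣ Module.finrank F K := ⟨_, hfin.symm⟩
  have hlt : Module.finrank F E < Module.finrank F K := by
    apply lt_of_le_of_ne (Nat.le_of_dvd hpos hdvd)
    intro heq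
    apply hg
    have hEtop : E = ⊤ := by
      apply IntermediateField.eq_of_le_of_finrank_le le_top
      rw [IntermediateField.finrank_top', heq]
    have hall : ∀ x : K, x ∈ subF g := fun x => hsub (by rw [hEtop]; trivial)
    have hle : M ≤ M' := by
      rintro _ ⟨x, rfl⟩
      obtain ⟨z, hz⟩ := hall x
      have hz0 : z ≠ 0 := by
        rintro rfl
        have := hz (((g⁻¹ : (Module.End F K)ˣ) : Module.End F K) 1)
        rw [u_uinv, mul_one, zero_mul, map_zero] at this
        exact x.ne_zero this
      refine ⟨Lu F K (Units.mk0 z hz0), ⟨_, rfl⟩, ?_⟩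
      apply Units.ext
      apply LinearMap.ext
      intro y
      have h1 := hz (((g⁻¹ : (Module.End F K)ˣ) : Module.End F K) y)
      rw [u_uinv] at h1
      simp only [MulEquiv.coe_toMonoidHom, MulAut.conj_apply, Units.val_mul, Module.End.mul_apply, Lu_apply,
        Units.val_mk0]
      rw [← h1]
    have hc : Nat.card M' = Nat.card M :=
      Subgroup.card_map_of_injective (MulAut.conj g).injective
    exact (Subgroup.eq_of_le_of_card_ge hle hc.le).symm
  refine ⟨Module.finrank F E, hr1, hdvd, hlt, ?_⟩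
  -- the cardinality
  let _ : Fintype E := Fintype.ofFinite _
  have hcardE : Fintype.card E = Fintype.card F ^ Module.finrank F E :=
    Module.card_eq_pow_finrank
  let Ê : Subgroup Kˣ := (Units.map (E.val : E →* K)).range
  have hÊ : Nat.card Ê = Fintype.card F ^ Module.finrank F E - 1 := by
    have hinj : Function.Injective (Units.map (E.val : E →* K)) :=
      Units.map_injective E.val.injective
    have : Nat.card Ê = Nat.card Eˣ :=
      Nat.card_congr (MonoidHom.ofInjective hinj).toEquiv.symm
    rw [this, Nat.card_eq_fintype_card, Fintype.card_units, hcardE]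
  rw [← hÊ]
  let H : Subgroup Kˣ := (M' ⊓ M).comap (Lu F K)
  have hA : M' ⊓ M = H.map (Lu F K) := by
    symm
    apply Subgroup.map_comap_eq_self
    exact inf_le_right
  have hcard : Nat.card ↥(M' ⊓ M) = Nat.card H := by
    rw [hA]
    exact Subgroup.card_map_of_injective Lu_injective
  rw [hcard]
  apply Subgroup.card_dvd_of_le
  intro u hu
  have hu' : Lu F K u ∈ M' := hu.1
  have hmem : (u : K) ∈ E := IntermediateField.subset_adjoin F Aset ⟨u, rfl, hu'⟩
  have hne : (⟨(u : K), hmem⟩ : E) ≠ 0 := by
    intro h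
    exact u.ne_zero (congrArg Subtype.val h)
  exact ⟨Units.mk0 _ hne, Units.ext rfl⟩

end Cfsg.Agent.H27.Singer
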