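import Mathlib
import Cfsg.Agent.Lib.H01.Basic

/-! Two-groups with `|Z₄| = 16`: common core of the Rudvalis type conditions. -/

set_option autoImplicit false

namespace Cfsg.Agent.H27.T14

variable {T : Type*} [Group T] [Finite T]

theorem normal_inf_center (hG : IsPGroup 2 T) (M : Subgroup T) [M.Normal] (hM : M ≠ ⊥) :
    ∃ x ∈ M, x ≠ 1 ∧ x ∈ Subgroup.center T := by
  classical
  have hMp : IsPGroup 2 M := hG.to_subgroup M
  have : Nontrivial M := (Subgroup.nontrivial_iff_ne_bot M).2 hM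
  have hdvd : 2 ∣ Nat.card M := by
    obtain ⟨n, hn⟩ := IsPGroup.iff_card.mp hMp
    have h1 : 1 < Nat.card M := Finite.one_lt_card
    rw [hn] at h1 ⊢
    have : n ≠ 0 := by
      rintro rfl
      simp at h1
    exact dvd_pow_self 2 this
  have hfix : (1 : M) ∈ MulAction.fixedPoints (ConjAct T) M := by
    intro g
    exact smul_one g
  obtain ⟨b, hb, hne⟩ := (hG.of_equiv ConjAct.toConjAct).exists_fixed_point_of_prime_dvd_card_of_fixed_point
    M hdvd hfix
  refine ⟨b, b.2, fun h => hne (Subtype.ext h.symm), ?_⟩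
  rw [Subgroup.mem_center_iff]
  intro g
  have := hb (ConjAct.toConjAct g)
  have h2 : ((ConjAct.toConjAct g • b : M) : T) = (b : T) := congrArg Subtype.val this
  have h3 : g * (b : T) * g⁻¹ = b := by
    rw [ConjAct.Subgroup.val_conj_smul, ConjAct.smul_def] at h2
    simpa using h2
  calc g * (b : T) = g * (b : T) * g⁻¹ * g := by group
    _ = b * g := by rw [h3]

/-- Step lemma: a normal `N ≰ M` (both normal in the 2-group `T`) contains `x ∉ M` with `[x,T] ≤ M`. -/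
theorem exists_step (hT : IsPGroup 2 T) (M N : Subgroup T) [M.Normal] [hN : N.Normal]
    (h : ¬ N ≤ M) : ∃ x ∈ N, x ∉ M ∧ ∀ t : T, x * t * x⁻¹ * t⁻¹ ∈ M := by
  have hQ : IsPGroup 2 (T ⧸ M) := hT.to_quotient M
  let N' : Subgroup (T ⧸ M) := N.map (QuotientGroup.mk' M)
  have hN'n : N'.Normal := Subgroup.Normal.map hN _ (QuotientGroup.mk'_surjective M)
  have hN' : N' ≠ ⊥ := by
    intro hb
    apply h
    intro x hx
    have : (x : T ⧸ M) ∈ N' := ⟨x, hx, rfl⟩
    rw [hb, Subgroup.mem_bot] at this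
    exact (QuotientGroup.eq_one_iff x).1 this
  obtain ⟨q, ⟨x, hx, rfl⟩, hq1, hqc⟩ := normal_inf_center hQ N' hN'
  refine ⟨x, hx, fun hxM => hq1 ((QuotientGroup.eq_one_iff x).2 hxM), fun t => ?_⟩
  rw [← QuotientGroup.eq_one_iff]
  have := (Subgroup.mem_center_iff.1 hqc) (t : T ⧸ M)
  simp only [QuotientGroup.mk'_apply] at this
  simp only [QuotientGroup.mk_mul, QuotientGroup.mk_inv]
  rw [← this]
  group

theorem two_mul_card_le (hT : IsPGroup 2 T) {H K : Subgroup T} (h : H < K) :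
    2 * Nat.card H ≤ Nat.card K := by
  obtain ⟨m, hm⟩ := Subgroup.card_dvd_of_le h.le
  have hK : IsPGroup 2 K := hT.to_subgroup K
  obtain ⟨n, hn⟩ := IsPGroup.iff_card.mp hK
  have hm2 : m ≠ 1 := by
    rintro rfl
    rw [mul_one] at hm
    exact h.ne (Subgroup.eq_of_le_of_card_ge h.le (by rw [hm]))
  have hm0 : m ≠ 0 := by
    rintro rfl
    rw [mul_zero] at hm
    exact Nat.card_pos.ne' hm
  have h2 : 2 ≤ m := by omega
  rw [hm, mul_comm]
  exact Nat.mul_le_mul_left _ h2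

theorem exists_mem_not_mem_of_lt {H K : Subgroup T} (h : H < K) : ∃ x ∈ K, x ∉ H :=
  SetLike.exists_of_lt h

abbrev Z (T : Type*) [Group T] (i : ℕ) : Subgroup T := Subgroup.upperCentralSeries T i

theorem mem_Z_succ {i : ℕ} {x : T} : x ∈ Z T (i + 1) ↔ ∀ t : T, x * t * x⁻¹ * t⁻¹ ∈ Z T i :=
  Subgroup.mem_upperCentralSeries_succ_iff.trans (by simp [commutatorElement_def])

theorem Z_mono {i j : ℕ} (h : i ≤ j) : Z T i ≤ Z T j :=
  (Subgroup.upperCentralSeries_mono T) h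

theorem Z_lt_succ (hT : IsPGroup 2 T) {i : ℕ} (h : Z T i ≠ ⊤) : Z T i < Z T (i + 1) := by
  refine lt_of_le_of_ne (Z_mono (Nat.le_succ i)) ?_
  intro heq
  have hn : ¬ (⊤ : Subgroup T) ≤ Z T i := fun hh => h (top_le_iff.1 hh)
  obtain ⟨x, -, hx, hc⟩ := exists_step hT (Z T i) ⊤ hn
  apply hx
  rw [heq]
  exact mem_Z_succ.2 hc

/-- orders of the upper central series -/
theorem card_Z (hT : IsPGroup 2 T) (ha : 2 ^ 14 ≤ Nat.card T)
    (hb : Nat.card ↥(Z T 4) = 16) :
    Nat.card ↥(Z T 1) = 2 ∧ Nat.card ↥(Z T 2) = 4 ∧ Nat.card ↥(Z T 3) = 8 := by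
  have h4 : Z T 4 ≠ ⊤ := by
    intro h
    rw [h, Subgroup.card_top] at hb
    omega
  have h3 : Z T 3 ≠ ⊤ := fun h => h4 (top_le_iff.1 (h ▸ Z_mono (by norm_num)))
  have h2 : Z T 2 ≠ ⊤ := fun h => h4 (top_le_iff.1 (h ▸ Z_mono (by norm_num)))
  have h1 : Z T 1 ≠ ⊤ := fun h => h4 (top_le_iff.1 (h ▸ Z_mono (by norm_num)))
  have h0 : Z T 0 ≠ ⊤ := fun h => h4 (top_le_iff.1 (h ▸ Z_mono (by norm_num)))
  have c3 : 2 * Nat.card ↥(Z T 3) ≤ Nat.card ↥(Z T 4) := two_mul_card_le hT (Z_lt_succ hT h3)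
  have c2 : 2 * Nat.card ↥(Z T 2) ≤ Nat.card ↥(Z T 3) := two_mul_card_le hT (Z_lt_succ hT h2)
  have c1 : 2 * Nat.card ↥(Z T 1) ≤ Nat.card ↥(Z T 2) := two_mul_card_le hT (Z_lt_succ hT h1)
  have c0 : 2 * Nat.card ↥(Z T 0) ≤ Nat.card ↥(Z T 1) := two_mul_card_le hT (Z_lt_succ hT h0)
  have z0 : Nat.card ↥(Z T 0) = 1 := by
    simp [Z, Subgroup.upperCentralSeries_zero]
  rw [hb] at c3
  rw [z0] at c0
  omega

/-- A normal subgroup of order at most `2^e` lies in `Z_e`. -/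
theorem normal_le_Z (hT : IsPGroup 2 T) (N : Subgroup T) [N.Normal] (i : ℕ) :
    N ≤ Z T i ∨ 2 ^ (i + 1) ≤ Nat.card ↥(N ⊓ Z T (i + 1)) := by
  induction i with
  | zero =>
    by_cases h : N ≤ Z T 0
    · exact Or.inl h
    · right
      obtain ⟨x, hxN, hx, hc⟩ := exists_step hT (Z T 0) N h
      have hlt : (⊥ : Subgroup T) < N ⊓ Z T 1 := by
        refine bot_lt_iff_ne_bot.2 fun hb => hx ?_
        have : x ∈ N ⊓ Z T 1 := ⟨hxN, mem_Z_succ.2 hc⟩
        rw [hb] at this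
        simpa [Z, Subgroup.upperCentralSeries_zero] using this
      have := two_mul_card_le hT hlt
      simpa using this
  | succ i ih =>
    by_cases h : N ≤ Z T (i + 1)
    · exact Or.inl h
    · right
      have hi : ¬ N ≤ Z T i := fun h' => h (h'.trans (Z_mono (Nat.le_succ i)))
      have h1 := ih.resolve_left hi
      obtain ⟨x, hxN, hx, hc⟩ := exists_step hT (Z T (i + 1)) N h
      have hlt : N ⊓ Z T (i + 1) < N ⊓ Z T (i + 2) := by
        refine lt_of_le_of_ne (inf_le_inf_left _ (Z_mono (Nat.le_succ _))) ?_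
        intro heq
        have : x ∈ N ⊓ Z T (i + 2) := ⟨hxN, mem_Z_succ.2 hc⟩
        rw [← heq] at this
        exact hx this.2
      have := two_mul_card_le hT hlt
      show 2 ^ (i + 1 + 1) ≤ Nat.card ↥(N ⊓ Z T (i + 2))
      rw [pow_succ]
      omega

theorem normal_le_Z' (hT : IsPGroup 2 T) (N : Subgroup T) [N.Normal] (e : ℕ)
    (h : Nat.card N ≤ 2 ^ e) : N ≤ Z T e := by
  refine (normal_le_Z hT N e).resolve_right fun h2 => ?_
  have h3 : Nat.card ↥(N ⊓ Z T (e + 1)) ≤ Nat.card N :=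
    Subgroup.card_le_of_le inf_le_left
  have : 2 ^ (e + 1) = 2 * 2 ^ e := by rw [pow_succ, mul_comm]
  have h4 : 0 < 2 ^ e := by positivity
  omega


/-! ### index two -/

theorem idx2_subgroupOf {H K : Subgroup T} (hHK : H ≤ K) (hc : Nat.card K = 2 * Nat.card H) :
    (H.subgroupOf K).index = 2 := by
  have h1 := Subgroup.index_mul_card (H.subgroupOf K)
  have h2 : Nat.card ↥(H.subgroupOf K) = Nat.card H :=
    Nat.card_congr (Subgroup.subgroupOfEquivOfLe hHK).toEquiv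
  rw [h2, hc] at h1
  have h3 : 0 < Nat.card H := Nat.card_pos
  exact Nat.eq_of_mul_eq_mul_right h3 h1

theorem idx2_mem {H K : Subgroup T} (hHK : H ≤ K) (hc : Nat.card K = 2 * Nat.card H) {x y : T}
    (hx : x ∈ K) (hxH : x ∉ H) (hy : y ∈ K) (hyH : y ∉ H) : x⁻¹ * y ∈ H := by
  have hi := idx2_subgroupOf hHK hc
  have := (Subgroup.mul_mem_iff_of_index_two hi (a := (⟨x, hx⟩ : K)⁻¹) (b := ⟨y, hy⟩)).2 (by
    constructor
    · intro h
      exact absurd (by simpa [Subgroup.mem_subgroupOf] using h) hxH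
    · intro h
      exact absurd (by simpa [Subgroup.mem_subgroupOf] using h) hyH)
  simpa [Subgroup.mem_subgroupOf] using this

/-- A subgroup containing `H` and an element of `K \ H` contains `K` when `|K:H| = 2`. -/
theorem idx2_le {H K L : Subgroup T} (hHK : H ≤ K) (hc : Nat.card K = 2 * Nat.card H)
    (hHL : H ≤ L) {x : T} (hx : x ∈ K) (hxH : x ∉ H) (hxL : x ∈ L) : K ≤ L := by
  intro k hk
  by_cases hkH : k ∈ H
  · exact hHL hkH
  · have := idx2_mem hHK hc hx hxH hk hkH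
    have h2 := L.mul_mem hxL (hHL this)
    simpa using h2

theorem card_Z_all (hT : IsPGroup 2 T) (ha : 2 ^ 14 ≤ Nat.card T)
    (hb : Nat.card ↥(Z T 4) = 16) (e : ℕ) (he : e ≤ 4) : Nat.card ↥(Z T e) = 2 ^ e := by
  obtain ⟨h1, h2, h3⟩ := card_Z hT ha hb
  interval_cases e
  · simp [Z, Subgroup.upperCentralSeries_zero]
  · simpa using h1
  · simpa using h2
  · simpa using h3
  · simpa using hb

/-! ### index of centralizers -/

theorem index_centralizer_le {i : ℕ} {a : T} (ha : a ∈ Z T (i + 1)) :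
    (Subgroup.centralizer ({a} : Set T)).index ≤ Nat.card ↥(Z T i) := by
  classical
  let f : T → ↥(Z T i) := fun t => ⟨a * t * a⁻¹ * t⁻¹, mem_Z_succ.1 ha t⟩
  let g : T ⧸ Subgroup.centralizer ({a} : Set T) → ↥(Z T i) := fun q => f q.out
  have hg : Function.Injective g := by
    intro q q' hqq
    have h1 : a * q.out * a⁻¹ * q.out⁻¹ = a * q'.out * a⁻¹ * q'.out⁻¹ := congrArg Subtype.val hqq
    have h2 : q.out * a⁻¹ * q.out⁻¹ = q'.out * a⁻¹ * q'.out⁻¹ := by
      have : a * (q.out * a⁻¹ * q.out⁻¹) = a * (q'.out * a⁻¹ * q'.out⁻¹) := by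
        simpa [mul_assoc] using h1
      exact mul_left_cancel this
    rw [← q.out_eq', ← q'.out_eq']
    apply QuotientGroup.eq.2
    rw [Subgroup.mem_centralizer_singleton_iff]
    have h3 : q'.out⁻¹ * q.out * a⁻¹ = a⁻¹ * (q'.out⁻¹ * q.out) := by
      have : q.out * a⁻¹ = q'.out * a⁻¹ * q'.out⁻¹ * q.out := by
        rw [← h2]; group
      calc q'.out⁻¹ * q.out * a⁻¹ = q'.out⁻¹ * (q.out * a⁻¹) := by group
        _ = q'.out⁻¹ * (q'.out * a⁻¹ * q'.out⁻¹ * q.out) := by rw [this]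
        _ = _ := by group
    have h4 : q.out⁻¹ * q'.out * a = a * (q.out⁻¹ * q'.out) := by
      have h5 : a * (q'.out⁻¹ * q.out) = (q'.out⁻¹ * q.out) * a := by
        calc a * (q'.out⁻¹ * q.out) = a * (q'.out⁻¹ * q.out * a⁻¹) * a := by group
          _ = a * (a⁻¹ * (q'.out⁻¹ * q.out)) * a := by rw [h3]
          _ = _ := by group
      have h6 : (q'.out⁻¹ * q.out)⁻¹ = q.out⁻¹ * q'.out := by group
      rw [← h6]
      calc (q'.out⁻¹ * q.out)⁻¹ * a = (q'.out⁻¹ * q.out)⁻¹ * (a * (q'.out⁻¹ * q.out)) * (q'.out⁻¹ * q.out)⁻¹ := by group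
        _ = (q'.out⁻¹ * q.out)⁻¹ * ((q'.out⁻¹ * q.out) * a) * (q'.out⁻¹ * q.out)⁻¹ := by rw [h5]
        _ = _ := by group
    simpa [mul_assoc] using h4
  show Nat.card (T ⧸ _) ≤ _
  exact Nat.card_le_card_of_injective g hg


/-! ### The hypotheses -/

/-- The hypotheses of the Rudvalis type conditions. -/
structure Hyp (W : Subgroup T) : Prop where
  hT : IsPGroup 2 T
  ha : 2 ^ 14 ≤ Nat.card T
  hb : Nat.card ↥(Z T 4) = 16
  hW : W = Subgroup.centralizer ((Z T 3 : Subgroup T) : Set T)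
  hc : Nat.card ↥(frattini ↥W) ≤ 8
  hd : ∀ U : Subgroup ↥W, U.index ≤ 16 → frattini ↥W ≤ U

abbrev Fr (W : Subgroup T) : Subgroup T := (frattini ↥W).map W.subtype

theorem Hyp.normal {W : Subgroup T} (h : Hyp W) : W.Normal := by
  rw [h.hW]; infer_instance

theorem Fr_le (W : Subgroup T) : Fr W ≤ W := by
  rintro _ ⟨x, -, rfl⟩
  exact x.2

theorem card_Fr (W : Subgroup T) : Nat.card ↥(Fr W) = Nat.card ↥(frattini ↥W) :=
  Subgroup.card_map_of_injective W.subtype_injective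

theorem mem_Fr {W : Subgroup T} {x : T} (hx : x ∈ W) : x ∈ Fr W ↔ (⟨x, hx⟩ : ↥W) ∈ frattini ↥W := by
  constructor
  · rintro ⟨y, hy, rfl⟩
    exact hy
  · intro h
    exact ⟨⟨x, hx⟩, h, rfl⟩

/-- `C(a) ∩ C(b)` is contained in `W`. -/
theorem centralizer_le_of_ab (hT : IsPGroup 2 T) (ha : 2 ^ 14 ≤ Nat.card T)
    (hb : Nat.card ↥(Z T 4) = 16) {a b g : T}
    (ha2 : a ∈ Z T 2) (ha1 : a ∉ Z T 1) (hb3 : b ∈ Z T 3) (hb2 : b ∉ Z T 2)
    (hga : g * a = a * g) (hgb : g * b = b * g) :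
    g ∈ Subgroup.centralizer ((Z T 3 : Subgroup T) : Set T) := by
  have c1 := card_Z_all hT ha hb 1 (by norm_num)
  have c2 := card_Z_all hT ha hb 2 (by norm_num)
  have c3 := card_Z_all hT ha hb 3 (by norm_num)
  let C : Subgroup T := Subgroup.centralizer ({g} : Set T)
  have h1 : Z T 1 ≤ C := by
    intro z hz
    have hz' : z ∈ Subgroup.center T := by
      simpa [Z, Subgroup.upperCentralSeries_one] using hz
    rw [Subgroup.mem_centralizer_singleton_iff]
    exact (Subgroup.mem_center_iff.1 hz' g).symm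
  have h2 : Z T 2 ≤ C := by
    refine idx2_le (Z_mono (by norm_num)) (by rw [c1, c2]; norm_num) h1 ha2 ha1 ?_
    rw [Subgroup.mem_centralizer_singleton_iff]
    exact hga.symm
  have h3 : Z T 3 ≤ C := by
    refine idx2_le (Z_mono (by norm_num)) (by rw [c2, c3]; norm_num) h2 hb3 hb2 ?_
    rw [Subgroup.mem_centralizer_singleton_iff]
    exact hgb.symm
  rw [Subgroup.mem_centralizer_iff]
  intro z hz
  have := h3 hz
  rw [Subgroup.mem_centralizer_singleton_iff] at this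
  exact this

theorem exists_ab (hT : IsPGroup 2 T) (ha : 2 ^ 14 ≤ Nat.card T)
    (hb : Nat.card ↥(Z T 4) = 16) :
    ∃ a b : T, a ∈ Z T 2 ∧ a ∉ Z T 1 ∧ b ∈ Z T 3 ∧ b ∉ Z T 2 := by
  have c1 := card_Z_all hT ha hb 1 (by norm_num)
  have c2 := card_Z_all hT ha hb 2 (by norm_num)
  have c3 := card_Z_all hT ha hb 3 (by norm_num)
  have l1 : Z T 1 < Z T 2 := lt_of_le_of_ne (Z_mono (by norm_num)) (by
    intro h; rw [h, c2] at c1; norm_num at c1)
  have l2 : Z T 2 < Z T 3 := lt_of_le_of_ne (Z_mono (by norm_num)) (by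
    intro h; rw [h, c3] at c2; norm_num at c2)
  obtain ⟨a, ha2, ha1⟩ := SetLike.exists_of_lt l1
  obtain ⟨b, hb3, hb2⟩ := SetLike.exists_of_lt l2
  exact ⟨a, b, ha2, ha1, hb3, hb2⟩

theorem Hyp.index_le {W : Subgroup T} (h : Hyp W) : W.index ≤ 8 := by
  obtain ⟨a, b, ha2, ha1, hb3, hb2⟩ := exists_ab h.hT h.ha h.hb
  have c1 := card_Z_all h.hT h.ha h.hb 1 (by norm_num)
  have c2 := card_Z_all h.hT h.ha h.hb 2 (by norm_num)
  have i1 : (Subgroup.centralizer ({a} : Set T)).index ≤ 2 := by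
    have := index_centralizer_le (i := 1) (a := a) ha2
    rw [c1] at this
    simpa using this
  have i2 : (Subgroup.centralizer ({b} : Set T)).index ≤ 4 := by
    have := index_centralizer_le (i := 2) (a := b) hb3
    rw [c2] at this
    simpa using this
  have hle : Subgroup.centralizer ({a} : Set T) ⊓ Subgroup.centralizer ({b} : Set T) ≤ W := by
    intro g hg
    rw [h.hW]
    have hg1 : g ∈ Subgroup.centralizer ({a} : Set T) := hg.1
    have hg2 : g ∈ Subgroup.centralizer ({b} : Set T) := hg.2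
    rw [Subgroup.mem_centralizer_singleton_iff] at hg1 hg2
    exact centralizer_le_of_ab h.hT h.ha h.hb ha2 ha1 hb3 hb2 hg1 hg2
  have h3 := Subgroup.index_inf_le (H := Subgroup.centralizer ({a} : Set T))
    (K := Subgroup.centralizer ({b} : Set T))
  have hfin : (Subgroup.centralizer ({a} : Set T) ⊓ Subgroup.centralizer ({b} : Set T)).index ≠ 0 :=
    Subgroup.index_ne_zero_of_finite
  have h4 := Nat.le_of_dvd (Nat.pos_of_ne_zero hfin) (Subgroup.index_dvd_of_le hle)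
  have h5 := Nat.mul_le_mul i1 i2
  omega

/-! ### conjugation on `W` -/

section Xi

variable (W : Subgroup T) [W.Normal] {Q : Type*}

/-- conjugation by `t` on the normal subgroup `W` -/
def cn (t : T) : ↥W →* ↥W := (MulAut.conjNormal t : MulAut ↥W).toMonoidHom

@[simp] theorem cn_val (t : T) (w : ↥W) : ((cn W t w : ↥W) : T) = t * w * t⁻¹ := by
  simp [cn]

/-- the regular-module coordinates -/
def XiHom (χ : ↥W →* Multiplicative (ZMod 2)) (sec : Q → T) : ↥W →* (Q → Multiplicative (ZMod 2)) :=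
  MonoidHom.pi fun q => χ.comp (cn W (sec q)⁻¹)

theorem XiHom_apply (χ : ↥W →* Multiplicative (ZMod 2)) (sec : Q → T) (w : ↥W) (q : Q) :
    XiHom W χ sec w q = χ (cn W (sec q)⁻¹ w) := rfl

theorem chi_conj (χ : ↥W →* Multiplicative (ZMod 2)) (u v : ↥W) : χ (u * v * u⁻¹) = χ v := by
  simp [map_mul, mul_comm]

/-- Kernel of the coordinates. -/
theorem mem_of_xi (hT : IsPGroup 2 T) (M : Subgroup T) [M.Normal] (hM : M ≤ W)
    (χ : ↥W →* Multiplicative (ZMod 2)) (hχM : ∀ w : ↥W, (w : T) ∈ M → χ w = 1)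
    (hstep : ∀ x : ↥W, (x : T) ∉ M → (∀ t : T, (x : T) * t * (x : T)⁻¹ * t⁻¹ ∈ M) → χ x ≠ 1)
    (sec : Q → T) (hsec : ∀ t : T, ∃ q, ∃ w' ∈ W, t = sec q * w') (w : ↥W)
    (hw : XiHom W χ sec w = 1) : (w : T) ∈ M := by
  -- the kernel as a subgroup of `T`
  let K : Subgroup T := (XiHom W χ sec).ker.map W.subtype
  have hKn : K.Normal := by
    constructor
    rintro _ ⟨x, hx, rfl⟩ t
    refine ⟨cn W t x, ?_, by simp⟩
    have hx : XiHom W χ sec x = 1 := hx
    show XiHom W χ sec (cn W t x) = 1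
    funext q
    obtain ⟨q', w', hw', hq'⟩ := hsec (t⁻¹ * sec q)
    have h0 : cn W (sec q)⁻¹ (cn W t x) = (⟨w', hw'⟩ : ↥W)⁻¹ * cn W (sec q')⁻¹ x * ⟨w', hw'⟩ := by
      apply Subtype.ext
      have h1 : sec q = t * (sec q' * w') := by rw [← hq']; group
      simp only [cn_val, Subgroup.coe_mul, Subgroup.coe_inv]
      rw [h1]
      group
    have hxq : χ (cn W (sec q')⁻¹ x) = 1 := congrFun hx q'
    show χ (cn W (sec q)⁻¹ (cn W t x)) = 1
    rw [h0, map_mul, map_mul, hxq]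
    simp
  by_contra hwM
  have hKM : ¬ K ≤ M := fun hle => hwM (hle ⟨w, hw, rfl⟩)
  obtain ⟨x, hxK, hxM, hc⟩ := exists_step hT M K hKM
  obtain ⟨x', hx', rfl⟩ := hxK
  have hne := hstep x' hxM hc
  apply hne
  obtain ⟨q, -, -, -⟩ := hsec 1
  have h1 : χ (cn W (sec q)⁻¹ x') = 1 := congrFun hx' q
  set s := sec q with hs
  -- `s⁻¹ x s * x⁻¹ ∈ M`
  have h2 : ((cn W s⁻¹ x') * x'⁻¹ : ↥W).1 ∈ M := by
    have hc' : ∀ t : T, (x' : T) * t * (x' : T)⁻¹ * t⁻¹ ∈ M := hc
    have h3 := ‹M.Normal›.conj_mem _ (hc' s) s⁻¹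
    have h4 : s⁻¹ * ((x' : T) * s * (x' : T)⁻¹ * s⁻¹) * s⁻¹⁻¹ = (s⁻¹ * x' * s⁻¹⁻¹) * (x' : T)⁻¹ := by
      group
    rw [h4] at h3
    simpa using h3
  have h5 := hχM _ h2
  rw [map_mul, h1, one_mul, map_inv] at h5
  exact inv_eq_one.1 h5

end Xi

/-- A character of order two nontrivial at a non-Frattini element. -/
theorem exists_chi {G : Type*} [Group G] [Finite G] (hG : IsPGroup 2 G) (y : G)
    (hy : y ∉ frattini G) :
    ∃ χ : G →* Multiplicative (ZMod 2), χ y ≠ 1 ∧ ∀ w ∈ frattini G, χ w = 1 := by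
  classical
  have h1 : ¬ ∀ M : Subgroup G, IsCoatom M → y ∈ M := fun h => hy (Cfsg.Agent.H01.mem_frattini_iff.2 h)
  push Not at h1
  obtain ⟨M, hM, hyM⟩ := h1
  obtain ⟨-, hi⟩ := Cfsg.Agent.H01.isCoatom_normal_index hG hM
  refine ⟨MonoidHom.mk' (fun w => if w ∈ M then Multiplicative.ofAdd 0 else Multiplicative.ofAdd 1) ?_, ?_, ?_⟩
  · intro a b
    have := Subgroup.mul_mem_iff_of_index_two hi (a := a) (b := b)
    by_cases ha : a ∈ M <;> by_cases hb : b ∈ M <;> simp only [ha, hb, this, if_true, if_false, iff_true, iff_false, true_iff, false_iff, not_true, not_false_iff] <;> decide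
  · simp only [MonoidHom.mk'_apply, hyM, if_false]
    decide
  · intro w hw
    have : w ∈ M := frattini_le_coatom hM hw
    simp only [MonoidHom.mk'_apply, this, if_true]
    rfl

theorem Fr_normal (W : Subgroup T) [W.Normal] : (Fr W).Normal := inferInstance

theorem Hyp.Fr_eq_Z {W : Subgroup T} (h : Hyp W) :
    ∃ e ≤ 3, Fr W = Z T e ∧ Nat.card ↥(Fr W) = 2 ^ e := by
  haveI := h.normal
  haveI := Fr_normal W
  have hp : IsPGroup 2 ↥(Fr W) := h.hT.to_subgroup _
  obtain ⟨e, he⟩ := IsPGroup.iff_card.mp hp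
  have hc : Nat.card ↥(Fr W) ≤ 8 := by rw [card_Fr]; exact h.hc
  have he3 : e ≤ 3 := by
    rw [he] at hc
    have : (2 : ℕ) ^ e ≤ 2 ^ 3 := by simpa using hc
    exact (Nat.pow_le_pow_iff_right (by norm_num)).1 this
  refine ⟨e, he3, ?_, he⟩
  have hle := normal_le_Z' h.hT (Fr W) e (by rw [he])
  refine Subgroup.eq_of_le_of_card_ge hle ?_
  rw [card_Z_all h.hT h.ha h.hb e (by omega), he]

/-- `|W : Φ(W)| ≤ 2^{|T : W|}`. -/
theorem Hyp.frattini_index_le {W : Subgroup T} (h : Hyp W) :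
    (frattini ↥W).index ≤ 2 ^ W.index := by
  classical
  haveI := h.normal
  haveI := Fr_normal W
  by_cases hWF : W ≤ Fr W
  · have : frattini ↥W = ⊤ := by
      rw [eq_top_iff]
      intro x _
      exact (mem_Fr x.2).1 (hWF x.2)
    rw [this, Subgroup.index_top]
    exact Nat.one_le_two_pow
  · obtain ⟨y, hyW, hyF, hyc⟩ := exists_step h.hT (Fr W) W hWF
    obtain ⟨e, he3, hFe, -⟩ := h.Fr_eq_Z
    have hW2 : IsPGroup 2 ↥W := h.hT.to_subgroup W
    have hy' : (⟨y, hyW⟩ : ↥W) ∉ frattini ↥W := fun hh => hyF ((mem_Fr hyW).2 hh)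
    obtain ⟨χ, hχy, hχF⟩ := exists_chi hW2 _ hy'
    have hce := card_Z_all h.hT h.ha h.hb e (by omega)
    have hce1 := card_Z_all h.hT h.ha h.hb (e + 1) (by omega)
    have hke := mem_of_xi (Q := T ⧸ W) W h.hT (Fr W) (Fr_le W) χ
      (fun w hw => hχF w ((mem_Fr w.2).1 hw))
      (by
        intro x hxF hxc
        intro hχx
        apply hχy
        rw [hFe] at hxF hxc hyF hyc
        have hx1 : (x : T) ∈ Z T (e + 1) := mem_Z_succ.2 hxc
        have hy1 : y ∈ Z T (e + 1) := mem_Z_succ.2 hyc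
        have hm := idx2_mem (Z_mono (Nat.le_succ e))
          (by rw [hce, hce1, pow_succ, mul_comm]) hx1 hxF hy1 hyF
        have hm2 : ((x⁻¹ * ⟨y, hyW⟩ : ↥W) : T) ∈ Fr W := by
          rw [hFe]
          simpa using hm
        have h5 := hχF _ ((mem_Fr (x⁻¹ * ⟨y, hyW⟩ : ↥W).2).1 hm2)
        rw [map_mul, map_inv, hχx, inv_one, one_mul] at h5
        exact h5)
      (fun q => q.out)
      (by
        intro t
        refine ⟨(t : T ⧸ W), ?_⟩
        obtain ⟨w, hw⟩ := QuotientGroup.mk_out_eq_mul W t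
        refine ⟨(w : T)⁻¹, W.inv_mem w.2, ?_⟩
        rw [hw]
        group)
    have hle : (XiHom (Q := T ⧸ W) W χ (fun q => q.out)).ker ≤ frattini ↥W := by
      intro w hw
      exact (mem_Fr w.2).1 (hke w hw)
    have hker0 : (XiHom (Q := T ⧸ W) W χ (fun q => q.out)).ker.index ≠ 0 :=
      Subgroup.index_ne_zero_of_finite
    have h1 := Nat.le_of_dvd (Nat.pos_of_ne_zero hker0) (Subgroup.index_dvd_of_le hle)
    refine h1.trans ?_
    rw [Subgroup.index_ker]
    refine (Subgroup.card_le_card_group _).trans ?_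
    rw [Nat.card_fun]
    have : Nat.card (Multiplicative (ZMod 2)) = 2 := by
      simp
    rw [this]
    rfl

theorem Hyp.count {W : Subgroup T} (h : Hyp W) :
    W.index = 8 ∧ (frattini ↥W).index = 2 ^ 8 ∧ Nat.card ↥(frattini ↥W) = 8 ∧ Nat.card T = 2 ^ 14 := by
  have h1 := h.index_le
  have h2 := h.frattini_index_le
  have h3 := h.hc
  have e1 := Subgroup.index_mul_card W
  have e2 := Subgroup.index_mul_card (frattini ↥W)
  have h4 := h.ha
  have hpos : 0 < W.index := Nat.pos_of_ne_zero Subgroup.index_ne_zero_of_finite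
  have e3 : Nat.card T = W.index * ((frattini ↥W).index * Nat.card ↥(frattini ↥W)) := by
    rw [e2, e1]
  rw [e3] at h4
  have h5 : W.index = 8 := by
    by_contra hne
    have h6 : W.index ≤ 7 := by omega
    have h7 : (frattini ↥W).index ≤ 2 ^ 7 := h2.trans (Nat.pow_le_pow_right (by norm_num) h6)
    have h8 := Nat.mul_le_mul h6 (Nat.mul_le_mul h7 h3)
    omega
  rw [h5] at h2 h4
  have h9 : (frattini ↥W).index = 2 ^ 8 := by
    by_contra hne
    have h6 : (frattini ↥W).index ≤ 255 := by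
      have : (frattini ↥W).index ≤ 256 := h2
      have h256 : (2 : ℕ) ^ 8 = 256 := by norm_num
      omega
    have h8 := Nat.mul_le_mul h6 h3
    omega
  rw [h9] at h4
  have h10 : Nat.card ↥(frattini ↥W) = 8 := by
    by_contra hne
    have h6 : Nat.card ↥(frattini ↥W) ≤ 7 := by omega
    omega
  refine ⟨h5, h9, h10, ?_⟩
  rw [e3, h5, h9, h10]
  norm_num

theorem Hyp.Fr_eq {W : Subgroup T} (h : Hyp W) : Fr W = Z T 3 := by
  haveI := h.normal
  haveI := Fr_normal W
  obtain ⟨-, -, h3, -⟩ := h.count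
  have hc : Nat.card ↥(Fr W) = 8 := by rw [card_Fr]; exact h3
  have hle := normal_le_Z' h.hT (Fr W) 3 (by rw [hc]; norm_num)
  refine Subgroup.eq_of_le_of_card_ge hle ?_
  rw [card_Z_all h.hT h.ha h.hb 3 (by norm_num), hc]
  norm_num

/-- `Φ(G) = G'` by characters. -/
theorem frattini_le_commutator {G : Type*} [Group G] [Finite G] (hG : IsPGroup 2 G)
    (hc : Nat.card ↥(frattini G) ≤ 8) (hd : ∀ U : Subgroup G, U.index ≤ 16 → frattini G ≤ U) :
    frattini G ≤ commutator G := by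
  intro c hcF
  by_contra hcc
  have hne : Abelianization.of c ≠ 1 := by
    intro hh
    apply hcc
    have := (QuotientGroup.eq_one_iff c).1 hh
    exact this
  obtain ⟨χ₀, hχ₀⟩ := CommGroup.exists_apply_ne_one_of_hasEnoughRootsOfUnity (Abelianization G) ℂ hne
  let χ : G →* ℂˣ := χ₀.comp Abelianization.of
  have hidx : χ.ker.index ≤ 16 := by
    rw [Subgroup.index_ker]
    let R := χ.range
    let sq : R →* R := powMonoidHom 2
    have h1 : Nat.card sq.ker * sq.ker.index = Nat.card R := Subgroup.card_mul_index _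
    rw [Subgroup.index_ker] at h1
    have h2 : Nat.card sq.ker ≤ 2 := by
      let f : sq.ker → rootsOfUnity 2 ℂ := fun x => ⟨x.1.1, by
        rw [mem_rootsOfUnity]
        have : sq x.1 = 1 := x.2
        have h3 : (x.1 : R) ^ 2 = 1 := this
        exact_mod_cast congrArg Subtype.val h3⟩
      have hf : Function.Injective f := by
        intro x y hxy
        apply Subtype.ext
        apply Subtype.ext
        exact congrArg (fun z : rootsOfUnity 2 ℂ => (z : ℂˣ)) hxy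
      have h3 := Nat.card_le_card_of_injective f hf
      have h4 : Nat.card (rootsOfUnity 2 ℂ) = 2 := Complex.card_rootsOfUnity 2
      omega
    have h3 : Nat.card sq.range ≤ 8 := by
      have hs : Function.Surjective (fun x : frattini G => (⟨χ x, x, x.2, rfl⟩ : ↥((frattini G).map χ))) := by
        rintro ⟨_, x, hx, rfl⟩
        exact ⟨⟨x, hx⟩, rfl⟩
      haveI : Finite ↥((frattini G).map χ) := Finite.of_surjective _ hs
      have h4 : Nat.card sq.range ≤ Nat.card ↥((frattini G).map χ) := by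
        let f : sq.range → ↥((frattini G).map χ) := fun x => ⟨x.1.1, by
          obtain ⟨⟨r, hr⟩, hx⟩ := x.2
          obtain ⟨g, hg⟩ := hr
          refine ⟨g ^ 2, Cfsg.Agent.H01.pow_mem_frattini_of_isPGroup hG g, ?_⟩
          rw [map_pow, hg]
          have := congrArg Subtype.val hx
          simpa [sq] using this⟩
        refine Nat.card_le_card_of_injective f ?_
        intro x y hxy
        apply Subtype.ext
        apply Subtype.ext
        exact congrArg (fun z : ↥((frattini G).map χ) => (z : ℂˣ)) hxy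
      have h5 : Nat.card ↥((frattini G).map χ) ≤ Nat.card ↥(frattini G) :=
        Nat.card_le_card_of_surjective _ hs
      omega
    have h6 := Nat.mul_le_mul h2 h3
    show Nat.card R ≤ 16
    omega
  have := hd _ hidx hcF
  exact hχ₀ (by
    have h7 : χ c = 1 := this
    exact h7)


section facts

variable {W : Subgroup T}

theorem Hyp.W2 (h : Hyp W) : IsPGroup 2 ↥W := h.hT.to_subgroup W

theorem Hyp.comm_eq (h : Hyp W) : commutator ↥W = frattini ↥W :=
  le_antisymm (Cfsg.Agent.H01.commutator_le_frattini_of_isPGroup h.W2)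
    (frattini_le_commutator h.W2 h.hc h.hd)

theorem Hyp.Z3_le (h : Hyp W) : Z T 3 ≤ W := h.Fr_eq ▸ Fr_le W

theorem Hyp.mem_Z3_iff (h : Hyp W) {x : T} (hx : x ∈ W) : x ∈ Z T 3 ↔ (⟨x, hx⟩ : ↥W) ∈ frattini ↥W := by
  rw [← h.Fr_eq, mem_Fr hx]

theorem Hyp.central (h : Hyp W) {w z : T} (hw : w ∈ W) (hz : z ∈ Z T 3) : w * z = z * w := by
  have hw' := hw
  rw [h.hW, Subgroup.mem_centralizer_iff] at hw'
  exact (hw' z hz).symm

theorem Hyp.sq_mem (h : Hyp W) {w : T} (hw : w ∈ W) : w ^ 2 ∈ Z T 3 := by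
  rw [h.mem_Z3_iff (W.pow_mem hw 2)]
  exact Cfsg.Agent.H01.pow_mem_frattini_of_isPGroup h.W2 ⟨w, hw⟩

theorem Hyp.comm_mem (h : Hyp W) {u v : T} (hu : u ∈ W) (hv : v ∈ W) : u * v * u⁻¹ * v⁻¹ ∈ Z T 3 := by
  have hx : u * v * u⁻¹ * v⁻¹ ∈ W := W.mul_mem (W.mul_mem (W.mul_mem hu hv) (W.inv_mem hu)) (W.inv_mem hv)
  rw [h.mem_Z3_iff hx, ← h.comm_eq]
  have := Subgroup.commutator_mem_commutator (Subgroup.mem_top (⟨u, hu⟩ : ↥W)) (Subgroup.mem_top (⟨v, hv⟩ : ↥W))
  rw [commutatorElement_def] at this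
  exact this

theorem Hyp.elem (h : Hyp W) {z : T} (hz : z ∈ Z T 3) : z ^ 2 = 1 := by
  have hcomm2 : ∀ u v : T, u ∈ W → v ∈ W → (u * v * u⁻¹ * v⁻¹) ^ 2 = 1 := by
    intro u v hu hv
    have hc := h.comm_mem hu hv
    have h1 : u ^ 2 * v = v * u ^ 2 := (h.central hv (h.sq_mem hu)).symm
    have h2 : u * (u * v * u⁻¹ * v⁻¹) = (u * v * u⁻¹ * v⁻¹) * u := h.central hu hc
    rw [pow_two]
    calc (u * v * u⁻¹ * v⁻¹) * (u * v * u⁻¹ * v⁻¹)
        = ((u * v * u⁻¹ * v⁻¹) * u) * (v * u⁻¹ * v⁻¹) := by group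
      _ = (u * (u * v * u⁻¹ * v⁻¹)) * (v * u⁻¹ * v⁻¹) := by rw [h2]
      _ = u ^ 2 * v * (u ^ 2)⁻¹ * v⁻¹ := by rw [pow_two]; group
      _ = v * u ^ 2 * (u ^ 2)⁻¹ * v⁻¹ := by rw [h1]
      _ = 1 := by group
  let K : Subgroup ↥W :=
    { carrier := {x | (x : T) ∈ Z T 3 ∧ (x : T) ^ 2 = 1}
      mul_mem' := by
        rintro a b ⟨ha, ha2⟩ ⟨hb, hb2⟩
        refine ⟨(Z T 3).mul_mem ha hb, ?_⟩
        have hab : Commute (a : T) b := h.central a.2 hb
        show ((a : T) * b) ^ 2 = 1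
        rw [hab.mul_pow, ha2, hb2, one_mul]
      one_mem' := ⟨(Z T 3).one_mem, by simp⟩
      inv_mem' := by
        rintro a ⟨ha, ha2⟩
        refine ⟨(Z T 3).inv_mem ha, ?_⟩
        show ((a : T)⁻¹) ^ 2 = 1
        rw [inv_pow, ha2, inv_one] }
  have hle : commutator ↥W ≤ K := by
    rw [_root_.commutator_def, Subgroup.commutator_le]
    intro a _ b _
    rw [commutatorElement_def]
    exact ⟨h.comm_mem a.2 b.2, hcomm2 a b a.2 b.2⟩
  have hzW := h.Z3_le hz
  have h1 := (h.mem_Z3_iff hzW).1 hz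
  rw [← h.comm_eq] at h1
  exact (hle h1).2

theorem Hyp.Z3_comm (h : Hyp W) {a b : T} (ha : a ∈ Z T 3) (hb : b ∈ Z T 3) : a * b = b * a :=
  h.central (h.Z3_le ha) hb

/-- A subgroup of index at most 16 of `W` missing `z`. -/
theorem exists_index16 {W I : Subgroup T} (hIW' : I ≤ W) (hI2 : IsPGroup 2 ↥I)
    (hIW : (I.subgroupOf W).index ≤ 8) {z : T} (hzI : z ∈ I)
    (hz : (⟨z, hzI⟩ : ↥I) ∉ frattini ↥I) (hzW : z ∈ W) :
    ∃ V : Subgroup ↥W, V.index ≤ 16 ∧ (⟨z, hzW⟩ : ↥W) ∉ V := by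
  obtain ⟨χ, hχz, hχΦ⟩ := exists_chi hI2 _ hz
  let M : Subgroup ↥I := χ.ker
  have hMi : M.index ≤ 2 := by
    rw [Subgroup.index_ker]
    refine (Subgroup.card_le_card_group _).trans ?_
    simp
  let V : Subgroup ↥W := (M.map I.subtype).subgroupOf W
  have hVcard : Nat.card V = Nat.card M := by
    have h1 : Nat.card V = Nat.card ↥(M.map I.subtype) :=
      Nat.card_congr (Subgroup.subgroupOfEquivOfLe (by
        rintro _ ⟨x, -, rfl⟩
        exact hIW' x.2)).toEquiv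
    rw [h1]
    exact Subgroup.card_map_of_injective I.subtype_injective
  refine ⟨V, ?_, ?_⟩
  · have e1 := Subgroup.index_mul_card V
    have e2 := Subgroup.index_mul_card M
    have e3 := Subgroup.index_mul_card (I.subgroupOf W)
    have e4 : Nat.card ↥(I.subgroupOf W) = Nat.card I :=
      Nat.card_congr (Subgroup.subgroupOfEquivOfLe hIW').toEquiv
    rw [hVcard] at e1
    rw [e4, ← e2] at e3
    have e5 : V.index = (I.subgroupOf W).index * M.index := by
      have : V.index * Nat.card M = (I.subgroupOf W).index * M.index * Nat.card M := by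
        rw [e1, ← e3, mul_assoc]
      exact Nat.eq_of_mul_eq_mul_right Nat.card_pos this
    rw [e5]
    calc (I.subgroupOf W).index * M.index ≤ 8 * 2 := Nat.mul_le_mul hIW hMi
      _ = 16 := by norm_num
  · rintro ⟨m, hm, hmz⟩
    have : m = ⟨z, hzI⟩ := Subtype.ext hmz
    rw [this] at hm
    exact hχz hm

theorem Hyp.Z3_le_of (h : Hyp W) (A Z' : Subgroup T) (hZ3A : Z T 3 ≤ A ⊓ W)
    (hIW : ((A ⊓ W).subgroupOf W).index ≤ 8) (hsqA : ∀ x ∈ A, x ^ 2 ∈ Z')
    (hcoA : ∀ x ∈ A, ∀ y ∈ A, x * y * x⁻¹ * y⁻¹ ∈ Z') : Z T 3 ≤ Z' := by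
  intro z hz
  by_contra hzZ'
  have hzI := hZ3A hz
  have hI2 : IsPGroup 2 ↥(A ⊓ W) := h.hT.to_subgroup _
  have hNn : ((Z T 3 ⊓ Z').subgroupOf (A ⊓ W)).Normal := by
    constructor
    intro n hn g
    have hn' : (n : T) ∈ Z T 3 ⊓ Z' := hn
    have e : ((g * n * g⁻¹ : ↥(A ⊓ W)) : T) = n := by
      have := h.central (g.2.2) hn'.1
      show (g : T) * n * (g : T)⁻¹ = n
      rw [this]
      group
    show ((g * n * g⁻¹ : ↥(A ⊓ W)) : T) ∈ Z T 3 ⊓ Z'
    rw [e]
    exact hn'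
  have hΦ : frattini ↥(A ⊓ W) ≤ (Z T 3 ⊓ Z').subgroupOf (A ⊓ W) := by
    refine Cfsg.Agent.H01.frattini_le_of_comm_pow (p := 2) _ ?_ ?_
    · rw [_root_.commutator_def, Subgroup.commutator_le]
      intro a _ b _
      rw [commutatorElement_def, Subgroup.mem_subgroupOf]
      simp only [Subgroup.coe_mul, Subgroup.coe_inv]
      have ha := Subgroup.mem_inf.1 a.2
      have hb := Subgroup.mem_inf.1 b.2
      exact Subgroup.mem_inf.2 ⟨h.comm_mem ha.2 hb.2, hcoA _ ha.1 _ hb.1⟩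
    · intro x
      rw [Subgroup.mem_subgroupOf]
      simp only [Subgroup.coe_pow]
      have ha := Subgroup.mem_inf.1 x.2
      exact Subgroup.mem_inf.2 ⟨h.sq_mem ha.2, hsqA _ ha.1⟩
  have hzN : (⟨z, hzI⟩ : ↥(A ⊓ W)) ∉ frattini ↥(A ⊓ W) := fun hh => hzZ' (hΦ hh).2
  obtain ⟨V, hVi, hzV⟩ := exists_index16 inf_le_right hI2 hIW hzI hzN (h.Z3_le hz)
  exact hzV (h.hd V hVi ((h.mem_Z3_iff (h.Z3_le hz)).1 hz))

/-- Weak closure, abstract form. -/
theorem Hyp.range_eq (h : Hyp W) (φ : ↥W →* T) (hφ : Function.Injective φ) : φ.range = W := by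
  classical
  obtain ⟨hiW, -, -, -⟩ := h.count
  let A : Subgroup T := φ.range
  have hcardA : Nat.card A = Nat.card W := by
    exact Nat.card_congr (MonoidHom.ofInjective hφ).toEquiv.symm
  -- the image of `Z₃`
  let ZW : Subgroup ↥W := frattini ↥W
  let Z' : Subgroup T := ZW.map φ
  have hZ'card : Nat.card Z' ≤ 8 := by
    have : Nat.card Z' = Nat.card ZW := Subgroup.card_map_of_injective hφ
    rw [this]
    exact h.hc
  have hAidx : A.index = 8 := by
    have e1 := Subgroup.index_mul_card A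
    have e2 := Subgroup.index_mul_card W
    rw [hcardA, ← e2, hiW] at e1
    exact Nat.eq_of_mul_eq_mul_right Nat.card_pos e1
  let I : Subgroup T := A ⊓ W
  -- index of `I` in `W`
  have hIW : (I.subgroupOf W).index ≤ 8 := by
    have h1 : (I.subgroupOf W) = A.subgroupOf W := by
      ext x
      simp only [Subgroup.mem_subgroupOf, I, Subgroup.mem_inf]
      exact ⟨fun hh => hh.1, fun hh => ⟨hh, x.2⟩⟩
    rw [h1]
    have h2 := Subgroup.relIndex_le_of_le_right (H := A) (K := W) (L := ⊤) le_top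
      (by rw [Subgroup.relIndex_top_right]; exact Subgroup.index_ne_zero_of_finite)
    rw [Subgroup.relIndex_top_right, hAidx] at h2
    exact h2
  have hZ3I : Z T 3 ≤ I := by
    intro z hz
    have hzW := h.Z3_le hz
    have h1 := (h.mem_Z3_iff hzW).1 hz
    have h2 := h.hd _ (hIW.trans (by norm_num)) h1
    exact h2
  have hZ3A : Z T 3 ≤ A ⊓ W := hZ3I
  have hsqA : ∀ x ∈ A, x ^ 2 ∈ Z' := by
    rintro _ ⟨w, rfl⟩
    exact ⟨w ^ 2, Cfsg.Agent.H01.pow_mem_frattini_of_isPGroup h.W2 w, by simp⟩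
  have hcoA : ∀ x ∈ A, ∀ y ∈ A, x * y * x⁻¹ * y⁻¹ ∈ Z' := by
    rintro _ ⟨u, rfl⟩ _ ⟨v, rfl⟩
    refine ⟨u * v * u⁻¹ * v⁻¹, ?_, by simp⟩
    have := h.comm_mem u.2 v.2
    have h5 := (h.mem_Z3_iff (W.mul_mem (W.mul_mem (W.mul_mem u.2 v.2) (W.inv_mem u.2)) (W.inv_mem v.2))).1 this
    exact h5
  have hZ3Z' : Z T 3 ≤ Z' := h.Z3_le_of A Z' hZ3A hIW hsqA hcoA
  -- `Z₃ = Z'`, so `A` centralizes `Z₃`
  have hZeq : Z T 3 = Z' := by
    refine Subgroup.eq_of_le_of_card_ge hZ3Z' ?_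
    rw [card_Z_all h.hT h.ha h.hb 3 (by norm_num)]
    exact hZ'card
  have hAW : A ≤ W := by
    rintro _ ⟨w, rfl⟩
    have key : φ w ∈ Subgroup.centralizer ((Z T 3 : Subgroup T) : Set T) := by
      rw [Subgroup.mem_centralizer_iff]
      intro z hz
      have hz' : z ∈ Z' := hZeq ▸ hz
      obtain ⟨v, hv, rfl⟩ := hz'
      have hvZ : (v : T) ∈ Z T 3 := (h.mem_Z3_iff v.2).2 hv
      have : w * v = v * w := Subtype.ext (h.central w.2 hvZ)
      rw [← map_mul, ← map_mul, this]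
    exact (Subgroup.ext_iff.1 h.hW _).2 key
  exact Subgroup.eq_of_le_of_card_ge hAW (by rw [hcardA])

/-! ### Automorphisms of odd order -/

theorem odd_fix (hT : IsPGroup 2 T) {m : ℕ} (hm : Odd m) (α : MulAut T) (hα : α ^ m = 1) {x d : T}
    (h1 : α x = d * x) (h2 : α d = d) : d = 1 := by
  have key : ∀ k : ℕ, (α ^ k) x = d ^ k * x := by
    intro k
    induction k with
    | zero => simp
    | succ k ih =>
      rw [pow_succ', MulAut.mul_apply, ih, map_mul, map_pow, h2, h1, pow_succ]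
      group
  have h3 := key m
  rw [hα, MulAut.one_apply] at h3
  have h4 : d ^ m = 1 := by
    have : d ^ m * x = 1 * x := by rw [one_mul, ← h3]
    exact mul_right_cancel this
  obtain ⟨k, hk⟩ := IsPGroup.iff_orderOf.1 hT d
  have h5 := orderOf_dvd_of_pow_eq_one h4
  rw [hk] at h5
  have hk0 : k = 0 := by
    by_contra hk0
    have h6 : 2 ∣ m := (dvd_pow_self 2 hk0).trans h5
    exact (Nat.not_even_iff_odd.2 hm) (even_iff_two_dvd.2 h6)
  rw [hk0, pow_zero] at hk
  exact orderOf_eq_one_iff.1 hk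

theorem aut_Z (α : MulAut T) (i : ℕ) {z : T} (hz : z ∈ Z T i) : α z ∈ Z T i := by
  induction i generalizing z with
  | zero =>
    have : z = 1 := by simpa [Z, Subgroup.upperCentralSeries_zero] using hz
    rw [this, map_one]
    exact Subgroup.one_mem _
  | succ i ih =>
    rw [mem_Z_succ] at hz ⊢
    intro t
    have h1 := ih (hz (α.symm t))
    have h2 : α (z * α.symm t * z⁻¹ * (α.symm t)⁻¹) = α z * t * (α z)⁻¹ * t⁻¹ := by
      simp [map_mul, map_inv]
    rwa [h2] at h1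

theorem Hyp.fix_Z (h : Hyp W) {m : ℕ} (hm : Odd m) (α : MulAut T) (hα : α ^ m = 1) (i : ℕ)
    (hi : i ≤ 4) {z : T} (hz : z ∈ Z T i) : α z = z := by
  induction i generalizing z with
  | zero =>
    have : z = 1 := by simpa [Z, Subgroup.upperCentralSeries_zero] using hz
    rw [this, map_one]
  | succ i ih =>
    have ih' : ∀ z' ∈ Z T i, α z' = z' := fun z' hz' => ih (by omega) hz'
    by_cases hzi : z ∈ Z T i
    · exact ih' _ hzi
    · have haz := aut_Z α (i + 1) hz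
      have hazi : α z ∉ Z T i := fun hh => hzi (by
        have := aut_Z α⁻¹ i hh
        simpa using this)
      have hc : Nat.card ↥(Z T (i + 1)) = 2 * Nat.card ↥(Z T i) := by
        rw [card_Z_all h.hT h.ha h.hb (i + 1) hi, card_Z_all h.hT h.ha h.hb i (by omega), pow_succ, mul_comm]
      have h1 := idx2_mem (Z_mono (Nat.le_succ i)) hc hz hzi haz hazi
      have h2 : α z * z⁻¹ ∈ Z T i := by
        have := (inferInstance : (Z T i).Normal).conj_mem _ h1 z
        have e : z * (z⁻¹ * α z) * z⁻¹ = α z * z⁻¹ := by group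
        rwa [e] at this
      have h3 : α z = (α z * z⁻¹) * z := by group
      have h4 := odd_fix h.hT hm α hα h3 (ih' _ h2)
      exact mul_inv_eq_one.1 h4

theorem Hyp.aut_trivial (h : Hyp W) {m : ℕ} (hm : Odd m) (α : MulAut T) (hα : α ^ m = 1) :
    α = 1 := by
  haveI hn := h.normal
  have hfix : ∀ z ∈ Z T 3, α z = z := fun z hz => h.fix_Z hm α hα 3 (by norm_num) hz
  have hWm : ∀ g z : T, g ∈ W → z ∈ Z T 3 → g * z = z * g := fun g z hg hz => h.central hg hz
  have hWinv : ∀ w ∈ W, α w ∈ W := by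
    intro w hw
    have key : α w ∈ Subgroup.centralizer ((Z T 3 : Subgroup T) : Set T) := by
      rw [Subgroup.mem_centralizer_iff]
      intro z hz
      have h1 := hWm w z hw hz
      have h2 := congrArg α h1
      rw [map_mul, map_mul, hfix z hz] at h2
      exact h2.symm
    exact (Subgroup.ext_iff.1 h.hW _).2 key
  have hg : ∀ t : T, α t * t⁻¹ ∈ W := by
    intro t
    have key : α t * t⁻¹ ∈ Subgroup.centralizer ((Z T 3 : Subgroup T) : Set T) := by
      rw [Subgroup.mem_centralizer_iff]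
      intro z hz
      have hz' : z ∈ Z T 3 := hz
      have h1 : t⁻¹ * z * t ∈ Z T 3 := by
        have := (inferInstance : (Z T 3).Normal).conj_mem z hz' t⁻¹
        simpa using this
      have h2 := hfix _ h1
      simp only [map_mul, map_inv, hfix z hz'] at h2
      -- `(α t)⁻¹ z (α t) = t⁻¹ z t`
      have h3 : z * α t = α t * (t⁻¹ * z * t) := by
        rw [← h2]; group
      calc z * (α t * t⁻¹) = (z * α t) * t⁻¹ := by group
        _ = (α t * (t⁻¹ * z * t)) * t⁻¹ := by rw [h3]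
        _ = α t * t⁻¹ * z := by group
    exact (Subgroup.ext_iff.1 h.hW _).2 key
  -- the fixed points in `W`
  let C : Subgroup T :=
    { carrier := {u | u ∈ W ∧ α u = u}
      mul_mem' := by
        rintro a b ⟨ha, ha2⟩ ⟨hb, hb2⟩
        exact ⟨W.mul_mem ha hb, by rw [map_mul, ha2, hb2]⟩
      one_mem' := ⟨W.one_mem, map_one α⟩
      inv_mem' := by
        rintro a ⟨ha, ha2⟩
        exact ⟨W.inv_mem ha, by rw [map_inv, ha2]⟩ }
  have hCn : C.Normal := by
    constructor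
    rintro u ⟨hu, hu2⟩ t
    have hu1 : t * u * t⁻¹ ∈ W := hn.conj_mem u hu t
    refine ⟨hu1, ?_⟩
    have hf := h.comm_mem (hg t) hu1
    set f := (α t * t⁻¹) * (t * u * t⁻¹) * (α t * t⁻¹)⁻¹ * (t * u * t⁻¹)⁻¹ with hfdef
    have e : α (t * u * t⁻¹) = f * (t * u * t⁻¹) := by
      rw [hfdef, map_mul, map_mul, map_inv, hu2]
      group
    have := odd_fix h.hT hm α hα e (hfix f hf)
    rw [e, this, one_mul]
  have hWC : W ≤ C := by
    by_contra hWC
    obtain ⟨y, hyW, hyC, hyc⟩ := exists_step h.hT C W hWC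
    have hdW : α y * y⁻¹ ∈ W := W.mul_mem (hWinv y hyW) (W.inv_mem hyW)
    set d := α y * y⁻¹ with hd
    have hαy : α y = d * y := by rw [hd]; group
    have hd4 : d ∈ Z T (3 + 1) := by
      rw [mem_Z_succ]
      intro t
      -- work modulo the Frattini subgroup
      let ρ := QuotientGroup.mk' (frattini ↥W)
      have hcomm : ∀ a b : ↥W, ρ a * ρ b = ρ b * ρ a := by
        intro a b
        have h1 : ρ (a * b * a⁻¹ * b⁻¹) = 1 := by
          rw [QuotientGroup.mk'_apply, QuotientGroup.eq_one_iff]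
          exact (h.mem_Z3_iff (W.mul_mem (W.mul_mem (W.mul_mem a.2 b.2) (W.inv_mem a.2)) (W.inv_mem b.2))).1
            (h.comm_mem a.2 b.2)
        simp only [map_mul, map_inv] at h1
        have h2 : ρ a * ρ b * (ρ a)⁻¹ = ρ b := by
          have := congrArg (· * ρ b) h1
          simpa using this
        calc ρ a * ρ b = (ρ a * ρ b * (ρ a)⁻¹) * ρ a := by group
          _ = ρ b * ρ a := by rw [h2]
      have hc1 : t * y⁻¹ * t⁻¹ ∈ W := hn.conj_mem _ (W.inv_mem hyW) t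
      have hc2 : t * d⁻¹ * t⁻¹ ∈ W := hn.conj_mem _ (W.inv_mem hdW) t
      have hcc := hyc t
      have hcα : α (y * t * y⁻¹ * t⁻¹) = y * t * y⁻¹ * t⁻¹ := hcc.2
      have hαt : α t = (α t * t⁻¹) * t := by group
      set g := α t * t⁻¹ with hgdef
      have hgW : g ∈ W := hg t
      have e1 : d * y * g * (t * y⁻¹ * t⁻¹) * (t * d⁻¹ * t⁻¹) * g⁻¹ = y * (t * y⁻¹ * t⁻¹) := by
        have e2 : α (y * t * y⁻¹ * t⁻¹) = d * y * g * (t * y⁻¹ * t⁻¹) * (t * d⁻¹ * t⁻¹) * g⁻¹ := by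
          rw [map_mul, map_mul, map_mul, map_inv, map_inv, hαy, hαt]
          group
        rw [← e2, hcα]
        group
      have e3 : (⟨d, hdW⟩ : ↥W) * ⟨y, hyW⟩ * ⟨g, hgW⟩ * ⟨_, hc1⟩ * ⟨_, hc2⟩ * (⟨g, hgW⟩ : ↥W)⁻¹
          = ⟨y, hyW⟩ * ⟨_, hc1⟩ := Subtype.ext e1
      have e4 := congrArg ρ e3
      simp only [map_mul, map_inv] at e4
      set a := ρ ⟨d, hdW⟩
      set b := ρ ⟨y, hyW⟩
      set e := ρ ⟨g, hgW⟩
      set p := ρ ⟨_, hc1⟩
      set q := ρ ⟨_, hc2⟩
      have e5 : e * (p * q) * e⁻¹ = p * q := by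
        have : e * (p * q) = (p * q) * e := by
          have := hcomm ⟨g, hgW⟩ (⟨_, hc1⟩ * ⟨_, hc2⟩)
          simpa only [map_mul] using this
        rw [this]; group
      have e6 : a * b * (p * q) = b * p := by
        rw [← e4, ← e5]; group
      have e7 : b * p * q = q * (b * p) := by
        have := hcomm (⟨y, hyW⟩ * ⟨_, hc1⟩) ⟨_, hc2⟩
        simpa only [map_mul] using this
      have e8 : a * q = 1 := by
        have e9 : a * q * (b * p) = b * p := by
          calc a * q * (b * p) = a * (q * (b * p)) := by group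
            _ = a * (b * p * q) := by rw [e7]
            _ = a * b * (p * q) := by group
            _ = b * p := e6
        exact mul_eq_right.1 e9
      have e10 : ρ (⟨d, hdW⟩ * ⟨_, hc2⟩) = 1 := by
        rw [map_mul]; exact e8
      rw [QuotientGroup.mk'_apply, QuotientGroup.eq_one_iff] at e10
      have hmem := (h.mem_Z3_iff (W.mul_mem hdW hc2)).2 e10
      have e11 : d * t * d⁻¹ * t⁻¹ = d * (t * d⁻¹ * t⁻¹) := by group
      rw [e11]
      exact hmem
    have h5 := h.fix_Z hm α hα 4 (by norm_num) hd4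
    have h6 := odd_fix h.hT hm α hα hαy h5
    apply hyC
    refine ⟨hyW, ?_⟩
    rw [hαy, h6, one_mul]
  apply MulEquiv.ext
  intro t
  have h1 := hWC (hg t)
  have h2 : α t = (α t * t⁻¹) * t := by group
  have h3 := odd_fix h.hT hm α hα h2 h1.2
  rw [MulAut.one_apply]
  exact mul_inv_eq_one.1 h3

end facts

end Cfsg.Agent.H27.T14
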