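import Mathlib
import Cfsg.Agent.Lib.H27.T14

/-! Two-groups with `|Z₄| = 16`: the quotient `T/W` and the centre of `W`. -/

set_option autoImplicit false

namespace Cfsg.Agent.H27.T14

open DihedralGroup

variable {T : Type*} [Group T] [Finite T] {W : Subgroup T}

/-- the table identifying upper unitriangular triples with the dihedral group -/
def tau (x y z : ZMod 2) : DihedralGroup 4 :=
  if x = 0 then
    (if y = 0 then (if z = 0 then r 0 else r 2) else (if z = 0 then sr 0 else sr 2))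
  else
    (if y = 0 then (if z = 0 then sr 1 else sr 3) else (if z = 0 then r 3 else r 1))

theorem tau_mul : ∀ x y z x' y' z' : ZMod 2,
    tau x y z * tau x' y' z' = tau (x + x') (y + y') (z + z' + x' * y) := by
  decide

theorem tau_eq_one : ∀ x y z : ZMod 2, tau x y z = 1 → x = 0 ∧ y = 0 ∧ z = 0 := by
  decide

theorem tau_x : ∀ x y z : ZMod 2, (tau x y z = r 0 ∨ tau x y z = r 2 ∨ tau x y z = sr 0 ∨ tau x y z = sr 2) → x = 0 := by
  decide

/-- power with exponent in `ZMod 2` -/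
noncomputable def pw (g : T) (u : ZMod 2) : T := if u = 0 then 1 else g

theorem zmod2_cases : ∀ u : ZMod 2, u = 0 ∨ u = 1 := by decide

@[simp] theorem pw_zero (g : T) : pw g 0 = 1 := by simp [pw]

@[simp] theorem pw_one (g : T) : pw g 1 = g := by simp [pw]

theorem pw_add {g : T} (hg : g ^ 2 = 1) (u v : ZMod 2) : pw g (u + v) = pw g u * pw g v := by
  have h11 : (1 : ZMod 2) + 1 = 0 := by decide
  rcases zmod2_cases u with rfl | rfl <;> rcases zmod2_cases v with rfl | rfl <;> simp [h11]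
  rw [← pow_two, hg]

theorem pw_mem {H : Subgroup T} {g : T} (hg : g ∈ H) (u : ZMod 2) : pw g u ∈ H := by
  rcases zmod2_cases u with rfl | rfl <;> simp [hg, H.one_mem]

theorem pw_mul_comm {g k : T} (hgk : g * k = k * g) (u : ZMod 2) : pw g u * k = k * pw g u := by
  rcases zmod2_cases u with rfl | rfl <;> simp [hgk]

theorem pw_conj (t g : T) (u : ZMod 2) : t⁻¹ * pw g u * t = pw (t⁻¹ * g * t) u := by
  rcases zmod2_cases u with rfl | rfl <;> simp

theorem pw_mul_of_comm {g k : T} (hgk : g * k = k * g) (u : ZMod 2) :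
    pw (g * k) u = pw g u * pw k u := by
  rcases zmod2_cases u with rfl | rfl <;> simp

theorem pw_pw {g : T} (u v : ZMod 2) : pw (pw g u) v = pw g (u * v) := by
  rcases zmod2_cases u with rfl | rfl <;> rcases zmod2_cases v with rfl | rfl <;> simp

theorem Hyp.exists_c (h : Hyp W) : ∃ c : T, c ∈ Z T 1 ∧ c ≠ 1 ∧ ∀ ζ ∈ Z T 1, ∃ z : ZMod 2, ζ = pw c z := by
  have c1 := card_Z_all h.hT h.ha h.hb 1 (by norm_num)
  have c0 := card_Z_all h.hT h.ha h.hb 0 (by norm_num)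
  have l1 : Z T 0 < Z T 1 := lt_of_le_of_ne (Z_mono (by norm_num)) (by
    intro hh; rw [hh, c1] at c0; norm_num at c0)
  obtain ⟨c, hc1, hc0⟩ := SetLike.exists_of_lt l1
  have hbot : Z T 0 = ⊥ := Subgroup.upperCentralSeries_zero T
  have hne : c ≠ 1 := by
    rintro rfl
    exact hc0 (Subgroup.one_mem _)
  refine ⟨c, hc1, hne, ?_⟩
  intro ζ hζ
  by_cases hζ0 : ζ ∈ Z T 0
  · refine ⟨0, ?_⟩
    rw [hbot, Subgroup.mem_bot] at hζ0
    simpa using hζ0
  · refine ⟨1, ?_⟩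
    have := idx2_mem (Z_mono (Nat.zero_le 1)) (by rw [c1, c0]; norm_num) hc1 hc0 hζ hζ0
    rw [hbot, Subgroup.mem_bot] at this
    rw [pw_one]
    exact (inv_mul_eq_one.1 this).symm


/-- The homomorphism onto the dihedral group. -/
theorem Hyp.exists_theta (h : Hyp W) :
    ∃ (θ : T →* DihedralGroup 4) (a : T), a ∈ Z T 2 ∧ a ∉ Z T 1 ∧ θ.ker = W ∧
      Function.Surjective θ ∧
      ∀ t : T, (θ t = r 0 ∨ θ t = r 2 ∨ θ t = sr 0 ∨ θ t = sr 2) → t * a = a * t := by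
  classical
  obtain ⟨c, hc1, hcne, hcall⟩ := h.exists_c
  obtain ⟨a, b, ha2, ha1, hb3, hb2⟩ := exists_ab h.hT h.ha h.hb
  have c1 := card_Z_all h.hT h.ha h.hb 1 (by norm_num)
  have c2 := card_Z_all h.hT h.ha h.hb 2 (by norm_num)
  have c3 := card_Z_all h.hT h.ha h.hb 3 (by norm_num)
  have hZ13 : Z T 1 ≤ Z T 3 := Z_mono (by norm_num)
  have hZ23 : Z T 2 ≤ Z T 3 := Z_mono (by norm_num)
  have hZ12 : Z T 1 ≤ Z T 2 := Z_mono (by norm_num)
  have hcZ : ∀ t : T, c * t = t * c := by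
    intro t
    have hz : c ∈ Subgroup.center T := by
      simpa [Z, Subgroup.upperCentralSeries_one] using hc1
    exact (Subgroup.mem_center_iff.1 hz t).symm
  have ha3 := hZ23 ha2
  have hc3 := hZ13 hc1
  have hc_sq : c ^ 2 = 1 := h.elem hc3
  have ha_sq : a ^ 2 = 1 := h.elem ha3
  -- decomposition of `Z₂`
  have hdec : ∀ ζ ∈ Z T 2, ∃ y z : ZMod 2, ζ = pw a y * pw c z := by
    intro ζ hζ
    by_cases hζ1 : ζ ∈ Z T 1
    · obtain ⟨z, hz⟩ := hcall ζ hζ1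
      exact ⟨0, z, by simpa using hz⟩
    · have := idx2_mem hZ12 (by rw [c1, c2]; norm_num) ha2 ha1 hζ hζ1
      obtain ⟨z, hz⟩ := hcall _ this
      refine ⟨1, z, ?_⟩
      rw [pw_one, ← hz]
      group
  have hpwc1 : ∀ z, pw c z ∈ Z T 1 := fun z => pw_mem hc1 z
  have huniq_c : ∀ z z' : ZMod 2, pw c z = pw c z' → z = z' := by
    intro z z' hzz
    rcases zmod2_cases z with rfl | rfl <;> rcases zmod2_cases z' with rfl | rfl <;> simp at hzz ⊢
    · exact absurd hzz.symm hcne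
    · exact absurd hzz hcne
  have huniq : ∀ y z y' z' : ZMod 2, pw a y * pw c z = pw a y' * pw c z' → y = y' ∧ z = z' := by
    intro y z y' z' hh
    have hy : y = y' := by
      have key : ∀ (y z y' z' : ZMod 2), pw a y * pw c z = pw a y' * pw c z' → y = 0 → y' = 0 := by
        intro y z y' z' hh hy0
        subst hy0
        rcases zmod2_cases y' with rfl | rfl
        · rfl
        · exfalso
          simp only [pw_zero, one_mul, pw_one] at hh
          apply ha1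
          have : a = pw c z * (pw c z')⁻¹ := by rw [hh]; group
          rw [this]
          exact (Z T 1).mul_mem (hpwc1 _) ((Z T 1).inv_mem (hpwc1 _))
      rcases zmod2_cases y with rfl | rfl <;> rcases zmod2_cases y' with rfl | rfl
      · rfl
      · exact (absurd (key _ _ _ _ hh rfl) (by decide))
      · exact (absurd (key _ _ _ _ hh.symm rfl) (by decide))
      · rfl
    subst hy
    exact ⟨rfl, huniq_c _ _ (mul_left_cancel hh)⟩
  -- bits
  have hx : ∀ t : T, ∃ x : ZMod 2, t⁻¹ * a * t = a * pw c x := by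
    intro t
    have h1 : a⁻¹ * t⁻¹ * a⁻¹⁻¹ * t⁻¹⁻¹ ∈ Z T 1 := mem_Z_succ.1 ((Z T 2).inv_mem ha2) t⁻¹
    obtain ⟨x, hx⟩ := hcall _ h1
    refine ⟨x, ?_⟩
    rw [← hx]
    group
  have hyz : ∀ t : T, ∃ y z : ZMod 2, t⁻¹ * b * t = b * (pw a y * pw c z) := by
    intro t
    have h1 : b⁻¹ * t⁻¹ * b⁻¹⁻¹ * t⁻¹⁻¹ ∈ Z T 2 := mem_Z_succ.1 ((Z T 3).inv_mem hb3) t⁻¹
    obtain ⟨y, z, hyz⟩ := hdec _ h1
    refine ⟨y, z, ?_⟩
    rw [← hyz]
    group
  choose bx hbx using hx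
  choose by' bz hbyz using hyz
  have hcomm3 : ∀ {u v : T}, u ∈ Z T 3 → v ∈ Z T 3 → u * v = v * u := fun hu hv => h.Z3_comm hu hv
  have hlawx : ∀ t t' : T, bx (t * t') = bx t + bx t' := by
    intro t t'
    apply huniq_c
    have e1 := hbx (t * t')
    have e2 : (t * t')⁻¹ * a * (t * t') = t'⁻¹ * (t⁻¹ * a * t) * t' := by group
    rw [e2, hbx t] at e1
    have e3 : t'⁻¹ * (a * pw c (bx t)) * t' = (t'⁻¹ * a * t') * pw c (bx t) := by
      have : t'⁻¹ * (a * pw c (bx t)) * t' = t'⁻¹ * a * (pw c (bx t) * t') := by group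
      rw [this, pw_mul_comm (hcZ t')]
      group
    rw [e3, hbx t', mul_assoc] at e1
    have e4 := mul_left_cancel e1
    rw [pw_add hc_sq, ← e4]
    exact hcomm3 (pw_mem hc3 _) (pw_mem hc3 _)
  have hpc : ∀ (u : ZMod 2) (k : T), pw c u * k = k * pw c u := fun u k => pw_mul_comm (hcZ k) u
  have hac : a * c = c * a := (hcZ a).symm
  have hlawyz : ∀ t t' : T, by' (t * t') = by' t + by' t' ∧
      bz (t * t') = bz t + bz t' + bx t' * by' t := by
    intro t t'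
    apply huniq
    have e1 := hbyz (t * t')
    have e2 : (t * t')⁻¹ * b * (t * t') = t'⁻¹ * (t⁻¹ * b * t) * t' := by group
    rw [e2, hbyz t] at e1
    have e3 : t'⁻¹ * (b * (pw a (by' t) * pw c (bz t))) * t'
        = (t'⁻¹ * b * t') * (t'⁻¹ * pw a (by' t) * t') * pw c (bz t) := by
      have : t'⁻¹ * (b * (pw a (by' t) * pw c (bz t))) * t'
          = t'⁻¹ * b * pw a (by' t) * (pw c (bz t) * t') := by group
      rw [this, hpc]
      group
    rw [e3, hbyz t', pw_conj, hbx t', pw_mul_of_comm (by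
      exact (hpc _ a).symm), pw_pw, mul_assoc b, mul_assoc b] at e1
    have e4 := mul_left_cancel e1
    rw [pw_add ha_sq, pw_add hc_sq, pw_add hc_sq, ← e4]
    set A' := pw a (by' t')
    set C' := pw c (bz t')
    set A := pw a (by' t)
    set D := pw c (bx t' * by' t)
    set C := pw c (bz t)
    have hAA : A' * A = A * A' := hcomm3 (pw_mem ha3 _) (pw_mem ha3 _)
    have hC'k : ∀ k, C' * k = k * C' := fun k => hpc _ k
    have hDk : ∀ k, D * k = k * D := fun k => hpc _ k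
    have hCk : ∀ k, C * k = k * C := fun k => hpc _ k
    calc A' * C' * (A * D) * C = A' * (C' * A) * D * C := by group
      _ = A' * (A * C') * D * C := by rw [hC'k]
      _ = (A' * A) * (C' * (D * C)) := by group
      _ = (A * A') * (C' * (C * D)) := by rw [hAA, hCk D]
      _ = (A * A') * ((C' * C) * D) := by group
      _ = (A * A') * ((C * C') * D) := by rw [hC'k C]
  let θ : T →* DihedralGroup 4 := MonoidHom.mk' (fun t => tau (bx t) (by' t) (bz t)) (by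
    intro t t'
    rw [tau_mul, hlawx, (hlawyz t t').1, (hlawyz t t').2])
  have hθ : ∀ t, θ t = tau (bx t) (by' t) (bz t) := fun t => rfl
  have hker : θ.ker = W := by
    ext t
    rw [MonoidHom.mem_ker, hθ]
    constructor
    · intro ht
      obtain ⟨h1, h2, h3⟩ := tau_eq_one _ _ _ ht
      have e1 := hbx t
      rw [h1, pw_zero, mul_one] at e1
      have e2 := hbyz t
      rw [h2, h3, pw_zero, pw_zero, mul_one, mul_one] at e2
      have e3 : t * a = a * t := by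
        calc t * a = t * (t⁻¹ * a * t) := by rw [e1]
          _ = a * t := by group
      have e4 : t * b = b * t := by
        calc t * b = t * (t⁻¹ * b * t) := by rw [e2]
          _ = b * t := by group
      exact (Subgroup.ext_iff.1 h.hW t).2 (centralizer_le_of_ab h.hT h.ha h.hb ha2 ha1 hb3 hb2 e3 e4)
    · intro ht
      have e1 : a * pw c (bx t) = a * pw c 0 := by
        rw [← hbx t, pw_zero, mul_one]
        have := h.central ht ha3
        calc t⁻¹ * a * t = t⁻¹ * (a * t) := by group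
          _ = t⁻¹ * (t * a) := by rw [this]
          _ = a := by group
      have e2 : pw a (by' t) * pw c (bz t) = pw a 0 * pw c 0 := by
        have e3 := hbyz t
        have : t⁻¹ * b * t = b := by
          have := h.central ht hb3
          calc t⁻¹ * b * t = t⁻¹ * (b * t) := by group
            _ = t⁻¹ * (t * b) := by rw [this]
            _ = b := by group
        rw [this] at e3
        have e4 : b * (pw a (by' t) * pw c (bz t)) = b * 1 := by rw [← e3, mul_one]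
        have e5 := mul_left_cancel e4
        rw [e5, pw_zero, pw_zero, one_mul]
      have e6 := huniq_c _ _ (mul_left_cancel e1)
      obtain ⟨e7, e8⟩ := huniq _ _ _ _ e2
      rw [e6, e7, e8]
      decide
  have hsurj : Function.Surjective θ := by
    rw [← MonoidHom.range_eq_top]
    apply Subgroup.eq_top_of_card_eq
    rw [← Subgroup.index_ker, hker, h.count.1, DihedralGroup.nat_card]
  refine ⟨θ, a, ha2, ha1, hker, hsurj, ?_⟩
  intro t ht
  have h1 := tau_x _ _ _ ht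
  have e1 := hbx t
  rw [h1, pw_zero, mul_one] at e1
  calc t * a = t * (t⁻¹ * a * t) := by rw [e1]
    _ = a * t := by group

/-- basis vector -/
def dlt (g : DihedralGroup 4) : DihedralGroup 4 → ZMod 2 := fun h => if h = g then 1 else 0

set_option maxRecDepth 100000 in
theorem fin_poly : ∀ v0 v1 v2 v3 v4 v5 v6 v7 s p0 p1 : ZMod 2,
    v0 + v1 + v2 + v3 + v4 + v5 + v6 + v7 = 0 → v1 + v3 + v5 + v7 = 0 → v1 + v3 + v4 + v6 = 0 →
    v0 * s + v1 * s + v2 * s + v3 * s + v4 * s + v5 * s + v6 * s + v7 * s + v0 * v1 * p0 + v0 * v3 * p0 + v0 * v5 * p1 + v0 * v7 * p1 + v1 * v2 * p0 + v1 * v4 * p1 + v1 * v6 * p1 + v2 * v3 * p0 + v2 * v5 * p1 + v2 * v7 * p1 + v3 * v4 * p1 + v3 * v6 * p1 + v4 * v5 * p0 + v4 * v7 * p0 + v5 * v6 * p0 + v6 * v7 * p0 = 0 := by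
  decide

theorem fin_core (Q : (DihedralGroup 4 → ZMod 2) → ZMod 2)
    (B : (DihedralGroup 4 → ZMod 2) → (DihedralGroup 4 → ZMod 2) → ZMod 2)
    (hadd : ∀ v w, Q (v + w) = Q v + Q w + B v w)
    (hB1 : ∀ u v w, B (u + v) w = B u w + B v w)
    (hB2 : ∀ u v w, B u (v + w) = B u v + B u w)
    (s : ZMod 2) (hs : ∀ g, Q (dlt g) = s)
    (f : DihedralGroup 4 → ZMod 2) (hf : ∀ g h, B (dlt g) (dlt h) = f (g⁻¹ * h))
    (hf1 : f (r 0) = 0) (hfinv : ∀ g, f g⁻¹ = f g) (hf2 : f (r 2) = 0) (hf3 : f (sr 0) = 0)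
    (hf4 : f (sr 2) = 0)
    (hsum : f (r 0) + f (r 1) + f (r 2) + f (r 3) + f (sr 0) + f (sr 1) + f (sr 2) + f (sr 3) = 0)
    (v : DihedralGroup 4 → ZMod 2)
    (h1 : v (r 0) + v (r 1) + v (r 2) + v (r 3) + v (sr 0) + v (sr 1) + v (sr 2) + v (sr 3) = 0)
    (h2 : v (r 1) + v (r 3) + v (sr 1) + v (sr 3) = 0)
    (h3 : v (r 1) + v (r 3) + v (sr 0) + v (sr 2) = 0) : Q v = 0 := by
  have hB00 : ∀ w, B 0 w = 0 := by
    intro w
    have := hB1 0 0 w
    rw [add_zero] at this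
    exact left_eq_add.1 this
  have hB00' : ∀ w, B w 0 = 0 := by
    intro w
    have := hB2 w 0 0
    rw [add_zero] at this
    exact left_eq_add.1 this
  have hQ0 : Q 0 = 0 := by
    have := hadd 0 0
    rw [add_zero, hB00, add_zero] at this
    exact left_eq_add.1 this
  have hQs : ∀ (a : ZMod 2) e, Q (a • e) = a * Q e := by
    intro a e
    rcases zmod2_cases a with rfl | rfl
    · rw [zero_smul, hQ0, zero_mul]
    · rw [one_smul, one_mul]
  have hBs : ∀ (a b : ZMod 2) e e', B (a • e) (b • e') = a * b * B e e' := by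
    intro a b e e'
    rcases zmod2_cases a with rfl | rfl <;> rcases zmod2_cases b with rfl | rfl <;>
      simp [hB00, hB00']
  have hp0 : f (r 3) = f (r 1) := by
    have := hfinv (r 1)
    rwa [show (r 1 : DihedralGroup 4)⁻¹ = r 3 from by decide] at this
  have hp1 : f (sr 3) = f (sr 1) := by
    rw [hf1, hf2, hf3, hf4, hp0] at hsum
    have e2 : f (r 1) + f (r 1) = 0 := CharTwo.add_self_eq_zero _
    have e3 : f (sr 1) + f (sr 3) = 0 := by
      have : (0 : ZMod 2) + f (r 1) + 0 + f (r 1) + 0 + f (sr 1) + 0 + f (sr 3) = (f (r 1) + f (r 1)) + (f (sr 1) + f (sr 3)) := by ring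
      rw [this, e2, zero_add] at hsum
      exact hsum
    exact (CharTwo.add_eq_zero.1 e3).symm

  have t01 : B (dlt (r 0)) (dlt (r 1)) = f (r 1) := by
    rw [hf, show (r 0 : DihedralGroup 4)⁻¹ * r 1 = r 1 from by decide]
  have t02 : B (dlt (r 0)) (dlt (r 2)) = 0 := by
    rw [hf, show (r 0 : DihedralGroup 4)⁻¹ * r 2 = r 2 from by decide, hf2]
  have t03 : B (dlt (r 0)) (dlt (r 3)) = f (r 1) := by
    rw [hf, show (r 0 : DihedralGroup 4)⁻¹ * r 3 = r 3 from by decide, hp0]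
  have t04 : B (dlt (r 0)) (dlt (sr 0)) = 0 := by
    rw [hf, show (r 0 : DihedralGroup 4)⁻¹ * sr 0 = sr 0 from by decide, hf3]
  have t05 : B (dlt (r 0)) (dlt (sr 1)) = f (sr 1) := by
    rw [hf, show (r 0 : DihedralGroup 4)⁻¹ * sr 1 = sr 1 from by decide]
  have t06 : B (dlt (r 0)) (dlt (sr 2)) = 0 := by
    rw [hf, show (r 0 : DihedralGroup 4)⁻¹ * sr 2 = sr 2 from by decide, hf4]
  have t07 : B (dlt (r 0)) (dlt (sr 3)) = f (sr 1) := by
    rw [hf, show (r 0 : DihedralGroup 4)⁻¹ * sr 3 = sr 3 from by decide, hp1]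
  have t12 : B (dlt (r 1)) (dlt (r 2)) = f (r 1) := by
    rw [hf, show (r 1 : DihedralGroup 4)⁻¹ * r 2 = r 1 from by decide]
  have t13 : B (dlt (r 1)) (dlt (r 3)) = 0 := by
    rw [hf, show (r 1 : DihedralGroup 4)⁻¹ * r 3 = r 2 from by decide, hf2]
  have t14 : B (dlt (r 1)) (dlt (sr 0)) = f (sr 1) := by
    rw [hf, show (r 1 : DihedralGroup 4)⁻¹ * sr 0 = sr 1 from by decide]
  have t15 : B (dlt (r 1)) (dlt (sr 1)) = 0 := by
    rw [hf, show (r 1 : DihedralGroup 4)⁻¹ * sr 1 = sr 2 from by decide, hf4]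
  have t16 : B (dlt (r 1)) (dlt (sr 2)) = f (sr 1) := by
    rw [hf, show (r 1 : DihedralGroup 4)⁻¹ * sr 2 = sr 3 from by decide, hp1]
  have t17 : B (dlt (r 1)) (dlt (sr 3)) = 0 := by
    rw [hf, show (r 1 : DihedralGroup 4)⁻¹ * sr 3 = sr 0 from by decide, hf3]
  have t23 : B (dlt (r 2)) (dlt (r 3)) = f (r 1) := by
    rw [hf, show (r 2 : DihedralGroup 4)⁻¹ * r 3 = r 1 from by decide]
  have t24 : B (dlt (r 2)) (dlt (sr 0)) = 0 := by
    rw [hf, show (r 2 : DihedralGroup 4)⁻¹ * sr 0 = sr 2 from by decide, hf4]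
  have t25 : B (dlt (r 2)) (dlt (sr 1)) = f (sr 1) := by
    rw [hf, show (r 2 : DihedralGroup 4)⁻¹ * sr 1 = sr 3 from by decide, hp1]
  have t26 : B (dlt (r 2)) (dlt (sr 2)) = 0 := by
    rw [hf, show (r 2 : DihedralGroup 4)⁻¹ * sr 2 = sr 0 from by decide, hf3]
  have t27 : B (dlt (r 2)) (dlt (sr 3)) = f (sr 1) := by
    rw [hf, show (r 2 : DihedralGroup 4)⁻¹ * sr 3 = sr 1 from by decide]
  have t34 : B (dlt (r 3)) (dlt (sr 0)) = f (sr 1) := by
    rw [hf, show (r 3 : DihedralGroup 4)⁻¹ * sr 0 = sr 3 from by decide, hp1]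
  have t35 : B (dlt (r 3)) (dlt (sr 1)) = 0 := by
    rw [hf, show (r 3 : DihedralGroup 4)⁻¹ * sr 1 = sr 0 from by decide, hf3]
  have t36 : B (dlt (r 3)) (dlt (sr 2)) = f (sr 1) := by
    rw [hf, show (r 3 : DihedralGroup 4)⁻¹ * sr 2 = sr 1 from by decide]
  have t37 : B (dlt (r 3)) (dlt (sr 3)) = 0 := by
    rw [hf, show (r 3 : DihedralGroup 4)⁻¹ * sr 3 = sr 2 from by decide, hf4]
  have t45 : B (dlt (sr 0)) (dlt (sr 1)) = f (r 1) := by
    rw [hf, show (sr 0 : DihedralGroup 4)⁻¹ * sr 1 = r 1 from by decide]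
  have t46 : B (dlt (sr 0)) (dlt (sr 2)) = 0 := by
    rw [hf, show (sr 0 : DihedralGroup 4)⁻¹ * sr 2 = r 2 from by decide, hf2]
  have t47 : B (dlt (sr 0)) (dlt (sr 3)) = f (r 1) := by
    rw [hf, show (sr 0 : DihedralGroup 4)⁻¹ * sr 3 = r 3 from by decide, hp0]
  have t56 : B (dlt (sr 1)) (dlt (sr 2)) = f (r 1) := by
    rw [hf, show (sr 1 : DihedralGroup 4)⁻¹ * sr 2 = r 1 from by decide]
  have t57 : B (dlt (sr 1)) (dlt (sr 3)) = 0 := by
    rw [hf, show (sr 1 : DihedralGroup 4)⁻¹ * sr 3 = r 2 from by decide, hf2]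
  have t67 : B (dlt (sr 2)) (dlt (sr 3)) = f (r 1) := by
    rw [hf, show (sr 2 : DihedralGroup 4)⁻¹ * sr 3 = r 1 from by decide]
  have hv : v = v (r 0) • dlt (r 0) + v (r 1) • dlt (r 1) + v (r 2) • dlt (r 2) + v (r 3) • dlt (r 3) + v (sr 0) • dlt (sr 0) + v (sr 1) • dlt (sr 1) + v (sr 2) • dlt (sr 2) + v (sr 3) • dlt (sr 3) := by
    funext h
    rcases h with i | i <;> fin_cases i <;> simp (decide := true) [dlt] <;> rfl

  rw [hv]
  simp only [hadd, hB1, hB2, hQs, hBs, hs, t01, t02, t03, t04, t05, t06, t07, t12, t13, t14, t15, t16, t17, t23, t24, t25, t26, t27, t34, t35, t36, t37, t45, t46, t47, t56, t57, t67]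
  have key := fin_poly (v (r 0)) (v (r 1)) (v (r 2)) (v (r 3)) (v (sr 0)) (v (sr 1)) (v (sr 2)) (v (sr 3)) s (f (r 1)) (f (sr 1)) h1 h2 h3
  linear_combination key

/-! ### forms on `W` -/

open Classical in
/-- the invariant functional on `Z₃` with kernel `Z₂` -/
noncomputable def lam (z : T) : ZMod 2 := if z ∈ Z T 2 then 0 else 1

theorem lam_eq_zero {z : T} : lam z = 0 ↔ z ∈ Z T 2 := by
  unfold lam
  split_ifs with hz
  · exact ⟨fun _ => hz, fun _ => rfl⟩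
  · exact ⟨fun h => absurd h (by decide), fun h => absurd h hz⟩

theorem lam_mem {z : T} (hz : z ∈ Z T 2) : lam z = 0 := lam_eq_zero.2 hz

theorem lam_one : lam (1 : T) = 0 := lam_mem (Subgroup.one_mem _)

theorem Hyp.lam_mul (h : Hyp W) {z z' : T} (hz : z ∈ Z T 3) (hz' : z' ∈ Z T 3) :
    lam (z * z') = lam z + lam z' := by
  have c2 := card_Z_all h.hT h.ha h.hb 2 (by norm_num)
  have c3 := card_Z_all h.hT h.ha h.hb 3 (by norm_num)
  have hi := idx2_subgroupOf (H := Z T 2) (K := Z T 3) (Z_mono (by norm_num)) (by rw [c2, c3]; norm_num)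
  have key := Subgroup.mul_mem_iff_of_index_two hi (a := ⟨z, hz⟩) (b := ⟨z', hz'⟩)
  have e : ∀ x : ↥(Z T 3), x ∈ (Z T 2).subgroupOf (Z T 3) ↔ (x : T) ∈ Z T 2 := fun x => Subgroup.mem_subgroupOf
  rw [e, e, e] at key
  have h11 : (1 : ZMod 2) + 1 = 0 := by decide
  unfold lam
  by_cases h1 : z ∈ Z T 2 <;> by_cases h2 : z' ∈ Z T 2 <;>
    simp only [Subgroup.coe_mul, h1, h2, true_iff, iff_true, false_iff, iff_false, not_true, not_false_iff, iff_self] at key <;>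
    simp [h1, h2, key, h11]

theorem lam_inv {z : T} : lam z⁻¹ = lam z := by
  by_cases hz : z ∈ Z T 2
  · rw [lam_mem hz, lam_mem ((Z T 2).inv_mem hz)]
  · have hz' : z⁻¹ ∉ Z T 2 := fun hh => hz (by simpa using (Z T 2).inv_mem hh)
    unfold lam
    rw [if_neg hz, if_neg hz']

theorem Hyp.lam_conj (h : Hyp W) (t : T) {z : T} (hz : z ∈ Z T 3) : lam (t * z * t⁻¹) = lam z := by
  have h1 : z * t * z⁻¹ * t⁻¹ ∈ Z T 2 := mem_Z_succ.1 hz t
  have h2 : t * z * t⁻¹ * z⁻¹ ∈ Z T 2 := by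
    have := (Z T 2).inv_mem h1
    have e : (z * t * z⁻¹ * t⁻¹)⁻¹ = t * z * t⁻¹ * z⁻¹ := by group
    rwa [e] at this
  have h3 : t * z * t⁻¹ = (t * z * t⁻¹ * z⁻¹) * z := by group
  rw [h3, h.lam_mul (Z_mono (by norm_num) h2) hz, lam_mem h2, zero_add]

/-- the squaring form -/
noncomputable def q0 (w : ↥W) : ZMod 2 := lam ((w : T) ^ 2)

/-- the commutator form -/
noncomputable def b0 (u v : ↥W) : ZMod 2 := lam ((u : T) * v * (u : T)⁻¹ * (v : T)⁻¹)

theorem Hyp.q_mul (h : Hyp W) (u v : ↥W) : q0 (u * v) = q0 u + q0 v + b0 u v := by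
  have hc := h.comm_mem u.2 v.2
  unfold q0 b0
  set c := (u : T) * v * (u : T)⁻¹ * (v : T)⁻¹ with hcdef
  have e1 : (((u * v : ↥W) : T)) ^ 2 = c⁻¹ * ((u : T) ^ 2 * (v : T) ^ 2) := by
    have h1 : (u : T) * c⁻¹ = c⁻¹ * u := h.central u.2 ((Z T 3).inv_mem hc)
    have h2 : (v : T) * u = c⁻¹ * (u * v) := by rw [hcdef]; group
    calc ((u * v : ↥W) : T) ^ 2 = (u : T) * ((v : T) * u) * v := by
          simp only [Subgroup.coe_mul, pow_two]; group
      _ = (u : T) * (c⁻¹ * (u * v)) * v := by rw [h2]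
      _ = ((u : T) * c⁻¹) * (u * v) * v := by group
      _ = (c⁻¹ * u) * (u * v) * v := by rw [h1]
      _ = _ := by simp only [pow_two]; group
  rw [e1, h.lam_mul ((Z T 3).inv_mem hc) ((Z T 3).mul_mem (h.sq_mem u.2) (h.sq_mem v.2)),
    h.lam_mul (h.sq_mem u.2) (h.sq_mem v.2), lam_inv]
  ring

theorem Hyp.b_mul_left (h : Hyp W) (u₁ u₂ v : ↥W) : b0 (u₁ * u₂) v = b0 u₁ v + b0 u₂ v := by
  have h1 := h.comm_mem u₁.2 v.2
  have h2 := h.comm_mem u₂.2 v.2
  unfold b0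
  have e : ((u₁ * u₂ : ↥W) : T) * v * ((u₁ * u₂ : ↥W) : T)⁻¹ * (v : T)⁻¹
      = ((u₂ : T) * v * (u₂ : T)⁻¹ * (v : T)⁻¹) * ((u₁ : T) * v * (u₁ : T)⁻¹ * (v : T)⁻¹) := by
    have h3 := h.central u₁.2 h2
    simp only [Subgroup.coe_mul]
    calc (u₁ : T) * u₂ * v * ((u₁ : T) * u₂)⁻¹ * (v : T)⁻¹
        = ((u₁ : T) * ((u₂ : T) * v * (u₂ : T)⁻¹ * (v : T)⁻¹)) * ((v : T) * (u₁ : T)⁻¹ * (v : T)⁻¹) := by group
      _ = (((u₂ : T) * v * (u₂ : T)⁻¹ * (v : T)⁻¹) * u₁) * ((v : T) * (u₁ : T)⁻¹ * (v : T)⁻¹) := by rw [h3]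
      _ = _ := by group
  rw [e, h.lam_mul h2 h1, add_comm]

theorem Hyp.b_symm (u v : ↥W) : b0 u v = b0 v u := by
  unfold b0
  rw [← lam_inv]
  congr 1
  group

theorem Hyp.b_mul_right (h : Hyp W) (u v₁ v₂ : ↥W) : b0 u (v₁ * v₂) = b0 u v₁ + b0 u v₂ := by
  rw [Hyp.b_symm, h.b_mul_left, Hyp.b_symm v₁, Hyp.b_symm v₂]

theorem Hyp.q_conj (h : Hyp W) [W.Normal] (t : T) (w : ↥W) : q0 (cn W t w) = q0 w := by
  unfold q0
  have e : ((cn W t w : ↥W) : T) ^ 2 = t * (w : T) ^ 2 * t⁻¹ := by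
    rw [cn_val]; simp only [pow_two]; group
  rw [e, h.lam_conj t (h.sq_mem w.2)]

theorem Hyp.b_conj (h : Hyp W) [W.Normal] (t : T) (u v : ↥W) :
    b0 (cn W t u) (cn W t v) = b0 u v := by
  unfold b0
  have e : ((cn W t u : ↥W) : T) * (cn W t v : ↥W) * ((cn W t u : ↥W) : T)⁻¹ * ((cn W t v : ↥W) : T)⁻¹
      = t * ((u : T) * v * (u : T)⁻¹ * (v : T)⁻¹) * t⁻¹ := by
    simp only [cn_val]; group
  rw [e, h.lam_conj t (h.comm_mem u.2 v.2)]

theorem Hyp.b_of_frattini (h : Hyp W) (u f : ↥W) (hf : f ∈ frattini ↥W) : b0 u f = 0 := by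
  have hfZ : (f : T) ∈ Z T 3 := (h.mem_Z3_iff f.2).2 hf
  unfold b0
  have e : (u : T) * f * (u : T)⁻¹ * (f : T)⁻¹ = 1 := by
    rw [h.central u.2 hfZ]; group
  rw [e, lam_one]

theorem Hyp.q_of_frattini (h : Hyp W) (f : ↥W) (hf : f ∈ frattini ↥W) : q0 f = 0 := by
  have hfZ : (f : T) ∈ Z T 3 := (h.mem_Z3_iff f.2).2 hf
  unfold q0
  rw [h.elem hfZ, lam_one]

theorem Hyp.q_cong (h : Hyp W) (u v : ↥W) (huv : u⁻¹ * v ∈ frattini ↥W) : q0 v = q0 u := by
  have e : v = u * (u⁻¹ * v) := by group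
  rw [e, h.q_mul, h.q_of_frattini _ huv, h.b_of_frattini _ _ huv, add_zero, add_zero]

theorem Hyp.b_cong_right (h : Hyp W) (w u v : ↥W) (huv : u⁻¹ * v ∈ frattini ↥W) : b0 w v = b0 w u := by
  have e : v = u * (u⁻¹ * v) := by group
  rw [e, h.b_mul_right, h.b_of_frattini _ _ huv, add_zero]

theorem Hyp.b_cong_left (h : Hyp W) (w u v : ↥W) (huv : u⁻¹ * v ∈ frattini ↥W) : b0 v w = b0 u w := by
  rw [Hyp.b_symm, h.b_cong_right w u v huv, Hyp.b_symm]

/-- `[w, w^t] ∈ Z₂` for `t` centralizing `a`, acting as an involution, outside `W`. -/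
theorem Hyp.comm_conj_mem (h : Hyp W) {a t w : T} (ha2 : a ∈ Z T 2) (ha1 : a ∉ Z T 1)
    (hta : t * a = a * t) (htW : t ∉ W) (ht2 : t ^ 2 ∈ W) (hw : w ∈ W) (hnorm : W.Normal) :
    w * (t * w * t⁻¹) * w⁻¹ * (t * w * t⁻¹)⁻¹ ∈ Z T 2 := by
  have hw1 : t * w * t⁻¹ ∈ W := hnorm.conj_mem w hw t
  have hc := h.comm_mem hw hw1
  set w₁ := t * w * t⁻¹ with hw₁
  set c := w * w₁ * w⁻¹ * w₁⁻¹ with hcdef
  -- `t` fixes `c`
  have he := h.comm_mem ht2 hw
  set e := t ^ 2 * w * (t ^ 2)⁻¹ * w⁻¹ with hedef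
  have hw2 : t * w₁ * t⁻¹ = e * w := by
    rw [hedef, hw₁]; simp only [pow_two]; group
  have htc : t * c * t⁻¹ = c := by
    have h1 : t * c * t⁻¹ = w₁ * (e * w) * w₁⁻¹ * (e * w)⁻¹ := by
      rw [← hw2, hcdef, hw₁]; group
    have h2 : w₁ * e = e * w₁ := h.central hw1 he
    have h3 : w₁ * (e * w) * w₁⁻¹ * (e * w)⁻¹ = e * (w₁ * w * w₁⁻¹ * w⁻¹) * e⁻¹ := by
      calc w₁ * (e * w) * w₁⁻¹ * (e * w)⁻¹ = (w₁ * e) * w * w₁⁻¹ * w⁻¹ * e⁻¹ := by group
        _ = (e * w₁) * w * w₁⁻¹ * w⁻¹ * e⁻¹ := by rw [h2]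
        _ = _ := by group
    have h4 : w₁ * w * w₁⁻¹ * w⁻¹ = c⁻¹ := by rw [hcdef]; group
    have h5 : c⁻¹ = c := by
      have := h.elem hc
      rw [pow_two] at this
      exact inv_eq_of_mul_eq_one_left this
    rw [h1, h3, h4, h5, h.Z3_comm he hc]
    group
  by_contra hcZ
  apply htW
  have c1 := card_Z_all h.hT h.ha h.hb 1 (by norm_num)
  have c2 := card_Z_all h.hT h.ha h.hb 2 (by norm_num)
  have c3 := card_Z_all h.hT h.ha h.hb 3 (by norm_num)
  let C : Subgroup T := Subgroup.centralizer ({t} : Set T)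
  have h1 : Z T 1 ≤ C := by
    intro z hz
    have hz' : z ∈ Subgroup.center T := by
      simpa [Z, Subgroup.upperCentralSeries_one] using hz
    rw [Subgroup.mem_centralizer_singleton_iff]
    exact (Subgroup.mem_center_iff.1 hz' t).symm
  have h2 : Z T 2 ≤ C := by
    refine idx2_le (Z_mono (by norm_num)) (by rw [c1, c2]; norm_num) h1 ha2 ha1 ?_
    rw [Subgroup.mem_centralizer_singleton_iff]
    exact hta.symm
  have h3 : Z T 3 ≤ C := by
    refine idx2_le (Z_mono (by norm_num)) (by rw [c2, c3]; norm_num) h2 hc hcZ ?_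
    rw [Subgroup.mem_centralizer_singleton_iff]
    have : t * c = c * t := by
      calc t * c = t * c * t⁻¹ * t := by group
        _ = c * t := by rw [htc]
    exact this.symm
  refine (Subgroup.ext_iff.1 h.hW t).2 ?_
  rw [Subgroup.mem_centralizer_iff]
  intro z hz
  have := h3 hz
  rw [Subgroup.mem_centralizer_singleton_iff] at this
  exact this


/-! ### regular coordinates -/

/-- data of the regular coordinates -/
structure XD (W : Subgroup T) [W.Normal] where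
  θ : T →* DihedralGroup 4
  sec : DihedralGroup 4 → T
  hsec : ∀ g, θ (sec g) = g
  hker : θ.ker = W
  χ : ↥W →* Multiplicative (ZMod 2)
  hχF : ∀ f ∈ frattini ↥W, χ f = 1
  hinj : ∀ w, XiHom W χ sec w = 1 → w ∈ frattini ↥W
  hsurj : Function.Surjective (XiHom W χ sec)

variable [W.Normal]

/-- additive form of the coordinates -/
noncomputable def XD.xi (D : XD W) (w : ↥W) : DihedralGroup 4 → ZMod 2 :=
  fun g => Multiplicative.toAdd (XiHom W D.χ D.sec w g)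

theorem XD.mem_iff (D : XD W) (t : T) : t ∈ W ↔ D.θ t = 1 := by
  rw [← MonoidHom.mem_ker]
  exact (Subgroup.ext_iff.1 D.hker t).symm

theorem XD.xi_mul (D : XD W) (u v : ↥W) : D.xi (u * v) = D.xi u + D.xi v := by
  funext g
  simp only [XD.xi, map_mul, Pi.mul_apply, toAdd_mul, Pi.add_apply]

theorem XD.xi_eq (D : XD W) {u v : ↥W} (huv : D.xi u = D.xi v) : u⁻¹ * v ∈ frattini ↥W := by
  apply D.hinj
  rw [map_mul, map_inv]
  have : XiHom W D.χ D.sec u = XiHom W D.χ D.sec v := by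
    funext g
    exact Multiplicative.toAdd.injective (congrFun huv g)
  rw [this]
  group

theorem XD.xi_surj (D : XD W) (v : DihedralGroup 4 → ZMod 2) : ∃ w, D.xi w = v := by
  obtain ⟨w, hw⟩ := D.hsurj (fun g => Multiplicative.ofAdd (v g))
  refine ⟨w, ?_⟩
  funext g
  simp only [XD.xi, hw, toAdd_ofAdd]

theorem XD.xi_conj (D : XD W) (t : T) (w : ↥W) (g : DihedralGroup 4) :
    D.xi (cn W t w) g = D.xi w ((D.θ t)⁻¹ * g) := by
  set g' := (D.θ t)⁻¹ * g with hg'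
  have hmem : (D.sec g')⁻¹ * (t⁻¹ * D.sec g) ∈ W := by
    rw [D.mem_iff, map_mul, map_mul, map_inv, map_inv, D.hsec, D.hsec, ← hg']
    simp
  have hq' : t⁻¹ * D.sec g = D.sec g' * ((D.sec g')⁻¹ * (t⁻¹ * D.sec g)) := by group
  set w' : ↥W := ⟨_, hmem⟩ with hw'
  have h0 : cn W (D.sec g)⁻¹ (cn W t w) = w'⁻¹ * cn W (D.sec g')⁻¹ w * w' := by
    apply Subtype.ext
    simp only [cn_val, Subgroup.coe_mul, Subgroup.coe_inv, hw']
    group
  simp only [XD.xi, XiHom_apply, h0, map_mul, map_inv, toAdd_mul, toAdd_inv]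
  abel

theorem XD.xi_frattini (h : Hyp W) (D : XD W) (f : ↥W) (hf : f ∈ frattini ↥W) : D.xi f = 0 := by
  funext g
  have hfZ : (f : T) ∈ Z T 3 := (h.mem_Z3_iff f.2).2 hf
  have h1 : ((cn W (D.sec g)⁻¹ f : ↥W) : T) ∈ Z T 3 := by
    rw [cn_val]
    exact (inferInstance : (Z T 3).Normal).conj_mem _ hfZ _
  have h2 := D.hχF _ ((h.mem_Z3_iff (cn W (D.sec g)⁻¹ f).2).1 h1)
  simp only [XD.xi, XiHom_apply, h2, Pi.zero_apply]
  rfl

theorem XD.q0_eq_zero (h : Hyp W) (D : XD W) {a : T} (ha2 : a ∈ Z T 2) (ha1 : a ∉ Z T 1)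
    (hcent : ∀ t : T, (D.θ t = r 0 ∨ D.θ t = r 2 ∨ D.θ t = sr 0 ∨ D.θ t = sr 2) → t * a = a * t)
    (x₀ : ↥W) (hx₀ : ∀ v : ↥W, v * x₀ = x₀ * v) (hxi : ∀ g, D.xi x₀ g = 1) (w : ↥W)
    (h1 : D.xi w (r 0) + D.xi w (r 1) + D.xi w (r 2) + D.xi w (r 3) + D.xi w (sr 0) + D.xi w (sr 1)
      + D.xi w (sr 2) + D.xi w (sr 3) = 0)
    (h2 : D.xi w (r 1) + D.xi w (r 3) + D.xi w (sr 1) + D.xi w (sr 3) = 0)
    (h3 : D.xi w (r 1) + D.xi w (r 3) + D.xi w (sr 0) + D.xi w (sr 2) = 0) : q0 w = 0 := by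
  classical
  choose s hs using D.xi_surj
  let Q : (DihedralGroup 4 → ZMod 2) → ZMod 2 := fun v => q0 (s v)
  let B : (DihedralGroup 4 → ZMod 2) → (DihedralGroup 4 → ZMod 2) → ZMod 2 :=
    fun v v' => b0 (s v) (s v')
  have hQxi : ∀ w, Q (D.xi w) = q0 w := fun w => h.q_cong _ _ (D.xi_eq (hs _).symm)
  have hBxi : ∀ u v, B (D.xi u) (D.xi v) = b0 u v := by
    intro u v
    show b0 (s (D.xi u)) (s (D.xi v)) = b0 u v
    rw [h.b_cong_left _ u _ (D.xi_eq (hs _).symm), h.b_cong_right u v _ (D.xi_eq (hs _).symm)]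
  have hadd : ∀ v v', Q (v + v') = Q v + Q v' + B v v' := by
    intro v v'
    have e : D.xi (s v * s v') = v + v' := by rw [D.xi_mul, hs, hs]
    rw [← e, hQxi, h.q_mul]
  have hB1 : ∀ u v w, B (u + v) w = B u w + B v w := by
    intro u v w
    have e : D.xi (s u * s v) = u + v := by rw [D.xi_mul, hs, hs]
    have e2 : B (u + v) w = B (D.xi (s u * s v)) (D.xi (s w)) := by rw [e, hs]
    rw [e2, hBxi, h.b_mul_left]
  have hB2 : ∀ u v w, B u (v + w) = B u v + B u w := by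
    intro u v w
    have e : D.xi (s v * s w) = v + w := by rw [D.xi_mul, hs, hs]
    have e2 : B u (v + w) = B (D.xi (s u)) (D.xi (s v * s w)) := by rw [e, hs]
    rw [e2, hBxi, h.b_mul_right]
  set u := s (dlt 1) with hu
  have hxiu : D.xi u = dlt 1 := hs _
  have hxit : ∀ t : T, D.xi (cn W t u) = dlt (D.θ t) := by
    intro t
    funext k
    rw [D.xi_conj, hxiu]
    have e : ((D.θ t)⁻¹ * k = 1) ↔ k = D.θ t := by rw [inv_mul_eq_one, eq_comm]
    simp only [dlt, e]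
  have hs₀ : ∀ g, Q (dlt g) = q0 u := by
    intro g
    have := hxit (D.sec g)
    rw [D.hsec] at this
    rw [← this, hQxi, h.q_conj]
  let f : DihedralGroup 4 → ZMod 2 := fun g => B (dlt 1) (dlt g)
  have hf : ∀ g k, B (dlt g) (dlt k) = f (g⁻¹ * k) := by
    intro g k
    have e1 := hxit (D.sec g)
    have e2 := hxit (D.sec k)
    rw [D.hsec] at e1 e2
    have e3 := hxit ((D.sec g)⁻¹ * D.sec k)
    rw [map_mul, map_inv, D.hsec, D.hsec] at e3
    show B (dlt g) (dlt k) = B (dlt 1) (dlt (g⁻¹ * k))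
    rw [← e1, ← e2, ← e3, ← hxiu, hBxi, hBxi, ← h.b_conj (D.sec g)⁻¹]
    congr 1
    · apply Subtype.ext
      simp only [cn_val]
      group
    · apply Subtype.ext
      simp only [cn_val]
      group
  have hBuu : B (dlt 1) (dlt 1) = 0 := by
    rw [← hxiu, hBxi]
    unfold b0
    have e : (u : T) * u * (u : T)⁻¹ * (u : T)⁻¹ = 1 := by group
    rw [e, lam_one]
  have hf1 : f (r 0) = 0 := hBuu
  have hfinv : ∀ g, f g⁻¹ = f g := by
    intro g
    have e1 := hf g 1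
    rw [mul_one] at e1
    rw [← e1]
    show b0 (s (dlt g)) (s (dlt 1)) = b0 (s (dlt 1)) (s (dlt g))
    exact Hyp.b_symm _ _
  have hf0 : ∀ g : DihedralGroup 4, g * g = 1 → g ≠ 1 →
      (g = r 0 ∨ g = r 2 ∨ g = sr 0 ∨ g = sr 2) → f g = 0 := by
    intro g hgg hg1 hgc
    have e1 := hxit (D.sec g)
    rw [D.hsec] at e1
    show B (dlt 1) (dlt g) = 0
    rw [← e1, ← hxiu, hBxi]
    have ht1 : D.θ (D.sec g) = g := D.hsec g
    have hta : D.sec g * a = a * D.sec g := hcent _ (by rw [ht1]; exact hgc)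
    have htW : D.sec g ∉ W := by
      rw [D.mem_iff, ht1]
      exact hg1
    have ht2 : D.sec g ^ 2 ∈ W := by
      rw [D.mem_iff, map_pow, ht1, pow_two]
      exact hgg
    have := h.comm_conj_mem ha2 ha1 hta htW ht2 u.2 inferInstance
    unfold b0
    simp only [cn_val]
    exact lam_mem this
  have hsum : f (r 0) + f (r 1) + f (r 2) + f (r 3) + f (sr 0) + f (sr 1) + f (sr 2) + f (sr 3) = 0 := by
    have hone : D.xi x₀ = dlt (r 0) + dlt (r 1) + dlt (r 2) + dlt (r 3) + dlt (sr 0) + dlt (sr 1) + dlt (sr 2) + dlt (sr 3) := by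
      funext k
      rw [hxi]
      rcases k with i | i <;> fin_cases i <;> simp (decide := true) [dlt]
    have e1 : B (D.xi u) (D.xi x₀) = 0 := by
      rw [hBxi]
      unfold b0
      have e : (u : T) * x₀ * (u : T)⁻¹ * (x₀ : T)⁻¹ = 1 := by
        have := congrArg Subtype.val (hx₀ u)
        simp only [Subgroup.coe_mul] at this
        rw [this]
        group
      rw [e, lam_one]
    rw [hxiu, hone] at e1
    simp only [hB2] at e1
    exact e1
  have hfin := fin_core Q B hadd hB1 hB2 (q0 u) hs₀ f hf hf1 hfinv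
    (hf0 _ (by decide) (by decide) (by decide)) (hf0 _ (by decide) (by decide) (by decide))
    (hf0 _ (by decide) (by decide) (by decide)) hsum (D.xi w) h1 h2 h3
  rw [← hQxi]
  exact hfin

theorem q0_mk {W : Subgroup T} {x : T} (hx : x ∈ W) : q0 (⟨x, hx⟩ : ↥W) = lam (x ^ 2) := rfl

theorem b0_mk {W : Subgroup T} {x y : T} (hx : x ∈ W) (hy : y ∈ W) :
    b0 (⟨x, hx⟩ : ↥W) ⟨y, hy⟩ = lam (x * y * x⁻¹ * y⁻¹) := rfl

theorem Hyp.no_extra_aux (h : Hyp W) (I : Subgroup T) (hIW' : I ≤ W)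
    (hi : (I.subgroupOf W).index ≤ 8) (hsq : ∀ x ∈ I, x ^ 2 ∈ Z T 2)
    (hco : ∀ x ∈ I, ∀ y ∈ I, x * y * x⁻¹ * y⁻¹ ∈ Z T 2) (hZ : ∀ b ∈ Z T 3, b ∈ I) : False := by
  obtain ⟨a, b, -, -, hb3, hb2⟩ := exists_ab h.hT h.ha h.hb
  have hbW := h.Z3_le hb3
  have hbΦ : (⟨b, hbW⟩ : ↥W) ∈ frattini ↥W := (h.mem_Z3_iff hbW).1 hb3
  have hbI : b ∈ I := hZ b hb3
  have hI2 : IsPGroup 2 ↥I := h.hT.to_subgroup I
  have hNn : ((Z T 2).subgroupOf I).Normal := inferInstance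
  have hΦ : frattini ↥I ≤ (Z T 2).subgroupOf I := by
    refine Cfsg.Agent.H01.frattini_le_of_comm_pow (p := 2) _ ?_ ?_
    · rw [_root_.commutator_def, Subgroup.commutator_le]
      intro x _ y _
      rw [commutatorElement_def, Subgroup.mem_subgroupOf]
      simp only [Subgroup.coe_mul, Subgroup.coe_inv]
      exact hco _ x.2 _ y.2
    · intro x
      rw [Subgroup.mem_subgroupOf]
      simp only [Subgroup.coe_pow]
      exact hsq _ x.2
  have hbN : (⟨b, hbI⟩ : ↥I) ∉ frattini ↥I := fun hh => hb2 (hΦ hh)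
  obtain ⟨V, hVi, hbV⟩ := exists_index16 hIW' hI2 hi hbI hbN hbW
  exact hbV (h.hd V hVi hbΦ)

set_option maxHeartbeats 1000000 in
/-- The contradiction from a subspace on which the form vanishes. -/
theorem XD.no_extra (h : Hyp W) (D : XD W)
    (hq : ∀ w : ↥W,
      D.xi w (r 0) + D.xi w (r 1) + D.xi w (r 2) + D.xi w (r 3) + D.xi w (sr 0) + D.xi w (sr 1)
        + D.xi w (sr 2) + D.xi w (sr 3) = 0 →
      D.xi w (r 1) + D.xi w (r 3) + D.xi w (sr 1) + D.xi w (sr 3) = 0 →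
      D.xi w (r 1) + D.xi w (r 3) + D.xi w (sr 0) + D.xi w (sr 2) = 0 → q0 w = 0) : False := by
  classical
  let ℓ : (DihedralGroup 4 → ZMod 2) → ZMod 2 × ZMod 2 × ZMod 2 := fun v =>
    (v (r 0) + v (r 1) + v (r 2) + v (r 3) + v (sr 0) + v (sr 1) + v (sr 2) + v (sr 3),
     v (r 1) + v (r 3) + v (sr 1) + v (sr 3), v (r 1) + v (r 3) + v (sr 0) + v (sr 2))
  have hℓ : ∀ v v', ℓ (v + v') = ℓ v + ℓ v' := by
    intro v v'
    simp only [ℓ, Pi.add_apply, Prod.mk_add_mk, Prod.mk.injEq]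
    refine ⟨by ring, by ring, by ring⟩
  let Ψ : ↥W →* Multiplicative (ZMod 2 × ZMod 2 × ZMod 2) :=
    MonoidHom.mk' (fun w => Multiplicative.ofAdd (ℓ (D.xi w))) (by
      intro a b
      rw [D.xi_mul, hℓ, ofAdd_add])
  have hΨ : ∀ w : ↥W, w ∈ Ψ.ker ↔ ℓ (D.xi w) = 0 := by
    intro w
    rw [MonoidHom.mem_ker]
    exact Multiplicative.ofAdd.apply_eq_iff_eq
  have hi : Ψ.ker.index ≤ 8 := by
    rw [Subgroup.index_ker]
    refine (Subgroup.card_le_card_group _).trans ?_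
    have : Nat.card (Multiplicative (ZMod 2 × ZMod 2 × ZMod 2)) = 8 := by
      simp [Nat.card_eq_fintype_card]
    omega
  let I : Subgroup T := Ψ.ker.map W.subtype
  have hIW' : I ≤ W := by
    rintro _ ⟨x, -, rfl⟩
    exact x.2
  have hIsub : I.subgroupOf W = Ψ.ker := by
    ext x
    rw [Subgroup.mem_subgroupOf]
    constructor
    · rintro ⟨y, hy, hyx⟩
      have : y = x := Subtype.ext hyx
      rwa [← this]
    · intro hx
      exact ⟨x, hx, rfl⟩
  have hq0 : ∀ w : ↥W, w ∈ Ψ.ker → q0 w = 0 := by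
    intro w hw
    have h0 := (hΨ w).1 hw
    have h1 := congrArg Prod.fst h0
    have h2 := congrArg (fun p : ZMod 2 × ZMod 2 × ZMod 2 => p.2.1) h0
    have h3 := congrArg (fun p : ZMod 2 × ZMod 2 × ZMod 2 => p.2.2) h0
    exact hq w h1 h2 h3
  have hb0 : ∀ u v : ↥W, u ∈ Ψ.ker → v ∈ Ψ.ker → b0 u v = 0 := by
    intro u v hu hv
    have e := h.q_mul u v
    rw [hq0 _ (Ψ.ker.mul_mem hu hv), hq0 _ hu, hq0 _ hv, zero_add, zero_add] at e
    exact e.symm
  have hmem : ∀ x ∈ I, ∃ hx : x ∈ W, (⟨x, hx⟩ : ↥W) ∈ Ψ.ker := by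
    rintro _ ⟨y, hy, rfl⟩
    exact ⟨y.2, hy⟩
  refine h.no_extra_aux I hIW' (by rw [hIsub]; exact hi) ?_ ?_ ?_
  · intro x hx
    obtain ⟨hxW, hxΨ⟩ := hmem x hx
    have e := hq0 _ hxΨ
    exact lam_eq_zero.1 (q0_mk hxW ▸ e)
  · intro x hx y hy
    obtain ⟨hxW, hxΨ⟩ := hmem x hx
    obtain ⟨hyW, hyΨ⟩ := hmem y hy
    have e := hb0 _ _ hxΨ hyΨ
    exact lam_eq_zero.1 (b0_mk hxW hyW ▸ e)
  · intro b hb3
    have hbW := h.Z3_le hb3
    have hbΦ : (⟨b, hbW⟩ : ↥W) ∈ frattini ↥W := (h.mem_Z3_iff hbW).1 hb3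
    have hbΨ : (⟨b, hbW⟩ : ↥W) ∈ Ψ.ker := by
      rw [hΨ, D.xi_frattini h _ hbΦ]
      rfl
    exact ⟨⟨b, hbW⟩, hbΨ, rfl⟩

/-- `Z(W) = Z₃`. -/
theorem Hyp.center_eq (h : Hyp W) : (Subgroup.center ↥W).map W.subtype = Z T 3 := by
  classical
  have hZle : Z T 3 ≤ (Subgroup.center ↥W).map W.subtype := by
    intro z hz
    refine ⟨⟨z, h.Z3_le hz⟩, Subgroup.mem_center_iff.2 ?_, rfl⟩
    intro w
    exact Subtype.ext (h.central w.2 hz)
  refine le_antisymm ?_ hZle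
  by_contra hne
  haveI hZn : ((Subgroup.center ↥W).map W.subtype).Normal := inferInstance
  obtain ⟨x, ⟨x₀, hx₀c, rfl⟩, hxZ, hxc⟩ := exists_step h.hT (Z T 3) _ hne
  have hx₀Φ : x₀ ∉ frattini ↥W := fun hh => hxZ ((h.mem_Z3_iff x₀.2).2 hh)
  obtain ⟨χ, hχx, hχF⟩ := exists_chi h.W2 _ hx₀Φ
  obtain ⟨θ, a, ha2, ha1, hker, hsurj, hcent⟩ := h.exists_theta
  let sec := Function.surjInv hsurj
  have hsec : ∀ g, θ (sec g) = g := Function.surjInv_eq hsurj
  have hmemW : ∀ t, t ∈ W ↔ θ t = 1 := fun t => by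
    rw [← MonoidHom.mem_ker, hker]
  have c3 := card_Z_all h.hT h.ha h.hb 3 (by norm_num)
  have hb' := h.hb
  have hstep : ∀ x' : ↥W, (x' : T) ∉ Fr W → (∀ t : T, (x' : T) * t * (x' : T)⁻¹ * t⁻¹ ∈ Fr W) → χ x' ≠ 1 := by
    intro x' hx'F hx'c hχx'
    apply hχx
    rw [h.Fr_eq] at hx'F hx'c
    have hx1 : (x' : T) ∈ Z T (3 + 1) := mem_Z_succ.2 hx'c
    have hy1 : (x₀ : T) ∈ Z T (3 + 1) := mem_Z_succ.2 hxc
    have hm := idx2_mem (Z_mono (Nat.le_succ 3)) (by rw [c3]; exact hb') hx1 hx'F hy1 hxZ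
    have hm2 : ((x'⁻¹ * x₀ : ↥W) : T) ∈ Z T 3 := by
      simpa using hm
    have h5 := hχF _ ((h.mem_Z3_iff (x'⁻¹ * x₀ : ↥W).2).1 hm2)
    rw [map_mul, map_inv, hχx', inv_one, one_mul] at h5
    exact h5
  have hsec' : ∀ t : T, ∃ q, ∃ w' ∈ W, t = sec q * w' := by
    intro t
    refine ⟨θ t, (sec (θ t))⁻¹ * t, ?_, by group⟩
    rw [hmemW, map_mul, map_inv, hsec]
    simp
  have hinj : ∀ w, XiHom W χ sec w = 1 → w ∈ frattini ↥W := by
    intro w hw
    have := mem_of_xi W h.hT (Fr W) (Fr_le W) χ (fun w hw => hχF w ((mem_Fr w.2).1 hw)) hstep sec hsec' w hw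
    exact (mem_Fr w.2).1 this
  have hker2 : (XiHom W χ sec).ker = frattini ↥W := by
    apply le_antisymm
    · exact fun w hw => hinj w hw
    · intro f hf
      rw [MonoidHom.mem_ker]
      funext g
      have hfZ : (f : T) ∈ Z T 3 := (h.mem_Z3_iff f.2).2 hf
      have h1 : ((cn W (sec g)⁻¹ f : ↥W) : T) ∈ Z T 3 := by
        rw [cn_val]
        exact (inferInstance : (Z T 3).Normal).conj_mem _ hfZ _
      exact hχF _ ((h.mem_Z3_iff (cn W (sec g)⁻¹ f).2).1 h1)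
  have hsurj2 : Function.Surjective (XiHom W χ sec) := by
    rw [← MonoidHom.range_eq_top]
    apply Subgroup.eq_top_of_card_eq
    rw [← Subgroup.index_ker, hker2, h.count.2.1, Nat.card_fun, DihedralGroup.nat_card]
    simp
  let D : XD W := ⟨θ, sec, hsec, hker, χ, hχF, hinj, hsurj2⟩
  have hxi : ∀ g, D.xi x₀ g = 1 := by
    intro g
    show Multiplicative.toAdd (χ (cn W (sec g)⁻¹ x₀)) = 1
    have h1 : ((cn W (sec g)⁻¹ x₀ * x₀⁻¹ : ↥W) : T) ∈ Z T 3 := by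
      have h3 := (inferInstance : (Z T 3).Normal).conj_mem _ (hxc (sec g)) (sec g)⁻¹
      have e : (sec g)⁻¹ * ((x₀ : T) * sec g * (x₀ : T)⁻¹ * (sec g)⁻¹) * (sec g)⁻¹⁻¹
          = (sec g)⁻¹ * (x₀ : T) * (sec g)⁻¹⁻¹ * (x₀ : T)⁻¹ := by group
      have h4 : (sec g)⁻¹ * ((x₀ : T) * sec g * (x₀ : T)⁻¹ * (sec g)⁻¹) * (sec g)⁻¹⁻¹ ∈ Z T 3 := h3
      rw [e] at h4
      simpa using h4
    have h2 := hχF _ ((h.mem_Z3_iff (cn W (sec g)⁻¹ x₀ * x₀⁻¹ : ↥W).2).1 h1)
    rw [map_mul, map_inv, mul_inv_eq_one] at h2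
    rw [h2]
    rcases zmod2_cases (Multiplicative.toAdd (χ x₀)) with h5 | h5
    · exact absurd (Multiplicative.toAdd.injective h5) hχx
    · exact h5
  have hx₀c' : ∀ v : ↥W, v * x₀ = x₀ * v := Subgroup.mem_center_iff.1 hx₀c
  exact D.no_extra h (fun w h1 h2 h3 => D.q0_eq_zero h ha2 ha1 hcent x₀ hx₀c' hxi w h1 h2 h3)

end Cfsg.Agent.H27.T14
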